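import Cfsg.Agent.H57.MPS
import Cfsg.Agent.H42.Out
import Cfsg.Agent.H42.FusionSimple

/-! The Mathieu groups are not the socle of a minimal parabolic. -/

set_option autoImplicit false
set_option maxRecDepth 100000

namespace Cfsg.Agent.H57.MPS

open Subgroup MulAction Cfsg.Agent.H42
open scoped Pointwise

theorem not_inner {Γ : Type*} [Group Γ] {M : Subgroup Γ}
    (hC : ∀ c : Γ, (∀ x ∈ M, c * x = x * c) → c = 1) {a : Γ} (ha : a ∉ M) :
    ∀ c ∈ M, ¬ ∀ x ∈ M, a * x * a⁻¹ = c * x * c⁻¹ := fun c hc h => ha (by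
  rw [← inv_mul_eq_one.mp (hC (c⁻¹ * a) fun x hx => by
    calc _ = c⁻¹ * (a * x * a⁻¹) * a := by group
      _ = _ := by rw [h x hx]; group)]
  exact hc)

/-- `g` fixes the family with code `c` -/
noncomputable def fx (k c g : ℕ) : Bool := Nat.beq (famAct k g c) c

theorem fx_iff {k c g : ℕ} (hc : famOk k c = true) (hg : inM g = true) :
    fx k c g = true ↔ toM g ∈ stabilizer M24 (famDec k c) :=
  beq_iff.trans (toM_mem_stabilizer_famDec hg hc).symm

theorem le_fx {k c : ℕ} (hc : famOk k c = true) {l : List ℕ} (hl : ∀ g ∈ l, inM g = true) :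
    allL (fx k c) l = true ↔ gen l ≤ stabilizer M24 (famDec k c) :=
  ⟨fun h => gen_le _ fun g hg => (fx_iff hc (hl g hg)).mp (allL_iff.mp h g hg),
    fun h => allL_iff.mpr fun g hg => (fx_iff hc (hl g hg)).mpr (h (toM_mem_gen hg))⟩

theorem good_M {M P : Subgroup M24} {gens gP : List ℕ} (hM : M = gen gens) (hP : P = gen gP)
    (hPM : P ≤ M) (hgP : ∀ g ∈ gP, inM g = true) {inK : ℕ → Bool}
    (hK : ∀ g, inM g = true → inK g = true → toM g ∈ M) {k m : ℕ} (hc : Nat.card M = 2 ^ k * m)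
    (hm : Odd m) (hk : 0 < k) (hcP : Nat.card P = 2 ^ k) (k₁ c₁ k₂ c₂ : ℕ) (y₁ y₂ : List ℕ)
    (prog : List (List ℕ))
    (h : famOk k₁ c₁ = true ∧ famOk k₂ c₂ = true ∧ allL (fx k₁ c₁) gP = true ∧
      allL (fx k₂ c₂) gP = true ∧ allL inK (y₁ ++ y₂) = true ∧ allL (fx k₁ c₁) y₁ = true ∧
      allL (fx k₂ c₂) y₂ = true ∧ slpChk (y₁ ++ y₂) prog gens = true ∧
      allL (fx k₁ c₁) gens = false ∧ allL (fx k₂ c₂) gens = false)
    (ho : Nat.card (Out M) = 1 ∨ (Nat.card (Out M) = 2 ∧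
      (∀ c : M24, (∀ x ∈ M, c * x = x * c) → c = 1) ∧ ∃ a c₃, (inM a = true → toM a ∈ normalizer (M : Set M24)) ∧
        (inM a = true ∧ fx k₁ c₁ a = true ∧ fx k₂ c₂ a = true ∧ famOk 1 c₃ = true ∧
          allL (fx 1 c₃) gens = true ∧ fx 1 c₃ a = false))) : Good M := by
  obtain ⟨f1, f2, p1, p2, hy, q1, q2, hs, n1, n2⟩ := h
  obtain ⟨s1, s2⟩ := slpChk_spec hs
  have hg : ∀ g ∈ gens, inM g = true := fun g hg => (s2 g hg).1
  have hy' := fun g hg => hK g (s1 g hg) (allL_iff.mp hy g hg)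
  refine good_of (Y₁ := stabilizer M24 (famDec k₁ c₁)) (Y₂ := stabilizer M24 (famDec k₂ c₂)) hc hm
    hk (le_inf hPM (hP ▸ le_inf ((le_fx f1 hgP).mp p1) ((le_fx f2 hgP).mp p2))) hcP.symm.dvd
    (fun e => by rw [(le_fx f1 hg).mpr (hM ▸ e)] at n1; exact absurd n1 (by simp))
    (fun e => by rw [(le_fx f2 hg).mpr (hM ▸ e)] at n2; exact absurd n2 (by simp))
    (hM.le.trans ((gen_le_of_slpChk hs).trans (gen_le _ fun g hg => ?_))) (ho.imp_right ?_)
  · rcases List.mem_append.mp hg with e | e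
    · exact mem_sup_left ⟨hy' g hg, (fx_iff f1 (s1 g hg)).mp (allL_iff.mp q1 g e)⟩
    · exact mem_sup_right ⟨hy' g hg, (fx_iff f2 (s1 g hg)).mp (allL_iff.mp q2 g e)⟩
  · rintro ⟨o1, o2, a, c₃, a0, a1, a2, a3, a4, a5, a6⟩
    refine ⟨o1, toM a, ⟨a0 a1, (fx_iff f1 a1).mp a2, (fx_iff f2 a1).mp a3⟩, not_inner o2 fun e => ?_⟩
    rw [(fx_iff a4 a1).mpr ((le_fx a4 hg).mp a5 (hM ▸ e))] at a6
    exact absurd a6 (by simp)

theorem good11 : Good G11 :=
  good_M G11_eq P11_eq P11_le inM_gensP11 mem_of_inK11 (k := 4) (m := 495)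
    card_G11 (by decide) (by decide) card_P11 1 6 1 8
    [928826114922887887331593517499221056, 437673696385666828435562741295908896]
    [609703580701179292192403008541264160]
    [[0, 4, 4, 0, 4], [2, 2], [0], [4, 2, 2, 4, 2, 4, 4], [2], [2, 2, 4, 2, 4, 2, 2, 4, 2, 2], [2, 0, 4, 6, 10, 10, 8, 14], [4, 2, 6, 8, 2, 16, 18]]
    (by decide +kernel)
    (.inl card_Out_G11)

theorem good12 : Good G12 :=
  good_M G12_eq P12_eq P12_le inM_gensP12 mem_of_inK12 (k := 6) (m := 1485)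
    card_G12 (by decide) (by decide) card_P12 1 8536111 3 2402701715425661395200
    [726098387229991916328255735577218112, 222268168600061870645997135586135074, 606498126002060584759839440725148675]
    [636277849474876848079087736623473074]
    [[2, 0, 2], [8, 4, 8, 2, 4], [0, 2], [2, 2, 2, 2, 4, 2, 4, 4, 4], [0, 2, 2], [4, 2, 4, 2], [2, 0, 2, 2, 2, 0, 0], [2, 4, 2], [6, 6, 10, 8, 14, 10, 20], [4, 8, 2, 4, 10, 16, 12, 8, 24, 20]]
    (by decide +kernel)
    (.inr ⟨card_Out_G12, fun _ => eq_one_of_comm_G12, 104101224055957213775236603625018935, dod0,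
      fun h => GDD_le_normalizer (mem_of_inDD _ h (by decide +kernel)), by decide +kernel⟩)

theorem good22 : Good G22 :=
  good_M G22_eq P22_eq P22_le inM_gensP22 mem_of_inK22 (k := 7) (m := 3465)
    card_G22 (by decide) (by decide) card_P22 1 8536111 6 11150382242010895008167239022564679587348520
    [980918466641014163709173027995564576, 976973418045846904529908081504666688]
    [980672675253907021562764385068845088]
    [[0, 0, 4, 4], [2, 4, 6, 4], [0, 0, 2, 0], [4, 2, 4, 4, 4, 2, 4, 4, 2], [2, 0, 0, 0, 2, 0, 0], [4, 2, 4], [4, 4, 6, 6, 6, 4, 6, 4, 6], [0, 2, 2, 0, 4, 4, 0], [4, 6], [2, 8, 4, 10, 16, 0, 18, 10, 6], [6, 2, 14, 12, 20, 24]]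
    (by decide +kernel)
    (.inr ⟨card_Out_G22, fun _ => eq_one_of_comm_G22, 5606160153281566513024915164563511, 1,
      fun h => GD2_le_normalizer (mem_of_inD2 _ h (by decide +kernel)), by decide +kernel⟩)

theorem good23 : Good G23 :=
  good_M G23_eq P23_eq P23_le inM_gensP23 mem_of_inK23 (k := 7) (m := 79695)
    card_G23 (by decide) (by decide) card_P23 1 8536111 6 11150382242010895008167239022564679587348520
    [967689239045231565372122801062328389, 984483264039643978354533745211544577]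
    [974390385666458981637172667549910018]
    [[0, 2, 4], [2, 2], [2, 2, 2, 0, 2, 0, 0, 2, 0], [2, 4], [0, 2, 2, 0], [2, 4, 2, 2, 4], [2, 0, 0, 2, 2, 0, 0, 2, 0, 2], [4, 4, 2, 4, 4, 2, 2, 2, 4, 4, 2, 4], [4], [2, 4], [6, 2, 4, 4, 2, 4], [0, 8, 4, 6, 12, 8, 0, 16, 12, 16, 18, 24, 20], [6, 8, 18, 16, 14, 22, 16, 24, 26]]
    (by decide +kernel)
    (.inl card_Out_G23)

theorem good24 : Good (⊤ : Subgroup M24) :=
  good_M gen_gens24.symm P24_eq P24_le inM_gensP24 (inK := fun _ => true) (fun _ _ _ => trivial) (k := 10) (m := 239085)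
    card_G24 (by decide) (by decide) card_P24 1 8536111 6 11150382242010895008167239022564679587348520
    [970541602689926208761297334277028002, 232853914392219399284563995968718560]
    [916698010004169437613271087856259597]
    [[4, 2, 0, 0, 2, 4, 2], [6, 4, 6], [2, 0, 0], [2, 2, 4, 4, 2, 2, 2, 2], [2, 0], [4, 4, 2, 2], [2, 2, 0, 2, 2, 2, 0, 2, 0], [2, 2, 2, 2, 4, 2], [0, 2, 2, 2, 0, 2, 2, 0], [2, 2, 4, 2], [6, 6, 4, 6, 4, 4, 6], [2, 2], [2, 2, 2, 4], [0, 8, 6, 10, 16, 6, 10, 18, 20, 24, 24, 18, 26, 6], [4, 6, 8, 14, 14, 10, 18, 14, 12, 26, 26, 20]]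
    (by decide +kernel)
    (.inl card_Out_G24)

end Cfsg.Agent.H57.MPS
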