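import Cfsg.Agent.H53.DgKit

/-! Fixed point free elements on unipotent radicals, and three special cases. -/

set_option autoImplicit false

namespace Cfsg.Agent.H57.DgV

open Module Cfsg.Agent.H26 Cfsg.Agent.H53.Dg

variable {F V : Type} [Field F] [AddCommGroup V] [Module F V]

/-- the properties of the linear map on the totally singular subspace -/
structure Good (A : V ≃ₗ[F] V) (r : ℕ) : Prop where
  pow : A ^ r = 1
  fix : ∀ y, A y = y → y = 0
  pol : ∃ a b c : F, (∀ y, a • y + b • A y + c • A (A (A y)) = 0) ∧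
    ∀ y, a • A (A (A y)) + b • A (A y) + c • y = 0 → y = 0

theorem good_one [Finite F] {r : ℕ} (hr : r.Prime) (h2 : r ≠ 2) (hd : r ∣ Nat.card F - 1) :
    ∃ A : V ≃ₗ[F] V, Good A r := by
  have := Fact.mk hr
  obtain ⟨t, ht⟩ := exists_prime_orderOf_dvd_card' (G := Fˣ) r (by rwa [Nat.card_units])
  have h1 : t * t ≠ 1 := fun e => h2 ((Nat.prime_dvd_prime_iff_eq hr Nat.prime_two).1
    (ht ▸ orderOf_dvd_of_pow_eq_one (by rwa [pow_two])))
  have h3 : (t : F) * t - 1 ≠ 0 := fun e => h1 (Units.ext (sub_eq_zero.1 e))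
  have h4 : (t : F) - 1 ≠ 0 := fun e => h3 (by rw [sub_eq_zero.1 e]; ring)
  refine ⟨DistribMulAction.toModuleAut F V t, by rw [← map_pow, ← ht, pow_orderOf_eq_one, map_one],
    fun y h => ?_, -t, 1, 0, fun y => ?_, fun y h => ?_⟩
  · refine (smul_eq_zero_iff_right h4).1 ?_
    rw [sub_smul, one_smul]
    exact sub_eq_zero.2 h
  · change (-t : F) • y + (1 : F) • (t : F) • y + _ = 0
    module
  · refine (smul_eq_zero_iff_right (mul_ne_zero (mul_ne_zero t.ne_zero t.ne_zero) h3)).1 ?_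
    replace h : (-t : F) • (t : F) • (t : F) • (t : F) • y + (1 : F) • (t : F) • (t : F) • y +
      (0 : F) • y = 0 := h
    rw [← neg_eq_zero, ← h]
    module

theorem good_three [Finite F] [Finite V] (hq : Nat.card F = 2) (hd : finrank F V = 3) :
    ∃ A : V ≃ₗ[F] V, Good A 7 := by
  have := Fintype.ofFinite F
  have h2 : (2 : F) = 0 := by
    have := Nat.cast_card_eq_zero F
    rwa [← Nat.card_eq_fintype_card, hq] at this
  have hh : ∀ y : V, y + y = 0 := fun y => by rw [← two_smul F, h2, zero_smul]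
  obtain ⟨A, hA⟩ : ∃ A : V ≃ₗ[F] V, ∀ y, A (A (A y)) = y + A y := by
    let e := (finBasisOfFinrankEq F V hd).equivFun
    let B : (Fin 3 → F) ≃ₗ[F] (Fin 3 → F) :=
      { toFun := fun v => ![v 2, v 0 + v 2, v 1]
        invFun := fun v => ![v 1 - v 0, v 2, v 0]
        map_add' := fun a b => by ext i; fin_cases i <;> simp [add_add_add_comm]
        map_smul' := fun a b => by ext i; fin_cases i <;> simp [mul_add]
        left_inv := fun a => by ext i; fin_cases i <;> simp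
        right_inv := fun a => by ext i; fin_cases i <;> simp }
    refine ⟨e.trans (B.trans e.symm), fun y => e.injective ?_⟩
    simp only [LinearEquiv.trans_apply, LinearEquiv.apply_symm_apply, map_add]
    ext i
    fin_cases i <;> simp [B]
  have hf : ∀ y, A y = y → y = 0 := fun y h => by
    have := hA y
    rw [h, h, h, hh] at this
    exact this
  refine ⟨A, LinearEquiv.ext fun y => ?_, hf, 1, 1, 1, fun y => ?_, fun y h => hf y ?_⟩
  · change A (A (A (A (A (A (A y)))))) = y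
    rw [hA (A (A (A (A y)))), hA (A y), map_add, hA]
    linear_combination (norm := module) hh (A y) + hh (A (A y))
  · rw [hA, one_smul, one_smul, one_smul, hh]
  · rw [hA, one_smul, one_smul, one_smul] at h
    refine A.injective ?_
    linear_combination (norm := module) h - hh y - hh (A y)

variable {P : PForm F V} {k : ℕ} (L : Lev P k)

theorem opp' {y : V} (h : y ∈ L.X') (h' : y ∈ P.perp L.X) : y = 0 :=
  L.hW y (by rw [PForm.perp_sup]; exact ⟨h', L.ts'.2 h⟩) fun x hx =>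
    hx y (Submodule.mem_sup_right h)

theorem opp {y : V} (h : y ∈ L.X) (h' : y ∈ P.perp L.X') : y = 0 :=
  (Submodule.mem_bot F).1 (L.opp ▸ Submodule.mem_inf.2 ⟨h, h'⟩)

theorem dec [Finite V] (v : V) : ∃ a ∈ L.X, ∃ b ∈ L.X', ∃ c ∈ L.W, v = a + b + c := by
  have h : (L.X ⊔ L.X') ⊔ L.W = ⊤ := by
    rw [← PForm.perp_perp (P := P) (_ ⊔ L.W), eq_top_iff, PForm.le_perp_comm, PForm.perp_top,
      PForm.perp_sup]
    exact fun y hy => L.hW y hy.1 (PForm.mem_perp'.1 hy.2)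
  obtain ⟨_, h1, c, hc, rfl⟩ := Submodule.mem_sup.1 (h ▸ Submodule.mem_top : v ∈ _)
  obtain ⟨a, ha, b, hb, rfl⟩ := Submodule.mem_sup.1 h1
  exact ⟨a, ha, b, hb, c, hc, rfl⟩

theorem eq_one [Finite V] {g : V ≃ₗ[F] V} (h1 : ∀ y ∈ L.X, g y = y) (h2 : ∀ y ∈ L.X', g y = y)
    (h3 : ∀ y ∈ L.W, g y = y) : g = 1 := LinearEquiv.ext fun v => by
  obtain ⟨a, ha, b, hb, c, hc, rfl⟩ := dec L v
  rw [map_add, map_add, h1 a ha, h2 b hb, h3 c hc]
  rfl

theorem W_le : L.W ≤ P.perp L.X := PForm.perp_anti le_sup_left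

theorem W_le' : L.W ≤ P.perp L.X' := PForm.perp_anti le_sup_right

theorem mem_X [Finite V] {v : V} (h1 : v ∈ P.perp L.X) (h2 : v ∈ P.perp L.W) : v ∈ L.X := by
  rw [PForm.perp_perp] at h2
  obtain ⟨a, ha, b, hb, rfl⟩ := Submodule.mem_sup.1 h2
  rwa [opp' L hb (by simpa using sub_mem h1 (L.ts.2 ha)), add_zero]

theorem main [Finite V] (hσ : ∀ a, P.σ a = a) (hk : 0 < k) {A : L.X ≃ₗ[F] L.X} {r : ℕ}
    (hr : r.Prime) (G : Good A r) : ∃ x : P.isom, orderOf x = r ∧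
      (∀ u ∈ UU P P.isom L.X, x * u * x⁻¹ ∈ UU P P.isom L.X) ∧
      ∀ u ∈ UU P P.isom L.X, x * u = u * x → u = 1 := by
  have := Fact.mk hr
  obtain ⟨x, hx, s1, s2, hA, hB⟩ := L.surj A 1
  have xA : ∀ y : L.X, x y = A y := fun y => by rw [← hA, rs_apply s1]
  have fix : ∀ y ∈ L.X, x y = y → y = 0 := fun y hy e =>
    congrArg Subtype.val (G.fix ⟨y, hy⟩ (Subtype.ext ((xA _).symm.trans e)))
  have xW : ∀ v ∈ L.W, x v = v := fun v hv => by
    have := L.pr_spec x hx s1 ⟨v, hv⟩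
    rw [hB] at this
    exact sub_eq_zero.1 (opp L this (sub_mem
      (PForm.map_perp hx (fun w hw => (inv_mem s2 w).1 hw) (W_le' L hv)) (W_le' L hv)))
  refine ⟨⟨x, hx⟩, orderOf_eq_prime (Subtype.ext ?_) fun e => ?_, fun u hu => ?_, fun u hu e => ?_⟩
  · have h1 : ∀ y ∈ L.X, (x ^ r) y = y := fun y hy => by
      have : rs L.X (x ^ r) = 1 := by
        rw [← G.pow, ← hA]
        exact map_pow (rsHom ⊤ L.X) ⟨⟨x, trivial⟩, s1⟩ r
      rw [← rs_apply (pow_mem s1 r) ⟨y, hy⟩, this]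
      rfl
    change x ^ r = 1
    refine eq_one L h1 (fun y hy => sub_eq_zero.1 (opp' L (sub_mem ((pow_mem s2 r y).1 hy) hy)
      fun z hz => ?_)) fun y hy => ?_
    · rw [P.f_sub_left, ← PForm.isom_f (pow_mem hx r) y z, h1 z hz, sub_self]
    · exact LinearEquiv.pow_apply x r y ▸ Function.iterate_fixed (xW y hy) r
  · obtain ⟨y, hy⟩ := (finrank_pos_iff_exists_ne_zero (R := F) (M := L.X)).1 (L.dim.symm ▸ hk)
    exact hy (Subtype.ext (fix y y.2 (by rw [show x = 1 from congrArg Subtype.val e]; rfl)))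
  · rw [mem_UU le_rfl] at hu ⊢
    refine ⟨fun y hy => ?_, fun v hv => ?_⟩
    · change x (u.1 (x⁻¹ y)) = y
      rw [hu.1 _ ((inv_mem s1 y).1 hy), PForm.apply_inv_apply]
    · have := (s1 _).1 (hu.2 (x⁻¹ v) (PForm.map_perp (inv_mem hx) (fun w hw => (s1 w).1 hw) hv))
      rwa [map_sub, PForm.apply_inv_apply] at this
  · rw [mem_UU le_rfl] at hu
    have c : ∀ v, u.1 (x v) = x (u.1 v) := fun v =>
      (LinearEquiv.congr_fun (congrArg Subtype.val e) v).symm
    have uW : ∀ v ∈ L.W, u.1 v = v := fun v hv => sub_eq_zero.1 (fix _ (hu.2 v (W_le L hv)) (by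
      rw [map_sub, ← c, xW v hv]))
    refine Subtype.ext (eq_one L hu.1 (fun y hy => ?_) uW)
    have n : ∀ z, u.1 z = z → P.f (u.1 y - y) z = 0 := fun z hz => by
      rw [P.f_sub_left, ← PForm.isom_f u.2 y z, hz, sub_self]
    have m := mem_X L (fun z hz => n z (hu.1 z hz)) fun z hz => n z (uW z hz)
    obtain ⟨a, b, d, p1, p2⟩ := G.pol
    have s := fun z hz => (s2 z).1 hz
    have q : a • x (x (x y)) + b • x (x y) + d • y = 0 := opp' L (add_mem (add_mem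
      (L.X'.smul_mem _ (s _ (s _ (s _ hy)))) (L.X'.smul_mem _ (s _ (s _ hy)))) (L.X'.smul_mem _ hy))
      fun z hz => by
        obtain ⟨z, rfl⟩ : ∃ t : L.X, z = x (x (x t)) := ⟨A.symm (A.symm (A.symm ⟨z, hz⟩)), by
          simp only [xA, LinearEquiv.apply_symm_apply]⟩
        have := congrArg (fun t : L.X => P.f y t) (p1 z)
        simp only [Submodule.coe_add, Submodule.coe_smul, ← xA, P.f_add_right, P.f_smul_right, hσ,
          Submodule.coe_zero, P.f_zero_right] at this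
        simp only [P.f_add_left, P.f_smul_left, PForm.isom_f hx, this]
    refine sub_eq_zero.1 (congrArg Subtype.val (p2 ⟨_, m⟩ (Subtype.ext ?_)))
    have := congrArg u.1 q
    simp only [map_add, map_smul, c, map_zero] at this
    simp only [Submodule.coe_add, Submodule.coe_smul, ← xA, map_sub, smul_sub, Submodule.coe_zero]
    linear_combination (norm := module) this - q

theorem v2 (hL : LeviStmt) : V2Stmt := by
  intro F V _ _ _ _ _ P sp w e d r T hd h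
  obtain ⟨L, -⟩ := hL F V P sp w e d T hd
  rcases h with ⟨rfl, h1, h2, h3⟩ | ⟨rfl, rfl, h⟩
  · obtain ⟨A, G⟩ := good_one (V := L.X) h1 h2 h3
    obtain ⟨x, hx⟩ := main L T.sig one_pos h1 G
    exact ⟨_, x, L.ts, L.dim, hx⟩
  · obtain ⟨A, G⟩ := good_three h L.dim
    obtain ⟨x, hx⟩ := main L T.sig three_pos (by norm_num) G
    exact ⟨_, x, L.ts, L.dim, hx⟩

theorem both (hL : LeviStmt) (hS : SdStmt) (hN : NofixStmt) (hU : SubStmt) (hV : VlStmt)
    (hW : WittStmt) [Finite F] [Finite V] {sp : Bool} {w e d r : ℕ} (T : Ty P sp w e) (hd : d < w)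
    (h0 : 0 < d)
    (h : (d = 1 ∧ r.Prime ∧ r ≠ 2 ∧ r ∣ Nat.card F - 1) ∨ (d = 3 ∧ r = 7 ∧ Nat.card F = 2))
    (C : Cusp F w true 1) : ∃ (L : Lev P w) (ψ : (L.X ≃ₗ[F] L.X) → ℂ) (χ χ' : P.isom → ℂ)
      (n n' : ℕ), CuspFn ψ true 1 ∧ IsIrrCharacter _ χ ∧ IsIrrCharacter _ χ' ∧
      (∀ g, L.hc ψ (fun _ => 1) g = χ g + χ' g) ∧ χ 1 = n ∧ χ' 1 = n' ∧
      (n + n') * (Nat.card F ^ w - 1) = Nk (Nat.card F) w e w ∧ Dg P n 1 ∧ Dg P n' 1 ∧
      r ∣ n ∧ r ∣ n' := by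
  obtain ⟨L, -⟩ := hL F V P sp w e w T le_rfl
  obtain ⟨ψ, hψ⟩ := C L.X L.dim
  obtain ⟨χ, χ', n, n', h1, h2, h3, h4, h5, h6, h7, h8⟩ :=
    hS F V P sp w e w 1 L ψ T (by omega) (by omega) hψ
  obtain ⟨Y, x, y1, y2, y3, y4, y5⟩ := v2 hL F V P sp w e d r T hd.le h
  have hr : r.Prime := by
    rcases h with h | ⟨-, rfl, -⟩
    exacts [h.2.1, by norm_num]
  have z := hN F V P P.isom L.X Y ψ (fun _ => 1) T.sig PForm.E_le_isom le_rfl L.ts y1 hψ.cusp
    (fun _ _ _ _ _ => rfl) (by rw [y2, L.dim]; exact hd) fun S hS => by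
      have := (hW F V P sp w e T).1 S hS
      rw [y2, L.dim]
      omega
  have c : ∀ {χ : P.isom → ℂ}, IsIrrCharacter _ χ → IsCharacter _ χ :=
    fun ⟨n, ρ, _, e⟩ => ⟨n, ρ, e⟩
  replace z : ∑ᶠ u : UU P P.isom Y, (χ u + χ' u) = 0 := by
    rw [← z]
    exact finsum_congr fun u => (h3 u).symm
  exact ⟨L, ψ, χ, χ', n, n', hψ, h1, h2, h3, h4, h5, h6, ⟨χ, h1, h4, h7⟩, ⟨χ', h2, h5, h8⟩,
    hV _ χ _ x r n (c h1) h4 hr y3 y4 y5 (hU _ χ χ' _ (c h1) (c h2) z),
    hV _ χ' _ x r n' (c h2) h5 hr y3 y4 y5 (hU _ χ' χ _ (c h2) (c h1) (by simpa only [add_comm] using z))⟩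

theorem odd_Nk {q w : ℕ} (hq : Even q) (h0 : q ≠ 0) : Odd (Nk q w 1 w) :=
  Finset.prod_induction _ Odd (fun _ _ => Odd.mul) odd_one fun i hi => by
    have := Finset.mem_range.1 hi
    exact (Nat.Even.sub_odd (Nat.one_le_pow _ _ (by omega)) (hq.pow_of_ne_zero (by omega))
      odd_one).mul (hq.pow_of_ne_zero (by omega)).add_one

theorem sp_even (hL : LeviStmt) (hS : SdStmt) (hN : NofixStmt) (hU : SubStmt) (hV : VlStmt)
    (hW : WittStmt) (hD : DescStmt) [Finite F] [Finite V] {w d r : ℕ} (T : Ty P true w 1)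
    (hd : d < w) (h0 : 0 < d) (hq : Even (Nat.card F)) (hr : Odd r)
    (h : (d = 1 ∧ r.Prime ∧ r ≠ 2 ∧ r ∣ Nat.card F - 1) ∨ (d = 3 ∧ r = 7 ∧ Nat.card F = 2))
    (C : Cusp F w true 1) : Dv P (2 * r) := by
  obtain ⟨-, -, -, -, n, n', -, -, -, -, -, -, h1, h2, h3, h4, h5⟩ :=
    both hL hS hN hU hV hW T hd h0 h C
  have key : ∀ n, Dg P n 1 → r ∣ n → Even n → Dv P (2 * r) := fun n a b c => by
    obtain ⟨m, m1, m2⟩ := hD F V P true w 1 n 1 T (by omega) (.inl rfl) a (.inl rfl)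
    exact ⟨m, ((Nat.coprime_two_left.2 hr).mul_dvd_of_dvd_of_dvd c.two_dvd b).trans
      (by simpa [cc] using m2), m1⟩
  have := Nat.Odd.of_mul_left (h1 ▸ odd_Nk hq Nat.card_pos.ne')
  rcases Nat.even_or_odd n with e | e
  · exact key n h2 h4 e
  · exact key n' h3 h5 ((Nat.odd_add.1 this).1 e)

theorem sp4 (hL : LeviStmt) (hS : SdStmt) (hN : NofixStmt) (hU : SubStmt) (hV : VlStmt)
    (hW : WittStmt) (hD : DescStmt) : Sp4Stmt := fun F _ _ _ _ _ _ _ r T hq hr hd C => by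
  have : Odd r := (Nat.Even.sub_odd Nat.card_pos hq odd_one).of_dvd_nat hd
  exact sp_even hL hS hN hU hV hW hD T one_lt_two one_pos hq this
    (.inl ⟨rfl, hr, by rintro rfl; exact absurd this (by decide), hd⟩) C

theorem sp82 (hL : LeviStmt) (hS : SdStmt) (hN : NofixStmt) (hU : SubStmt) (hV : VlStmt)
    (hW : WittStmt) (hD : DescStmt) : Sp82Stmt := fun _ _ _ _ _ _ _ _ T hq C =>
  sp_even hL hS hN hU hV hW hD T (d := 3) (r := 7) (by norm_num) three_pos (hq ▸ even_two)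
    (by decide) (.inr ⟨rfl, rfl, hq⟩) C

theorem o5 (hL : LeviStmt) (hS : SdStmt) (hN : NofixStmt) (hU : SubStmt) (hV : VlStmt)
    (hW : WittStmt) (hD : DescStmt) (h1 : S1Stmt) : O5Stmt := by
  intro F V _ _ _ _ _ P p r T hp hc hr h2 hd C
  obtain ⟨L, ψ, χ, χ', n, n', a1, a2, a3, a4, a5, a6, -, b2, b3, b4, b5⟩ :=
    both hL hS hN hU hV hW T one_lt_two one_pos (.inl ⟨rfl, hr, h2, hd⟩) C
  have pq : p ∣ Nat.card F := by
    have := Fintype.ofFinite F
    rw [← CharP.cast_eq_zero_iff F p, Nat.card_eq_fintype_card]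
    exact Nat.cast_card_eq_zero F
  have pr : p.Coprime r := (Nat.coprime_primes hp hr).2 (by
    rintro rfl
    exact hp.one_lt.ne' (Nat.dvd_one.1 ((Nat.dvd_sub_iff_right Nat.card_pos pq).1 hd)))
  have key : ∀ n, Dg P n 1 → r ∣ n → p ∣ n → Dv P (p * r) := fun n a b c => by
    obtain ⟨m, m1, m2⟩ := hD F V P false 2 1 n 1 T one_le_two (.inr (T.orth rfl).2.2.2.ge) a
      (.inl rfl)
    rw [cc, if_neg (by decide), if_neg (Nat.not_even_iff_odd.2 T.odd)] at m2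
    exact ⟨m, (Nat.Coprime.pow_right 2 (Nat.coprime_two_right.2 ((T.odd.of_dvd_nat pq).mul
      (hr.odd_of_ne_two h2)))).dvd_of_dvd_mul_left
      ((pr.mul_dvd_of_dvd_of_dvd c b).trans m2), m1⟩
  rcases h1 F V P p L ψ χ χ' n n' T hp hc a1 a2 a3 a4 a5 a6 with e | e
  exacts [key n b2 b4 e, key n' b3 b5 e]

end Cfsg.Agent.H57.DgV
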