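import Cfsg.Agent.H49.BN2Defs

/-! Octagons: the end of the proof. -/

set_option autoImplicit false
set_option linter.unusedSectionVars false

namespace Cfsg.Agent.H57.O8f

open Cfsg.Agent.H49.BN2 MulAction

universe u

variable {p : ℕ} {X G : Type u} [Group G] [MulAction G X] [Finite X] [Finite G] {S : Sys 8 p X G}

theorem mem_D {x y u v : X} {g : G} : g ∈ S.D x y u v ↔ g ∈ S.V x y ∧ g • u = u ∧ g • v = v :=
  and_assoc

theorem low (b1 : S.toPol.Bas) (b2 : S.Bas) (hl : S.O8l) {x y : X} (hxy : S.d x y = 1)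
    {D : Subgroup G} (hD : D ≤ S.V x y) (ho : S.toPol.HasOpp {w | ∀ g ∈ (D : Set G), g • w = w})
    {P x1 : X} (hc : S.Cen P) (hP : ∀ g ∈ D, g • P = P) (h1 : ∀ g ∈ D, g • x1 = x1)
    (d1 : S.d P x1 = 1) :
    S.toPol.q x1 + 1 ≤ (S.toPol.nb P ∩ {w | ∀ g ∈ (D : Set G), g • w = w}).ncard := by
  have cv := b2.conv D
  obtain ⟨β, hβ, dβ, nβ⟩ := b1.fix2 _ cv ho P hP x1
  obtain ⟨x4, h4, d4, d4'⟩ := b1.extF _ cv ho x1 h1 P 3 (by omega)
  obtain ⟨x3, h3, d3, -⟩ := b1.fix2 _ cv ho x4 h4 x4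
  have e1 := S.d_symm x4 x1
  have e2 := S.d_symm x4 P
  have d5 := b1.away P x1 β x4 d1 dβ nβ.symm (by omega) (by omega)
  have p1 := b1.par P x4 x3
  have p2 := b1.par x1 x4 x3
  have q3 : S.toPol.q x1 = S.toPol.q x3 := b2.q_even _ _ (by
    rw [Nat.even_iff] at p2 ⊢; omega)
  have ln : S.Ln x3 := b2.ln_odd P x3 hc (by rw [Nat.even_iff] at p1; rw [Nat.odd_iff]; omega)
  have cA := (hl x3 ln).2 x4 (S.d_symm _ _ ▸ d3)
  have fx : ∀ a ∈ S.A x4 x3, a • P = P ∧ a • x1 = x1 := fun a ha =>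
    ⟨ha.2.1 P (by omega), ha.2.1 x1 (by omega)⟩
  have inj : Function.Injective fun a : S.A x4 x3 => a.1 • β := fun a a' e => by
    have := b2.rigA (a'⁻¹ * a).1 x4 β 4 (by omega) (a'⁻¹ * a).2.2.1
      (by rw [Subgroup.coe_mul, mul_smul, Subgroup.coe_inv, inv_smul_eq_iff]; exact e) (by omega)
    exact (inv_mul_eq_one.1 (Subtype.ext this)).symm
  have sub : insert x1 (Set.range fun a : S.A x4 x3 => a.1 • β) ⊆
      S.toPol.nb P ∩ {w | ∀ g ∈ (D : Set G), g • w = w} := by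
    rintro _ (rfl | ⟨a, rfl⟩)
    · exact ⟨d1, h1⟩
    · refine ⟨?_, fun g hg => ?_⟩
      · have := S.d_smul a.1 P β
        rw [(fx a a.2).1] at this
        exact this.trans dβ
      · have := a.2.1.2 g (b2.uni x y x4 x3 hxy d3 g (hD hg) (h4 g hg) (h3 g hg))
        rw [← mul_smul, this, mul_smul, hβ g hg]
  refine le_trans ?_ (Set.ncard_le_ncard sub)
  rw [Set.ncard_insert_of_notMem, Set.ncard_range_of_injective inj]
  · omega
  · rintro ⟨a, e⟩
    exact nβ (smul_left_cancel a.1 (e.trans (fx a a.2).2.symm))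

theorem up (b1 : S.toPol.Bas) (b2 : S.Bas) {x y u v : X} (hop : S.toPol.Opp x y u v)
    (ho : S.toPol.HasOpp {w | ∀ g ∈ (S.D x y u v : Set G), g • w = w}) {P x1 : X}
    (hP : ∀ g ∈ S.D x y u v, g • P = P) (h1 : ∀ g ∈ S.D x y u v, g • x1 = x1) (d1 : S.d P x1 = 1)
    (nf : ¬ S.toPol.nb P ⊆ {w | ∀ g ∈ (S.D x y u v : Set G), g • w = w}) :
    2 * (S.toPol.nb P ∩ {w | ∀ g ∈ (S.D x y u v : Set G), g • w = w}).ncard ≤ S.toPol.q P + 2 := by
  have := Fact.mk S.hp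
  have cv := b2.conv (S.D x y u v)
  obtain ⟨β, hβ, dβ, nβ⟩ := b1.fix2 _ cv ho P hP x1
  obtain ⟨e, he, d7, d8⟩ := b1.extF _ cv ho x1 h1 P 7 (by omega)
  have s1 := S.d_symm e x1
  have s2 := S.d_symm e P
  have s3 := S.d_symm x1 P
  obtain ⟨e', de, d6⟩ := b1.geo_ex e x1 1 (by omega)
  have he' := cv e he x1 h1 e' (by omega) d6
  have t1 := b1.tri e e' P
  have t2 := b1.tri e' x1 P
  have op : ∀ γ, S.d P γ = 1 → γ ≠ x1 → S.toPol.Opp e e' P γ := fun γ dγ nγ =>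
    ⟨de, dγ, by omega, by
      have := b1.away P x1 γ e' d1 dγ nγ.symm (by omega) (by omega)
      omega⟩
  have dn : ∀ γ, S.d P γ = 1 → γ ≠ x1 → (∀ g ∈ S.D x y u v, g • γ = γ) →
      S.D e e' P γ = S.D x y u v := fun γ dγ nγ hγ =>
    b2.dn x y u v e e' P γ hop (op γ dγ nγ) fun g hg => ⟨he g hg, he' g hg, hP g hg, hγ g hg⟩
  generalize S.D x y u v = D at *
  let N : Subgroup G := S.V e e' ⊓ stabilizer G P ⊓ Subgroup.normalizer (D : Set G)
  have pN : IsPGroup p N := (S.V_p e e' de).to_le (inf_le_left.trans inf_le_left)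
  have orb : orbit N β = (S.toPol.nb P \ {x1}) ∩ {w | ∀ g ∈ (D : Set G), g • w = w} := by
    ext γ
    constructor
    · rintro ⟨⟨w, ⟨hw, wP⟩, wN⟩, rfl⟩
      have wP : w • P = P := wP
      have w1 : w • x1 = x1 := b2.geo_fix w e' P x1
        (S.V_fix e' e (S.d_symm _ _ ▸ de) w (S.V_symm _ _ ▸ hw)) wP (by omega) (by omega)
      refine ⟨⟨?_, fun a => nβ (smul_left_cancel w (Eq.trans a w1.symm))⟩, fun g hg => ?_⟩
      · have := S.d_smul w P β
        rw [wP] at this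
        exact this.trans dβ
      · have := hβ _ ((Subgroup.mem_normalizer_iff''.1 wN g).1 hg)
        change g • w • β = w • β
        rwa [mul_smul, mul_smul, inv_smul_eq_iff] at this
    · rintro ⟨⟨dγ, nγ⟩, hγ⟩
      obtain ⟨w, hw, wP, wβ⟩ := S.V_tr e e' P β P γ (op β dβ nβ) (op γ dγ nγ)
      refine ⟨⟨w, ⟨hw, wP⟩, Subgroup.mem_normalizer_fintype fun g hg => ?_⟩, wβ⟩
      have g1 := mem_D.1 (dn β dβ nβ hβ ▸ hg :)
      refine dn γ dγ nγ hγ ▸ mem_D.2 ⟨mul_mem (mul_mem hw g1.1) (inv_mem hw), ?_, ?_⟩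
      · rw [mul_smul, mul_smul, inv_smul_eq_iff.2 wP.symm, g1.2.1, wP]
      · rw [mul_smul, mul_smul, inv_smul_eq_iff.2 wβ.symm, g1.2.2, wβ]
  obtain ⟨a, ha⟩ := pN.card_orbit β
  rw [orb, Nat.card_coe_set_eq] at ha
  obtain ⟨k, hk⟩ := b2.q_pow P
  have lt : p ^ a < p ^ (k + 1) := by
    rw [← ha, ← hk, ← b1.card_nb P x1 d1]
    refine Set.ncard_lt_ncard ⟨Set.inter_subset_left, fun c => nf fun w hw => ?_⟩
    by_cases w1 : w = x1
    · exact w1 ▸ h1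
    · exact (c ⟨hw, w1⟩).2
  have le : p ^ a ≤ p ^ k := Nat.pow_le_pow_right S.hp.pos
    (Nat.lt_succ_iff.1 ((Nat.pow_lt_pow_iff_right S.hp.one_lt).1 lt))
  have e1 : S.toPol.nb P ∩ {w | ∀ g ∈ (D : Set G), g • w = w} =
      insert x1 ((S.toPol.nb P \ {x1}) ∩ {w | ∀ g ∈ (D : Set G), g • w = w}) := by
    ext w
    refine ⟨fun c => (em (w = x1)).imp id fun n => ⟨⟨c.1, n⟩, c.2⟩, ?_⟩
    rintro (rfl | c)
    exacts [⟨d1, h1⟩, ⟨c.1.1, c.2⟩]
  rw [e1, Set.ncard_insert_of_notMem (fun c => c.1.2 rfl), ha, hk, pow_succ]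
  have := S.hp.two_le
  nlinarith

theorem main (b1 : S.toPol.Bas) (b2 : S.Bas) (hc : S.toPol.O8c) (hh : S.Hig) (hl : S.O8l) {o : X}
    (co : S.Cen o) : S.toSys0.Reg0 := by
  intro x y u v hop g hg gu gv
  by_contra g1
  have gD : g ∈ S.D x y u v := mem_D.2 ⟨hg, gu, gv⟩
  have cv := b2.conv (S.D x y u v)
  have hx : ∀ g ∈ S.D x y u v, g • x = x := fun g hg => S.V_fix x y hop.1 g hg.1.1
  have hy : ∀ g ∈ S.D x y u v, g • y = y := fun g hg =>
    S.V_fix y x (S.d_symm _ _ ▸ hop.1) g (S.V_symm _ _ ▸ hg.1.1)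
  have ho : S.toPol.HasOpp {w | ∀ g ∈ (S.D x y u v : Set G), g • w = w} :=
    ⟨x, hx, y, hy, u, fun g hg => hg.1.2, v, fun g hg => hg.2, hop⟩
  have full : ∀ w ∈ {w | ∀ g ∈ (S.D x y u v : Set G), g • w = w}, Odd (S.d o w) →
      S.toPol.nb w ⊆ {w | ∀ g ∈ (S.D x y u v : Set G), g • w = w} := fun w hw od z hz k hk => by
    obtain ⟨a, ha, da, -⟩ := b1.fix2 _ cv ho w hw w
    obtain ⟨b, hb, db, ne⟩ := b1.fix2 _ cv ho w hw a
    exact (hl w (b2.ln_odd o w co od)).1 a b da db ne.symm k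
      (b2.uni x y w a hop.1 da k hk.1.1 (hw k hk) (ha k hk)) (hb k hk) z (le_of_eq hz)
  have key : ∀ l P0, S.d l P0 = 1 → Odd (S.d o l) → (∀ g ∈ S.D x y u v, g • l = l) → False :=
    fun l P0 d0 od fl => by
    have s0 := S.d_symm l P0
    refine hc _ l (S.toPol.q l) (S.toPol.q P0) cv fl (fun w e => (b2.q_even _ _ e).symm)
      (fun w e => (b2.q_even _ _ ?_).symm) (hh P0 l (by omega)) (fun w hw e => full w hw ?_)
      fun P hP e => ?_
    · have := b1.par P0 l w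
      rw [Nat.odd_iff] at e; rw [Nat.even_iff] at this ⊢; omega
    · have := b1.par o l w
      rw [Nat.odd_iff] at od ⊢; rw [Nat.even_iff] at this e; omega
    · obtain ⟨x1, h1, d1, -⟩ := b1.fix2 _ cv ho P hP P
      have p1 := b1.par o l P
      have p2 := b1.par l P x1
      have p3 := b1.par o P x1
      have p4 := b1.par P0 l P
      rw [Nat.odd_iff] at od e
      rw [Nat.even_iff] at p1 p2 p3 p4
      rw [b2.q_even l x1 (by rw [Nat.even_iff]; omega), b2.q_even P0 P (by rw [Nat.even_iff]; omega)]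
      refine ⟨low b1 b2 hl hop.1 (fun _ h => (mem_D.1 h).1) ho (b2.cen_even o P co (by
        rw [Nat.even_iff]; omega)) hP h1 d1, up b1 b2 hop ho hP h1 d1 fun c => g1 ?_⟩
      exact S.faith g fun w => b1.rig _ cv ho P x1 d1 c (full x1 h1 (by
        rw [Nat.odd_iff]; omega)) w g gD
  have := b1.par o x y
  rw [Nat.even_iff, hop.1] at this
  rcases Nat.even_or_odd (S.d o x) with e | e
  · exact key y x (S.d_symm _ _ ▸ hop.1) (by rw [Nat.even_iff] at e; rw [Nat.odd_iff]; omega) hy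
  · exact key x y hop.1 e hx

theorem o8f : O8fStmt.{u} := by
  intro n p X G _ _ _ _ S _ b1 b2 hn hc hh hl ⟨o, co⟩
  subst hn
  exact main b1 b2 hc hh hl co

end Cfsg.Agent.H57.O8f
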