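import Cfsg.Agent.H99.C1Defs

/-!
The presentation of the model `G` of the Sylow `3`-subgroup of `Co₁`.
-/

set_option autoImplicit false

namespace Cfsg.Agent.H99.C1

namespace Pc

variable {X : Type} [Group X]

/-- powers indexed by `ZMod 3` -/
def pw (x : X) (k : K) : X := x ^ k.val

theorem pw_add {x : X} (hx : x ^ 3 = 1) (k l : K) : pw x (k + l) = pw x k * pw x l := by
  unfold pw
  rw [← pow_add, ZMod.val_add, ← pow_eq_pow_mod _ hx]

theorem pw_zero (x : X) : pw x 0 = 1 := by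
  show x ^ 0 = 1
  exact pow_zero x

theorem pw_one (x : X) : pw x 1 = x := by
  show x ^ 1 = x
  exact pow_one x

theorem k3 (k : K) : k = 0 ∨ k = 1 ∨ k = 1 + 1 := by revert k; decide

/-- the lift of `J` along a list of indices -/
def ph (j : Fin 6 → X) (l : List (Fin 6)) (s : Fin 6 → K) : X :=
  (l.map fun i => pw (j i) (s i)).prod

theorem ph_add {j : Fin 6 → X} (j3 : ∀ i, j i ^ 3 = 1) (jj : ∀ i k, j i * j k = j k * j i)
    (l : List (Fin 6)) (s t : Fin 6 → K) : ph j l (s + t) = ph j l s * ph j l t := by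
  induction l with
  | nil => simp [ph]
  | cons i l ih =>
    have hc : Commute (pw (j i) (t i)) (ph j l s) := by
      apply Commute.list_prod_right
      intro x hx
      obtain ⟨k, -, rfl⟩ := List.mem_map.1 hx
      exact Commute.pow_pow (jj i k) _ _
    have e : ∀ u : Fin 6 → K, ph j (i :: l) u = pw (j i) (u i) * ph j l u := fun u => by
      simp [ph]
    rw [e, e, e, ih, Pi.add_apply, pw_add (j3 i)]
    exact hc.mul_mul_mul_comm _ _

/-- basis vectors -/
def e (i : Fin 6) : Fin 6 → K := fun k => if k = i then 1 else 0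

theorem ind {P : (Fin 6 → K) → Prop} (h0 : P 0) (ha : ∀ s t, P s → P t → P (s + t))
    (he : ∀ i, P (e i)) (s : Fin 6 → K) : P s := by
  have h1 : ∀ i (k : K), P (k • e i) := by
    intro i k
    rcases k3 k with rfl | rfl | rfl
    · rw [zero_smul]; exact h0
    · rw [one_smul]; exact he i
    · rw [add_smul, one_smul]; exact ha _ _ (he i) (he i)
  have h2 : s = s 0 • e 0 + s 1 • e 1 + s 2 • e 2 + s 3 • e 3 + s 4 • e 4 + s 5 • e 5 := by
    funext k
    fin_cases k <;> simp [e]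
  rw [h2]
  exact ha _ _ (ha _ _ (ha _ _ (ha _ _ (ha _ _ (h1 _ _) (h1 _ _)) (h1 _ _)) (h1 _ _)) (h1 _ _))
    (h1 _ _)

theorem exists_phi {j : Fin 6 → X} (j3 : ∀ i, j i ^ 3 = 1) (jj : ∀ i k, j i * j k = j k * j i) :
    ∃ φ : (Fin 6 → K) → X, φ 0 = 1 ∧ (∀ s t, φ (s + t) = φ s * φ t) ∧ ∀ i, φ (e i) = j i := by
  refine ⟨ph j [0, 1, 2, 3, 4, 5], ?_, ph_add j3 jj _, ?_⟩
  · simp [ph, pw_zero]
  · intro i
    fin_cases i <;> simp [ph, e, pw_zero, pw_one]

theorem conj_phi {φ : (Fin 6 → K) → X} (h0 : φ 0 = 1) (ha : ∀ s t, φ (s + t) = φ s * φ t)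
    (u : X) (A : (Fin 6 → K) → (Fin 6 → K)) (A0 : A 0 = 0) (hA : ∀ s t, A (s + t) = A s + A t)
    (h : ∀ i, u * φ (e i) = φ (A (e i)) * u) (s : Fin 6 → K) : u * φ s = φ (A s) * u := by
  induction s using ind with
  | h0 => rw [A0, h0, mul_one, one_mul]
  | ha s t hs ht => rw [hA, ha, ha, ← mul_assoc, hs, mul_assoc, ht, mul_assoc]
  | he i => exact h i

/-- the `J`-coordinates -/
def co (g : G) : Fin 6 → K := ![g.z, g.y, g.x, g.w, g.v, g.t]

def mA (s : Fin 6 → K) : Fin 6 → K := ![s 0 + 2 * s 1 + s 3, s 1 + s 3, s 2 + s 4, s 3, s 4, s 5]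
def mB (s : Fin 6 → K) : Fin 6 → K := ![s 0, s 1 + s 2, s 2, s 3 + 2 * s 4 + s 5, s 4 + s 5, s 5]
def mC (s : Fin 6 → K) : Fin 6 → K := ![s 0 + 2 * s 2 + s 5, s 1 + s 4, s 2 + s 5, s 3, s 4, s 5]

theorem mA_add (s t : Fin 6 → K) : mA (s + t) = mA s + mA t := by
  funext k; fin_cases k <;> simp [mA] <;> ring
theorem mB_add (s t : Fin 6 → K) : mB (s + t) = mB s + mB t := by
  funext k; fin_cases k <;> simp [mB] <;> ring
theorem mC_add (s t : Fin 6 → K) : mC (s + t) = mC s + mC t := by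
  funext k; fin_cases k <;> simp [mC] <;> ring

theorem mA_e : mA 0 = 0 ∧ mA (e 0) = e 0 ∧ mA (e 1) = e 1 + (e 0 + e 0) ∧ mA (e 2) = e 2 ∧
    mA (e 3) = e 3 + e 1 + e 0 ∧ mA (e 4) = e 4 + e 2 ∧ mA (e 5) = e 5 := by decide
theorem mB_e : mB 0 = 0 ∧ mB (e 0) = e 0 ∧ mB (e 1) = e 1 ∧ mB (e 2) = e 2 + e 1 ∧
    mB (e 3) = e 3 ∧ mB (e 4) = e 4 + (e 3 + e 3) ∧ mB (e 5) = e 5 + e 4 + e 3 := by decide
theorem mC_e : mC 0 = 0 ∧ mC (e 0) = e 0 ∧ mC (e 1) = e 1 ∧ mC (e 2) = e 2 + (e 0 + e 0) ∧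
    mC (e 3) = e 3 ∧ mC (e 4) = e 4 + e 1 ∧ mC (e 5) = e 5 + e 2 + e 0 := by decide

theorem co_a (h : G) : co (xa 1 * h) = mA (co h) := by
  funext k; fin_cases k <;> simp [co, mA, xa]
theorem co_b (h : G) : co (xb 1 * h) = mB (co h) := by
  funext k; fin_cases k <;> simp [co, mB, xb]
theorem co_c (h : G) : co (xc 1 * h) = mC (co h) := by
  funext k; fin_cases k <;> simp [co, mC, xc]

/-- the generators of `J` -/
def xj : Fin 6 → G := ![xz 1, xy 1, xx 1, xw 1, xv 1, xt 1]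

theorem co_j (i : Fin 6) (h : G) : co (xj i * h) = e i + co h ∧ (xj i * h).a = h.a ∧
    (xj i * h).b = h.b ∧ (xj i * h).c = h.c := by
  refine ⟨?_, ?_, ?_, ?_⟩
  · funext k
    fin_cases i <;> fin_cases k <;> simp [co, xj, e, xz, xy, xx, xw, xv, xt]
  all_goals fin_cases i <;> simp [xj, xz, xy, xx, xw, xv, xt]

theorem mem_all (S : Submonoid G) (ha : xa 1 ∈ S) (hb : xb 1 ∈ S) (hc : xc 1 ∈ S)
    (hj : ∀ i, xj i ∈ S) (g : G) : g ∈ S := by
  have key : ∀ x : K → G, x 0 = 1 → x (1 + 1) = x 1 * x 1 → x 1 ∈ S → ∀ k, x k ∈ S := by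
    intro x h0 h2 h1 k
    rcases k3 k with rfl | rfl | rfl
    · rw [h0]; exact S.one_mem
    · exact h1
    · rw [h2]; exact S.mul_mem h1 h1
  have e : g = xz g.z * xy g.y * xx g.x * xw g.w * xv g.v * xt g.t * xb g.b * xc g.c * xa g.a := by
    ext <;> simp [xa, xb, xc, xz, xy, xx, xw, xv, xt]
  rw [e]
  refine S.mul_mem (S.mul_mem (S.mul_mem (S.mul_mem (S.mul_mem (S.mul_mem (S.mul_mem (S.mul_mem
    ?_ ?_) ?_) ?_) ?_) ?_) ?_) ?_) ?_
  · exact key xz rfl (by decide) (hj 0) _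
  · exact key xy rfl (by decide) (hj 1) _
  · exact key xx rfl (by decide) (hj 2) _
  · exact key xw rfl (by decide) (hj 3) _
  · exact key xv rfl (by decide) (hj 4) _
  · exact key xt rfl (by decide) (hj 5) _
  · exact key xb rfl (by decide) hb _
  · exact key xc rfl (by decide) hc _
  · exact key xa rfl (by decide) ha _

end Pc

open Pc in
theorem pc : PcStmt := by
  intro X _ a b c j R
  obtain ⟨φ, h0, hφ, he⟩ := exists_phi R.j3 R.jj
  have ca : ∀ s, a * φ s = φ (mA s) * a := by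
    obtain ⟨e', e0, e1, e2, e3, e4, e5⟩ := mA_e
    obtain ⟨r0, r1, r2, r3, r4, r5⟩ := R.aj
    refine conj_phi h0 hφ a mA e' mA_add fun i => ?_
    fin_cases i
    · show a * φ (e 0) = φ (mA (e 0)) * a
      rw [e0, he, r0]
    · show a * φ (e 1) = φ (mA (e 1)) * a
      rw [e1, hφ, hφ, he, he, r1, pow_two]
    · show a * φ (e 2) = φ (mA (e 2)) * a
      rw [e2, he, r2]
    · show a * φ (e 3) = φ (mA (e 3)) * a
      rw [e3, hφ, hφ, he, he, he, r3]
    · show a * φ (e 4) = φ (mA (e 4)) * a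
      rw [e4, hφ, he, he, r4]
    · show a * φ (e 5) = φ (mA (e 5)) * a
      rw [e5, he, r5]
  have cb : ∀ s, b * φ s = φ (mB s) * b := by
    obtain ⟨e', e0, e1, e2, e3, e4, e5⟩ := mB_e
    obtain ⟨r0, r1, r2, r3, r4, r5⟩ := R.bj
    refine conj_phi h0 hφ b mB e' mB_add fun i => ?_
    fin_cases i
    · show b * φ (e 0) = φ (mB (e 0)) * b
      rw [e0, he, r0]
    · show b * φ (e 1) = φ (mB (e 1)) * b
      rw [e1, he, r1]
    · show b * φ (e 2) = φ (mB (e 2)) * b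
      rw [e2, hφ, he, he, r2]
    · show b * φ (e 3) = φ (mB (e 3)) * b
      rw [e3, he, r3]
    · show b * φ (e 4) = φ (mB (e 4)) * b
      rw [e4, hφ, hφ, he, he, r4, pow_two]
    · show b * φ (e 5) = φ (mB (e 5)) * b
      rw [e5, hφ, hφ, he, he, he, r5]
  have cc : ∀ s, c * φ s = φ (mC s) * c := by
    obtain ⟨e', e0, e1, e2, e3, e4, e5⟩ := mC_e
    obtain ⟨r0, r1, r2, r3, r4, r5⟩ := R.cj
    refine conj_phi h0 hφ c mC e' mC_add fun i => ?_
    fin_cases i
    · show c * φ (e 0) = φ (mC (e 0)) * c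
      rw [e0, he, r0]
    · show c * φ (e 1) = φ (mC (e 1)) * c
      rw [e1, he, r1]
    · show c * φ (e 2) = φ (mC (e 2)) * c
      rw [e2, hφ, hφ, he, he, r2, pow_two]
    · show c * φ (e 3) = φ (mC (e 3)) * c
      rw [e3, he, r3]
    · show c * φ (e 4) = φ (mC (e 4)) * c
      rw [e4, hφ, he, he, r4]
    · show c * φ (e 5) = φ (mC (e 5)) * c
      rw [e5, hφ, hφ, he, he, he, r5]
  have hac : ∀ k, a * pw c k = pw c k * a := fun k => (Commute.pow_right R.ac _).eq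
  have hcb : ∀ k, c * pw b k = pw b k * c := fun k => (Commute.pow_right R.bc.symm _).eq
  have hab : ∀ k, a * pw b k = pw b k * pw c k * a := by
    have h1 : a * b = b * c * a := by rw [R.ab, mul_assoc, R.ac, mul_assoc]
    intro k
    rcases k3 k with rfl | rfl | rfl
    · simp [pw_zero]
    · rw [pw_one, pw_one, h1]
    · rw [pw_add R.b3, pw_add R.c3, pw_one, pw_one, ← mul_assoc, h1, mul_assoc, h1]
      simp only [mul_assoc]
      rw [← mul_assoc c b, ← R.bc, mul_assoc]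
  set f : G → X := fun g => φ (co g) * (pw b g.b * (pw c g.c * pw a g.a)) with hf
  have f1 : f 1 = 1 := by
    have : co 1 = 0 := by funext k; fin_cases k <;> rfl
    simp [hf, this, h0, pw_zero]
  have fa : ∀ h, f (xa 1 * h) = a * f h := by
    intro h
    have e1 : (xa 1 * h).a = 1 + h.a := rfl
    have e2 : (xa 1 * h).b = h.b := by simp [xa]
    have e3 : (xa 1 * h).c = h.b + h.c := by simp [xa, add_comm]
    simp only [hf, co_a, e1, e2, e3]
    rw [pw_add R.a3, pw_add R.c3, pw_one, ← mul_assoc a, ca, mul_assoc (φ _) a, ← mul_assoc a, hab]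
    simp only [mul_assoc]
    rw [← mul_assoc a, hac, mul_assoc]
  have fb : ∀ h, f (xb 1 * h) = b * f h := by
    intro h
    have e1 : (xb 1 * h).a = h.a := by simp [xb]
    have e2 : (xb 1 * h).b = 1 + h.b := rfl
    have e3 : (xb 1 * h).c = h.c := by simp [xb]
    simp only [hf, co_b, e1, e2, e3]
    rw [pw_add R.b3, pw_one, ← mul_assoc b (φ _), cb]
    simp only [mul_assoc]
  have fc : ∀ h, f (xc 1 * h) = c * f h := by
    intro h
    have e1 : (xc 1 * h).a = h.a := by simp [xc]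
    have e2 : (xc 1 * h).b = h.b := by simp [xc]
    have e3 : (xc 1 * h).c = 1 + h.c := by simp [xc]
    simp only [hf, co_c, e1, e2, e3]
    rw [pw_add R.c3, pw_one, ← mul_assoc c (φ _), cc, mul_assoc (φ _) c, ← mul_assoc c (pw b _), hcb]
    simp only [mul_assoc]
  have fj : ∀ i h, f (xj i * h) = j i * f h := by
    intro i h
    obtain ⟨e0, e1, e2, e3⟩ := co_j i h
    simp only [hf, e0, e1, e2, e3]
    rw [hφ, he, mul_assoc]
  have val : ∀ g x, (∀ h, f (g * h) = x * f h) → f g = x := fun g x h => by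
    simpa [f1] using h 1
  let S : Submonoid G :=
    { carrier := {g | ∀ h, f (g * h) = f g * f h}
      one_mem' := fun h => by rw [one_mul, f1, one_mul]
      mul_mem' := fun {g g'} hg hg' h => by
        rw [mul_assoc, hg, hg', hg, mul_assoc (f g)] }
  have hS : ∀ g, g ∈ S := mem_all S (fun h => by rw [fa, val _ _ fa])
    (fun h => by rw [fb, val _ _ fb]) (fun h => by rw [fc, val _ _ fc])
    (fun i h => by rw [fj, val _ _ (fj i)])
  exact ⟨MonoidHom.mk' f fun g h => hS g h, val _ _ fa, val _ _ fb, val _ _ fc, val _ _ (fj 0),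
    val _ _ (fj 1), val _ _ (fj 2), val _ _ (fj 3), val _ _ (fj 4), val _ _ (fj 5)⟩

end Cfsg.Agent.H99.C1
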