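import Cfsg.Agent.H73.GagDefs
import Cfsg.Agent.H52.Balance
import Cfsg.Agent.S2119

/-! The double cover of `A₇` is not normal in a transitive linear group with `p`-stabilisers. -/

set_option autoImplicit false

namespace Cfsg.Agent.H57.GagA7

open Subgroup Cfsg Cfsg.Agent.H73.Gag

universe u

theorem perm7 (σ : Equiv.Perm (Fin 7)) (h : σ ^ 9 = 1) : σ ^ 3 = 1 := by
  rw [← orderOf_dvd_iff_pow_eq_one, ← Equiv.Perm.lcm_cycleType, Multiset.lcm_dvd]
  intro n hn
  have h1 : n ∣ 9 := (Equiv.Perm.dvd_of_mem_cycleType hn).trans (orderOf_dvd_of_pow_eq_one h)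
  have h2 := Equiv.Perm.two_le_of_mem_cycleType hn
  have h3 : n ≤ 7 := by
    simpa using (Equiv.Perm.le_card_support_of_mem_cycleType hn).trans (Finset.card_le_univ _)
  interval_cases n <;> omega

theorem card7 : Nat.card (alternatingGroup (Fin 7)) = 2520 := by
  have := two_mul_nat_card_alternatingGroup (α := Fin 7)
  rw [Nat.card_perm, Nat.card_fin, show Nat.factorial 7 = 5040 from rfl] at this
  omega

theorem card_aut : Nat.card (MulAut (alternatingGroup (Fin 7))) = 5040 := by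
  rw [← Nat.card_eq_of_bijective _ (S2119.result 7 (by norm_num) (by norm_num)), Nat.card_perm,
    Nat.card_fin]
  rfl

theorem arith {n k d f c : ℕ} (hn : n = d * f) (hd : 2 ≤ d) (hf : 1 ≤ f) (hc : c ∣ 3 ^ f - 1)
    (h1 : (3 ^ n - 1) * 3 ^ k ∣ 5040 * c) (h2 : 35 ∣ (3 ^ n - 1) * 3 ^ k) : False := by
  have n0 : 0 < n := by rw [hn]; positivity
  have a1 : 35 ∣ 3 ^ n - 1 :=
    (Nat.Coprime.pow_right k (by norm_num : Nat.Coprime 35 3)).dvd_of_dvd_mul_right h2
  have a2 : 12 ≤ n := by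
    by_contra hc
    have : n < 12 := by omega
    interval_cases n <;> omega
  have p1 : 1 ≤ 3 ^ f := Nat.one_le_pow _ _ (by norm_num)
  have f1 : 1 < 3 ^ f := Nat.one_lt_pow (by omega) (by norm_num)
  have a3 : 3 ^ n - 1 ∣ 9 * (560 * (3 ^ f - 1)) := by
    rw [← mul_assoc]
    exact (dvd_of_mul_right_dvd h1).trans (Nat.mul_dvd_mul_left _ hc)
  have a4 : Nat.Coprime (3 ^ n - 1) 9 := by
    have : Nat.Coprime (3 ^ n - 1) 3 := by
      rw [Nat.coprime_comm, Nat.Prime.coprime_iff_not_dvd Nat.prime_three]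
      intro e
      have e1 : 3 ∣ 3 ^ n := dvd_pow_self 3 n0.ne'
      have e2 : 1 ≤ 3 ^ n := Nat.one_le_pow _ _ (by norm_num)
      omega
    exact Nat.Coprime.pow_right 2 this
  have a5 := Nat.le_of_dvd (by omega) (a4.dvd_of_dvd_mul_left a3)
  have a6 : 2 * f ≤ n := hn ▸ Nat.mul_le_mul_right _ hd
  have a7 : 3 ^ n = 3 ^ (n - f) * 3 ^ f := by rw [← pow_add]; congr 1; omega
  have a8 : 3 ^ 6 ≤ 3 ^ (n - f) := Nat.pow_le_pow_right (by norm_num) (by omega)
  have a9 : 3 ^ 6 * 3 ^ f ≤ 3 ^ n := a7 ▸ Nat.mul_le_mul_right _ a8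
  omega

theorem a7 : A7Stmt.{u} := by
  intro p n H V _ _ _ h _ L hL hq d f hn ⟨c2, ⟨e⟩, _⟩
  have := h.finite
  have cL : Nat.card L = 5040 := by
    rw [card_eq_card_quotient_mul_card_subgroup (center L), c2, Nat.card_congr e.toEquiv, card7]
  have p3 : p = 3 := by
    by_contra hp
    have : Fact (Nat.Prime 3) := ⟨Nat.prime_three⟩
    obtain ⟨P, hP⟩ := Sylow.exists_subgroup_card_pow_prime (G := L) 3 (n := 2) (by rw [cL]; norm_num)
    have hc := h.k0.cyc 3 Nat.prime_three (Ne.symm hp) (by norm_num) (P.map L.subtype)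
      ((IsPGroup.of_card hP).map _)
    obtain ⟨y, hg⟩ := hc.exists_ofOrder_eq_natCard
    obtain ⟨g, -, hy⟩ := y.2
    rw [card_map_of_injective L.subtype_injective, hP, ← orderOf_coe, ← hy, subtype_apply,
      orderOf_coe] at hg
    have h9 : g ^ 9 = 1 := by rw [← pow_orderOf_eq_one g, hg]; rfl
    have h3 : (e (g : L ⧸ center L)) ^ 3 = 1 := Subtype.ext (perm7 _ (by
      rw [← coe_pow, ← map_pow, ← QuotientGroup.mk_pow, h9, QuotientGroup.mk_one, map_one, coe_one]))
    rw [← map_pow, EmbeddingLike.map_eq_one_iff, ← QuotientGroup.mk_pow,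
      QuotientGroup.eq_one_iff] at h3
    have h6 : (g ^ 3) ^ 2 = 1 := by
      have := pow_card_eq_one' (x := (⟨g ^ 3, h3⟩ : center L))
      rw [c2] at this
      exact congrArg Subtype.val this
    rw [← pow_mul, ← orderOf_dvd_iff_pow_eq_one, hg] at h6
    norm_num at h6
  subst p3
  obtain ⟨k, hk⟩ := h.card_eq
  have nT : (⊤ : Subgroup H) ≤ normalizer (L : Set H) := (normalizer_eq_top L).ge
  let ψ : H →* MulAut (L ⧸ center L) := ((H52.autQuotCenter L).comp L.normalizerMonoidHom).comp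
    ((MonoidHom.id H).codRestrict _ fun x => nT (mem_top x))
  have hp : ⁅L, L⁆ = L := by
    rw [← map_subtype_commutator, hq.1.commutator_eq_top, ← MonoidHom.range_eq_map, range_subtype]
  have k1 : ψ.ker ≤ centralizer (L : Set H) := fun x hx =>
    H52.mem_centralizer_of_autQuotCenter_eq_one hp ⟨x, nT (mem_top x)⟩ hx
  have k2 : (centralizer (L : Set H)).index ∣ 5040 := by
    refine (index_dvd_of_le k1).trans ?_
    rw [index_ker, ← card_aut, ← Nat.card_congr (MulAut.congr e).toEquiv]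
    exact card_subgroup_dvd_card _
  refine arith (k := k) hn.n_eq hn.two_le hn.one_le hn.dvd ?_ ?_
  · rw [← hk, ← (centralizer (L : Set H)).index_mul_card]
    exact Nat.mul_dvd_mul_right k2 _
  · rw [← hk]
    exact Dvd.dvd.trans (by rw [cL]; norm_num) (card_subgroup_dvd_card L)

end Cfsg.Agent.H57.GagA7
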