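import Cfsg.Agent.H98.GbH
import Cfsg.Agent.H11.Inner
import Cfsg.Agent.Eqn.Cfsg_Agent_H98_GB_pm

/-! Project GB: inner products of monomials in primitive elements are permanents. -/

set_option autoImplicit false
open Cfsg Finset
open scoped ComplexConjugate MatrixGroups

namespace Cfsg.Agent.H57.GbPerm

open Cfsg.Agent.H98.GB

universe u

theorem perm (hF : FOCKStmt.{u}) : PERMStmt.{u} := by
  intro F _ _ _ η H ι _ P d J hP k k' v v' hv hv' vac s t hs ht
  have K := hF F η H
  have cj : ∀ n x y, conj (H.ip n x y) = H.ip n y x := fun n x y => H11.conj_classInner _ _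
  have hD : ∀ i ∈ J, ∀ t : Multiset ι, (∀ j ∈ t, j ∈ J) →
      H.D (d i) (P i) (v' * (t.map P).prod) =
        (t.map fun j => H.ip (d i) (P j) (P i) • (v' * ((t.erase j).map P).prod)).sum := by
    intro i hi t
    induction t using Multiset.induction_on with
    | empty => intro _; simpa using (vac i hi).2
    | cons a t ih =>
      intro h
      rw [Multiset.map_cons, Multiset.prod_cons, mul_left_comm, K.D_mul (hP i hi),
        K.D_pr (hP i hi) (hP a (h a (Multiset.mem_cons_self _ _))),
        ih fun j hj => h j (Multiset.mem_cons_of_mem hj), Multiset.map_cons, Multiset.sum_cons,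
        Multiset.erase_cons_head, smul_mul_assoc, one_mul, ← Multiset.sum_map_mul_left]
      congr 2
      refine Multiset.map_congr rfl fun j hj => ?_
      rw [Multiset.erase_cons_tail_of_mem hj, Multiset.map_cons, Multiset.prod_cons,
        mul_smul_comm, mul_left_comm]
  have hG : ∀ t : Multiset ι, (∀ j ∈ t, j ∈ J) → ∃ n, H.Hg n (v' * (t.map P).prod) := by
    intro t
    induction t using Multiset.induction_on with
    | empty => intro _; exact ⟨k', by simpa using hv'⟩
    | cons a t ih =>
      intro h
      obtain ⟨n, hn⟩ := ih fun j hj => h j (Multiset.mem_cons_of_mem hj)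
      rw [Multiset.map_cons, Multiset.prod_cons, mul_left_comm]
      exact ⟨_, K.hg_mul (hP a (h a (Multiset.mem_cons_self _ _))).1 hn⟩
  induction s generalizing t with
  | nil =>
    simp only [List.map_nil, List.sum_nil, List.prod_nil, add_zero, mul_one, pm]
    induction t using Multiset.induction_on with
    | empty => simp
    | cons a t _ =>
      have ha := ht a (Multiset.mem_cons_self _ _)
      rw [if_neg Multiset.cons_ne_zero, mul_zero, Multiset.map_cons, Multiset.prod_cons,
        mul_left_comm, ← cj, map_eq_zero]
      by_cases h : d a ≤ k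
      · obtain ⟨k0, rfl⟩ := Nat.exists_eq_add_of_le h
        rw [K.adj (hP a ha).1, (vac a ha).1, Hall.ip, map_zero]
        exact H11.classInner_zero_right _
      · obtain ⟨n, hn⟩ := hG t fun j hj => ht j (Multiset.mem_cons_of_mem hj)
        rw [Hall.ip, K.hg_mul (hP a ha).1 hn k (by omega)]
        exact H11.classInner_zero_left _
  | cons i s ih =>
    have hi := hs i List.mem_cons_self
    rw [List.map_cons, List.map_cons, List.sum_cons, List.prod_cons, mul_left_comm,
      add_left_comm, K.adj (hP i hi).1, hD i hi t ht, Finset.sum_multiset_map_count, pm,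
      Finset.mul_sum, Hall.ip, map_sum, Finset.sum_apply, H11.classInner_sum_right]
    refine Finset.sum_congr rfl fun j _ => ?_
    have := ih (t.erase j) (fun a ha => hs a (List.mem_cons_of_mem _ ha))
      fun a ha => ht a (Multiset.mem_of_mem_erase ha)
    rw [← Nat.cast_smul_eq_nsmul ℂ, smul_smul, map_smul, Pi.smul_apply,
      H11.classInner_smul_right, map_mul, cj, map_natCast]
    rw [Hall.ip] at this
    rw [this]
    ring

end Cfsg.Agent.H57.GbPerm
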