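import Cfsg.Agent.H98.GbL

/-! Project GB (S4536): twisted power sums for one Frobenius orbit. -/

set_option autoImplicit false
open Cfsg Finset Cfsg.Agent.H98.GB
open scoped MatrixGroups

namespace Cfsg.Agent.H57.GbTh1

universe u

theorem isChar_zero (G : Type u) [Group G] : IsCharacter G 0 :=
  ⟨0, 1, by
    funext g
    simp [Representation.character, Subsingleton.elim ((1 : Representation ℂ G (Fin 0 → ℂ)) g) 0]⟩

theorem gen_zero (G : Type u) [Group G] : IsGeneralizedCharacter G 0 :=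
  ⟨0, 0, isChar_zero G, isChar_zero G, by simp⟩

theorem gen_irr {G : Type u} [Group G] (θ : IrrCharacter G) : IsGeneralizedCharacter G θ.1 := by
  obtain ⟨n, ρ, -, h⟩ := θ.2
  exact ⟨θ.1, 0, ⟨n, ρ, h⟩, isChar_zero G, by simp⟩

theorem av_zero {G : Type u} [Group G] [Fintype G] (K : Subgroup G) (l : G →* ℂˣ) :
    av K l 0 = 0 := by
  have : extendByZero K 0 = 0 := by
    funext g
    by_cases h : g ∈ K
    · exact Subtype.val_injective.extend_apply _ _ (⟨g, h⟩ : K)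
    · exact Function.extend_apply' _ _ _ fun ⟨x, e⟩ => h (e ▸ x.2)
  funext g
  simp [av, this]

section
variable {F : Type u} [Field F] [Fintype F] [DecidableEq F]

theorem dlt_zero (ψ : AddChar F ℂ) (m : ℕ) : dlt ψ (0 : GL (Fin m) F → ℂ) = 0 := by
  simp [dlt]

/-- the multiplicity as a linear map -/
noncomputable def dL (hD : DELCStmt.{u}) {ψ : AddChar F ℂ} (hψ : ψ ≠ 1) {η : Fˣ →* ℂˣ}
    (H : Hall η) (m : ℕ) : H.A →ₗ[ℂ] ℂ where
  toFun x := dlt ψ (H.ev x m)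
  map_add' x y := by
    rw [map_add]
    exact ((hD F ψ hψ).2.2.2.2.2.2 m _ _ 0).1
  map_smul' c x := by
    rw [map_smul]
    exact ((hD F ψ hψ).2.2.2.2.2.2 m _ 0 c).2

theorem del (hF : FOCKStmt.{u}) (hD : DELCStmt.{u}) {ψ : AddChar F ℂ} (hψ : ψ ≠ 1)
    {η : Fˣ →* ℂˣ} (H : Hall η) (d : ℕ) (P : ℕ → H.A) (hP : ∀ k, 0 < k → H.Hg (d * k) (P k))
    (he : ∀ k, dlt ψ (H.ev (ee P k) (d * k)) = 1) (k : ℕ) :
    dlt ψ (H.ev (P (k + 1)) (d * (k + 1))) = (-1) ^ (k + 1 + 1) := by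
  induction k using Nat.strong_induction_on with
  | _ k ih =>
  have h1 : dL hD hψ H (d * (k + 1)) (ee P (k + 1)) = 1 := he (k + 1)
  have h2 : ∀ i : Fin (k + 1), dL hD hψ H (d * (k + 1))
      (((-1 : ℂ) ^ ((i : ℕ) + 1 + 1) • P (i + 1)) * ee P (k - i)) =
      (-1) ^ ((i : ℕ) + 1 + 1) * dlt ψ (H.ev (P (i + 1)) (d * (i + 1))) := fun i => by
    have e : d * (i + 1) + d * (k - i) = d * (k + 1) := by
      rw [← mul_add]
      congr 1
      omega
    rw [smul_mul_assoc, map_smul, smul_eq_mul]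
    congr 1
    change dlt ψ (H.ev _ _) = _
    rw [(hF F η H).ev_mul_hg _ e (hP _ (Nat.succ_pos _)),
      (hD F ψ hψ).1 η _ _ _ e _ _ (H.tw _ _) (H.tw _ _), he, mul_one]
  rw [ee, nw, map_smul, map_sum] at h1
  have h3 := Finset.sum_congr (s₁ := univ) rfl fun i _ => h2 i
  erw [h3] at h1
  rw [Fin.sum_univ_castSucc, Finset.sum_congr rfl (g := fun _ => (1 : ℂ)) fun i _ => by
    rw [Fin.val_castSucc, ih i i.2, ← mul_pow]; simp] at h1
  have hk : ((k + 1 : ℕ) : ℂ) ≠ 0 := Nat.cast_ne_zero.2 k.succ_ne_zero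
  simp only [Fin.val_last, sum_const, card_univ, Fintype.card_fin, nsmul_eq_mul, mul_one,
    smul_eq_mul] at h1
  rw [inv_mul_eq_iff_eq_mul₀ hk] at h1
  have h4 : ((-1 : ℂ) ^ (k + 1 + 1)) * (-1) ^ (k + 1 + 1) = 1 := by rw [← mul_pow]; simp
  push_cast at h1
  linear_combination (-1) ^ (k + 1 + 1) * h1 -
    dlt ψ (H.ev (P (k + 1)) (d * (k + 1))) * h4

theorem eq_one (hD : DELCStmt.{u}) {ψ : AddChar F ℂ} (hψ : ψ ≠ 1) (f : GL (Fin 0) F → ℂ)
    (h : dlt ψ f = 1) : f = fun _ => 1 := by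
  have e : f = f 1 • fun _ => (1 : ℂ) := by
    funext g
    simp [Subsingleton.elim g 1]
  rw [e, ((hD F ψ hψ).2.2.2.2.2.2 0 _ 0 _).2, (hD F ψ hψ).2.2.2.2.2.1 0] at h
  rw [e]
  funext g
  simpa using h

theorem ev_hg {η : Fˣ →* ℂˣ} (H : Hall η) {m : ℕ} {x : H.A} (h : H.Hg m x) :
    H.ev x = Pi.single m (H.ev x m) := by
  funext n
  by_cases e : n = m
  · subst e
    simp
  · rw [Pi.single_eq_of_ne e, h n e]

end

theorem th1 (hF : FOCKStmt.{u}) (hN : NWEHStmt.{u}) (hG : GENStmt.{u}) (hO : ONEStmt.{u})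
    (ha : TH1aStmt.{u}) (hD : DELCStmt.{u}) (hI : HISOStmt.{u}) (h0 : TH0aStmt.{u})
    (h1 : TH0bStmt.{u}) (hb : TH1bStmt.{u}) (hL : LABStmt.{u}) : TH1Stmt.{u} := by
  intro F _ _ _ C c hc HH φ hφ
  have h0' := h0 F C φ
  let χ : ∀ k, IrrCharacter (GL (Fin (C.dg φ * k)) F) := fun k => ⟨C.eC φ k, (h0' k).2.1⟩
  have hlm : ∀ k, lm (dl (C.eta c) _) (χ k).1 = (χ k).1 := fun k => (h0' k).2.2.2.1 c hc hφ
  choose θ hθ using fun k =>
    (h1 F C.ψ C.hψ (C.eta c) (C.dg φ * k)).1 (χ k) (hlm k) (h0' k).2.2.1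
  have hO' := fun k => hO _ _ (χ k) (hlm k) (θ k) (hθ k).1
  obtain ⟨e, he⟩ : ∃ e : ℕ → ∀ j, (HH j).A, ∀ k j, e k j =
      (HH j).sg _ (av _ (dl (C.eta c) (C.dg φ * k) ^ j) (θ k).1) := ⟨fun k j => _, fun _ _ => rfl⟩
  have ev : ∀ k j, (HH j).ev (e k j) =
      Pi.single (C.dg φ * k) (av _ (dl (C.eta c) (C.dg φ * k) ^ j) (θ k).1) := fun k j => by
    rw [he]
    refine (HH j).ev_sg ?_
    rw [dl_pow]
    exact ((hO' k).2.2.2 j).1.1
  have ev' : ∀ k j, (HH j).ev (e k j) (C.dg φ * k) =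
      av _ (dl (C.eta c) (C.dg φ * k) ^ j) (θ k).1 := fun k j => by rw [ev, Pi.single_eq_same]
  have e0 : e 0 = 1 := by
    funext j
    refine (HH j).inj ?_
    rw [ev, Pi.one_apply, (HH j).ev_one]
    exact congrArg (Pi.single (M := fun m => GL (Fin m) F → ℂ) 0)
      (eq_one hD C.hψ _ ((hθ 0).2.2 j))
  obtain ⟨P, hP⟩ := (hN (∀ j, (HH j).A)).2.2.2.2.2.2.1 e e0
  have hPj : ∀ k j, ee (fun i => P i j) k = e k j := fun k j => by
    rw [← hP]
    exact (((hN _).2.2.2.1 _ (Pi.evalAlgHom ℂ (fun j => (HH j).A) j) P).2.1 k).symm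
  have hd := (hL F C).dg_pos φ
  have hpr : ∀ j k, 0 < k → (HH j).Pr (C.dg φ * k) (P k j) ∧
      (HH j).ip (C.dg φ * k) (P k j) (P k j) = k := fun j k hk => by
    refine ha F _ (HH j) (C.dg φ) k (fun i => P i j) hd (fun i _ => ⟨fun n hn => ?_, ?_⟩)
      (fun m y hy => ?_) k hk le_rfl
    · rw [hPj, ev, Pi.single_eq_of_ne hn]
    · rw [Hall.ip, hPj, ev']
      exact ((hO' i).2.2.2 j).2.1
    · obtain ⟨a, h⟩ := hb F C c hc HH φ hφ θ hθ j m y hy
      exact ⟨a, fun i _ => by rw [hPj, hPj, he, he, h]⟩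
  refine ⟨fun _ => P, ?_, ?_, ?_, ?_, ?_, ?_⟩
  · intro φ' k _
    obtain ⟨R, hR⟩ := (hG F).2.2 (C.eta c) HH
    rw [← hR]
    refine ((hN _).2.1 P R k).1 (fun i _ => ?_) k le_rfl
    rw [hP, ← SetLike.mem_coe, hR]
    intro n
    by_cases hn : n = C.dg φ * i
    · subst hn
      exact ⟨(θ i).1, gen_irr _, fun j => ev' i j⟩
    · exact ⟨0, gen_zero _, fun j => by rw [ev, Pi.single_eq_of_ne hn, av_zero]⟩
  · intro φ' k j h hk
    obtain rfl : φ = φ' := h.symm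
    exact (hpr j k hk).1
  · intro j n φ₁ k φ₂ k' h h' hk hk' _ _
    obtain rfl : φ = φ₁ := h.symm
    obtain rfl : φ = φ₂ := h'.symm
    by_cases e : k = k'
    · subst e
      rw [if_pos ⟨rfl, rfl⟩]
      exact (hpr j k hk).2
    · rw [if_neg fun h => e h.2, Hall.ip,
        (hpr j k' hk').1.1 _ fun h => e (Nat.eq_of_mul_eq_mul_left hd h)]
      simp [classInner]
  · intro φ' k j h hk
    obtain rfl : φ = φ' := h.symm
    obtain ⟨k, rfl⟩ := Nat.exists_eq_add_one.2 hk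
    exact del hF hD C.hψ (HH j) _ (fun i => P i j) (fun i hi => (hpr j i hi).1.1)
      (fun i => by rw [hPj, ev']; exact (hθ i).2.2 j) k
  · intro φ' k h hk
    obtain rfl : φ = φ' := h.symm
    obtain ⟨T, hT⟩ := hI F 1 (C.eta c ^ 0) (by ext; simp) C.H (HH 0)
    have k1 : ∀ i, ee (fun i => T (C.pp φ i)) i = ee (fun i => P i 0) i := fun i => by
      refine (((hN _).2.2.2.1 _ (T : C.H.A →ₐ[ℂ] (HH 0).A) (C.pp φ)).2.1 i).symm.trans ?_
      refine (HH 0).inj ?_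
      rw [hPj, ev, show dl (C.eta c) (C.dg φ * i) ^ 0 = 1 by ext; simp, (hO' i).1]
      exact (hT _).trans (ev_hg C.H (h0' i).1)
    have k2 := ((hN _).1 _ _ k).1 (fun i _ => k1 i) k hk le_rfl
    have k3 : T (C.pp φ k) = P k 0 :=
      smul_right_injective _ (pow_ne_zero _ (neg_ne_zero.2 one_ne_zero)) k2
    rw [← k3, hT]
  · intro φ' k j h
    obtain rfl : φ = φ' := h.symm
    rw [hPj, ev']
    intro ψ hψ
    exact ((hO' k).2.2.2 j).1.2 ψ fun e => hψ (congrArg Subtype.val e)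

end Cfsg.Agent.H57.GbTh1
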