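import Mathlib
import Cfsg.Agent.H89.L27Defs
import Cfsg.Agent.H23.E83Uni

/-! The fixed space of an element of order seven under an element of order three. -/

set_option autoImplicit false

namespace Cfsg.Agent.H57.L27Ff

open Module Cfsg.Agent.H89.L27

theorem ff (fe : FeStmt) : FfStmt := by
  intro F W _ _ _ _ _ ρ hρ
  have e1 : ex * eu = eu * (ex * ex) := by decide
  have e2 : eu * eu * eu = 1 := by decide
  have hM : ∀ v, v ∈ Fx ρ [ex] ↔ ρ ex v = v := fun v => by simp [mem_Fx]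
  have hM0 : ∀ v, v ∈ Fx ρ [ex, eu] ↔ ρ ex v = v ∧ ρ eu v = v := fun v => by simp [mem_Fx]
  have st : ∀ v, ρ ex v = v → ρ ex ((ρ eu - 1 : End F W) v) = (ρ eu - 1 : End F W) v := fun v hv => by
    rw [LinearMap.sub_apply, End.one_apply, map_sub, hv, ← End.mul_apply, ← map_mul, e1, map_mul,
      map_mul, End.mul_apply, End.mul_apply, hv, hv]
  have h3 : ∀ v, (ρ eu - 1 : End F W) ((ρ eu - 1 : End F W) ((ρ eu - 1 : End F W) v)) = 0 :=
    fun v => by
    have h1 : ρ eu (ρ eu (ρ eu v)) = v := by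
      rw [← End.mul_apply, ← End.mul_apply, ← map_mul, ← map_mul, e2, map_one, End.one_apply]
    have h2 : (3 : F) = 0 := by exact_mod_cast CharP.cast_eq_zero F 3
    simp only [LinearMap.sub_apply, End.one_apply, map_sub, h1]
    calc _ = (3 : F) • (ρ eu v - ρ eu (ρ eu v)) := by module
      _ = 0 := by rw [h2, zero_smul]
  have a1 := H23.E83U.finrank_le_add ((ρ eu - 1) ^ 2) (Fx ρ [ex]) (Fx ρ [ex, eu]) fun v hv => by
    rw [hM0, pow_two, End.mul_apply]
    refine ⟨st _ (st _ ((hM v).1 hv)), ?_⟩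
    have := h3 v
    rwa [LinearMap.sub_apply, End.one_apply, sub_eq_zero] at this
  have a2 := H23.E83U.finrank_le_add (tauD ρ) (Fx ρ [ex] ⊓ LinearMap.ker ((ρ eu - 1) ^ 2))
    ((Fx ρ [ex]).map (tauD ρ)) fun v hv => ⟨v, hv.1, rfl⟩
  have a3 : finrank F (Fx ρ [ex] ⊓ LinearMap.ker ((ρ eu - 1) ^ 2) ⊓ LinearMap.ker (tauD ρ) :
      Submodule F W) ≤ finrank F (Fx ρ [ex, eu]) :=
    Submodule.finrank_mono fun v hv => (hM0 v).2 ⟨(hM v).1 hv.1.1,
      fe F W ρ hρ v ((hM v).1 hv.1.1) hv.1.2 hv.2⟩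
  omega

end Cfsg.Agent.H57.L27Ff
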