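import Cfsg.Agent.H81.QTDefs

/-!
# Groups that are not the socle of a minimal parabolic: the criterion
-/

set_option autoImplicit false

namespace Cfsg.Agent.H57.MPS

open Subgroup MulAction Cfsg.Agent.H81.QT
open scoped Pointwise

/-- Two proper non-trivial subgroups generate `M`, and their common stabiliser has odd index in the
automorphism group. -/
def Good (M : Type*) [Group M] : Prop :=
  ∃ Y₁ Y₂ : Subgroup M, Y₁ ≠ ⊥ ∧ Y₁ ≠ ⊤ ∧ Y₂ ≠ ⊥ ∧ Y₂ ≠ ⊤ ∧ Y₁ ⊔ Y₂ = ⊤ ∧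
    Odd (stabilizer (MulAut M) Y₁ ⊓ stabilizer (MulAut M) Y₂).index

theorem exists_conj_mem {A : Type*} [Group A] [Finite A] {P B : Subgroup A} (hP : IsPGroup 2 P)
    (hB : Odd B.index) : ∃ ψ : A, ∀ p ∈ P, ψ⁻¹ * p * ψ ∈ B := by
  haveI : Fact (Nat.Prime 2) := ⟨Nat.prime_two⟩
  obtain ⟨x, hx⟩ := hP.nonempty_fixed_point_of_prime_not_dvd_card (A ⧸ B)
    (by rw [← index_eq_card]; exact hB.not_two_dvd_nat)
  obtain ⟨ψ, rfl⟩ := QuotientGroup.mk_surjective x
  refine ⟨ψ, fun p hp => ?_⟩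
  have h : ((p * ψ : A) : A ⧸ B) = (ψ : A ⧸ B) := hx ⟨p, hp⟩
  rw [mul_assoc]
  exact QuotientGroup.eq.mp h.symm

theorem Good.not_mp {M : Type*} [Group M] (h : Good M) {X : Type*} [Group X] [Finite X]
    {K : Subgroup X} {T : Sylow 2 X} {X₀ A : Subgroup X} (H : MP K T X₀ A) (e : K ≃* M) :
    False := by
  haveI := H.normal
  haveI := H.simple
  haveI : Finite M := Finite.of_equiv K e.toEquiv
  obtain ⟨Y₁, Y₂, a1, a2, b1, b2, hs, ho⟩ := h
  let φ : X →* MulAut M := (MulAut.congr e).toMonoidHom.comp MulAut.conjNormal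
  obtain ⟨ψ, hψ⟩ := exists_conj_mem (T.isPGroup'.map φ) ho
  let ι : M →* X := K.subtype.comp e.symm.toMonoidHom
  have hι : Function.Injective ι := K.subtype_injective.comp e.symm.injective
  have hφ : ∀ t m, ι (φ t m) = t * ι m * t⁻¹ := fun t m => by simp [ι, φ]
  have hr : ι.range = K := by
    rw [MonoidHom.range_comp, MonoidHom.range_eq_top_of_surjective _ e.symm.surjective,
      ← MonoidHom.range_eq_map, range_subtype]
  have st : ∀ α : MulAut M, (⊤ : Subgroup M) ≤ α • ⊤ := fun α x _ =>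
    mem_pointwise_smul_iff_inv_smul_mem.mpr trivial
  have key : ∀ Y : Subgroup M, Y ≠ ⊥ → Y ≠ ⊤ →
      (∀ t ∈ (T : Subgroup X), (ψ⁻¹ * φ t * ψ) • Y = Y) → (ψ • Y).map ι ⊔ T ≤ X₀ := by
    intro Y h1 h2 h3
    suffices hT : (T : Subgroup X) ≤ normalizer (((ψ • Y).map ι : Subgroup X) : Set X) by
      refine (sup_le le_normalizer hT).trans (H.uniq _ (fun ht => ?_) hT)
      haveI := e.symm.isSimpleGroup
      have hn : ((ψ • Y).map ι).Normal := normalizer_eq_top_iff.mp ht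
      have hn' := hn.comap ι
      rw [comap_map_eq_self_of_injective hι] at hn'
      rcases hn'.eq_bot_or_eq_top with h4 | h4
      · exact h1 (by rw [← inv_smul_smul ψ Y, h4, smul_bot])
      · exact h2 (by rw [← inv_smul_smul ψ Y, h4, top_le_iff.mp (st _)])
    intro t ht
    apply mem_normalizer_fintype
    rintro _ ⟨m, hm, rfl⟩
    have h4 : φ t • ψ • Y = ψ • Y := by
      conv_rhs => rw [← h3 t ht]
      rw [smul_smul, smul_smul, ← mul_assoc, ← mul_assoc, mul_inv_cancel, one_mul]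
    rw [← hφ]
    exact mem_map_of_mem ι (h4 ▸ smul_mem_pointwise_smul m (φ t) _ hm)
  have k1 := key Y₁ a1 a2 fun t ht => (hψ _ (mem_map_of_mem φ ht)).1
  have k2 := key Y₂ b1 b2 fun t ht => (hψ _ (mem_map_of_mem φ ht)).2
  have hK : K ≤ X₀ := by
    rw [← hr, MonoidHom.range_eq_map]
    refine le_trans (map_mono ?_) ((Subgroup.map_sup _ _ ι).le.trans
      (sup_le (le_sup_left.trans k1) (le_sup_left.trans k2)))
    rw [← smul_sup, hs]
    exact st _
  exact H.ne_top (top_le_iff.mp (H.gen ▸ sup_le hK (le_sup_right.trans k1)))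

theorem good_of {Γ : Type*} [Group Γ] {M Y₁ Y₂ R : Subgroup Γ} [Finite M] {k m : ℕ}
    (hM : Nat.card M = 2 ^ k * m) (hm : Odd m) (hk : 0 < k) (hR : R ≤ M ⊓ (Y₁ ⊓ Y₂))
    (hd : 2 ^ k ∣ Nat.card R) (h1 : ¬ M ≤ Y₁) (h2 : ¬ M ≤ Y₂) (hg : M ≤ M ⊓ Y₁ ⊔ M ⊓ Y₂)
    (ho : Nat.card (Out M) = 1 ∨ (Nat.card (Out M) = 2 ∧
      ∃ a ∈ normalizer (M : Set Γ) ⊓ (Y₁ ⊓ Y₂), ∀ c ∈ M, ¬ ∀ x ∈ M, a * x * a⁻¹ = c * x * c⁻¹)) :
    Good M := by
  have hRM : R ≤ M := hR.trans inf_le_left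
  have hc : Nat.card (R.subgroupOf M) = Nat.card R :=
    Nat.card_congr (subgroupOfEquivOfLe hRM).toEquiv
  have hne : ∀ Y : Subgroup Γ, R ≤ Y → Y.subgroupOf M ≠ ⊥ := fun Y hY e => by
    have h3 : R.subgroupOf M = ⊥ := le_bot_iff.mp (e ▸ subgroupOf_mono M hY)
    rw [← hc, h3, card_bot] at hd
    exact absurd (Nat.dvd_one.mp hd) (Nat.one_lt_two_pow hk.ne').ne'
  refine ⟨Y₁.subgroupOf M, Y₂.subgroupOf M, hne _ (hR.trans (inf_le_right.trans inf_le_left)),
    fun e => h1 (subgroupOf_eq_top.mp e), hne _ (hR.trans (inf_le_right.trans inf_le_right)),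
    fun e => h2 (subgroupOf_eq_top.mp e), ?_, ?_⟩
  · rw [← inf_subgroupOf_left Y₁, ← inf_subgroupOf_left Y₂,
      ← subgroupOf_sup inf_le_left inf_le_left, subgroupOf_eq_top]
    exact hg
  set B := stabilizer (MulAut M) (Y₁.subgroupOf M) ⊓ stabilizer (MulAut M) (Y₂.subgroupOf M)
  set I := (MulAut.conj : M →* MulAut M).range
  have st : ∀ (Y : Subgroup Γ) (α : MulAut M) (a : Γ), a ∈ Y → (∀ x : M, (α x : Γ) = a * x * a⁻¹) →
      α ∈ stabilizer (MulAut M) (Y.subgroupOf M) := fun Y α a ha hα => by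
    rw [mem_stabilizer_iff]
    ext x
    rw [mem_pointwise_smul_iff_inv_smul_mem, mem_subgroupOf, mem_subgroupOf]
    have h3 := hα (α⁻¹ • x)
    rw [show α (α⁻¹ • x) = x from α.apply_symm_apply x] at h3
    rw [h3, mul_mem_cancel_right (Y.inv_mem ha), mul_mem_cancel_left ha]
  have hodd : Odd (B.relIndex I) := by
    have h3 : (R.subgroupOf M).map (MulAut.conj : M →* MulAut M).rangeRestrict ≤ B.subgroupOf I := by
      rintro _ ⟨r, hr, rfl⟩
      exact ⟨st _ _ r (hR hr).2.1 fun _ => rfl, st _ _ r (hR hr).2.2 fun _ => rfl⟩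
    have h4 := (index_dvd_of_le h3).trans (index_map_dvd _ (MonoidHom.rangeRestrict_surjective _))
    obtain ⟨r, hr⟩ := hd
    have h5 := card_mul_index (R.subgroupOf M)
    rw [hc, hr, hM, mul_assoc] at h5
    exact hm.of_dvd_nat (h4.trans (Dvd.intro_left r (Nat.eq_of_mul_eq_mul_left (by positivity) h5)))
  have h6 : I.relIndex B * B.index = B.relIndex I * I.index := by
    rw [← inf_relIndex_right, relIndex_mul_index inf_le_right, ← inf_relIndex_left,
      relIndex_mul_index inf_le_left]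
  rcases ho with ho | ⟨ho, a, ⟨ha, ha1, ha2⟩, hn⟩
  · have h7 : I.index = 1 := ho
    rw [h7, mul_one] at h6
    exact hodd.of_dvd_nat (Dvd.intro_left _ h6)
  · have h7 : I.index = 2 := ho
    have h8 : I.relIndex B = 2 := by
      refine ((Nat.dvd_prime Nat.prime_two).mp (h7 ▸ relIndex_dvd_index_of_normal I B)).resolve_left
        fun e => ?_
      obtain ⟨c, hc'⟩ := relIndex_eq_one.mp e
        (show M.normalizerMonoidHom ⟨a, ha⟩ ∈ B from
          ⟨st _ _ a ha1 fun _ => rfl, st _ _ a ha2 fun _ => rfl⟩)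
      exact hn c c.2 fun x hx => (congrArg (fun α : MulAut M => (α ⟨x, hx⟩ : Γ)) hc').symm
    rw [h7, h8, mul_comm] at h6
    rwa [Nat.eq_of_mul_eq_mul_right two_pos h6]

theorem Good.congr {M N : Type*} [Group M] [Group N] (h : Good M) (e : N ≃* M) {X : Type*}
    [Group X] [Finite X] {K : Subgroup X} {T : Sylow 2 X} {X₀ A : Subgroup X} (H : MP K T X₀ A)
    (hK : Nonempty (K ≃* N)) : False := h.not_mp H (hK.some.trans e)

end Cfsg.Agent.H57.MPS
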