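import Cfsg.Agent.H54.O84Defs

/-! Centralisers of hyperplanes of the torus `5⁴`. -/

set_option autoImplicit false

namespace Cfsg.Agent.H57.O84Cen

open Cfsg.Agent.H54.O84 Equiv Cfsg.Lie H37 H40 H34 H29 Multiplicative
open scoped Matrix

theorem exists_smul {l y : V} (hl : l ≠ 0) (h : ∀ x : V, x ⬝ᵥ l = 0 → x ⬝ᵥ y = 0) :
    ∃ c : ZMod 5, y = c • l := by
  have : Fact (Nat.Prime 5) := ⟨by norm_num⟩
  obtain ⟨k, hk⟩ := Function.ne_iff.1 hl
  refine ⟨y k / l k, funext fun j => ?_⟩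
  have := h (Pi.single j (l k) - Pi.single k (l j)) (by
    rw [sub_dotProduct, single_dotProduct, single_dotProduct, mul_comm, sub_self])
  rw [sub_dotProduct, single_dotProduct, single_dotProduct] at this
  rw [Pi.smul_apply, smul_eq_mul, div_mul_eq_mul_div, eq_div_iff hk]
  linear_combination this

theorem m_pow (k : ℕ) (r : Rt) : m ((w ^ k) r) = (2 : ZMod 5) ^ k • m r := by
  induction k with
  | zero => simp
  | succ k ih => rw [pow_succ', Perm.mul_apply, m_w, ih, smul_smul, ← pow_succ']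

theorem pow_mem {i : Fin 2} {u : Perm Rt} (hu : u ∈ CW w) {r : Rt} (hr : r ∈ u '' Ψ i) (k : ℕ) :
    (w ^ k) r ∈ u '' Ψ i := by
  induction k with
  | zero => exact hr
  | succ k ih => rw [pow_succ', Perm.mul_apply]; exact w_mem_Ψ hu ih

theorem cen (_ : RhoStmt) (wf : WfStmt) (nm : NmStmt) : CenStmt := by
  intro F ζ a T l hl g hg
  have inj : ∀ b c : ZMod 5, ζ ^ b.val = ζ ^ c.val → b = c := fun b c e =>
    ZMod.val_injective 5 (T.prim.pow_inj (ZMod.val_lt b) (ZMod.val_lt c) e)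
  let Q : Set GK := {h | ∃ x : V, x ⬝ᵥ l = 0 ∧ h = F.j (a (ofAdd x))}
  have hQ : ∀ h ∈ Q, h ∈ P8.H := by
    rintro _ ⟨x, -, rfl⟩
    obtain ⟨c, e, -⟩ := T.lab x
    exact Cert.mem_H_iff.2 ⟨c, e.symm⟩
  have hc : ∀ h ∈ Q, Commute h (F.j g) := by
    rintro _ ⟨x, hx, rfl⟩
    exact (hg x hx).map F.j
  have h1 : ∀ h ∈ Q, F.j g * h * (F.j g)⁻¹ = h := fun h hh => by
    rw [← (hc h hh).eq, mul_inv_cancel_right]
  obtain ⟨A, hA, n, hn, U, hU, e, h3⟩ := H34.Split.exists_of_normalizes C8.free hQ (g := F.j g)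
    (fun h hh => by rwa [h1 h hh])
    (fun h hh => by rwa [mul_assoc, (hc h hh).eq, inv_mul_cancel_left])
  have hcen : ∀ s ∈ P8.cen Q, ∃ c : ZMod 5, c ≠ 0 ∧ m s = c • l := fun s hs => by
    obtain ⟨c, e⟩ := exists_smul (y := m s) hl fun x hx => by
      obtain ⟨c, e, hc⟩ := T.lab x
      have h4 := hs _ ⟨x, hx, rfl⟩
      rw [e] at h4
      refine inj _ _ ?_
      rw [← hc, C8.commute_tg_iff.1 h4, ZMod.val_zero, pow_zero]
    exact ⟨c, fun h => m_ne_zero s (by rw [e, h, zero_smul]), e⟩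
  have hν := wf _ (P8.ν_mem n hn) l hl fun s => by
    obtain ⟨c, e⟩ := exists_smul (y := m (P8.ν n s) - m s) hl fun x hx => by
      obtain ⟨c, e, hc⟩ := T.lab x
      have h4 := (h3 _ ⟨x, hx, rfl⟩).trans (h1 _ ⟨x, hx, rfl⟩)
      rw [e] at h4
      have h5 := C8.torChar_ν hn (mul_inv_eq_iff_eq_mul.1 h4).symm s
      rw [hc, hc] at h5
      rw [dotProduct_sub, inj _ _ h5, sub_self]
    exact ⟨c, by rw [← e, add_sub_cancel]⟩
  by_cases hr : ∃ r, m r = l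
  · obtain ⟨r, hr⟩ := hr
    refine .inr ⟨r, hr, fun i u hu hi => ?_⟩
    have hs : ∀ s ∈ P8.cen Q, s ∈ u '' Ψ i := fun s hs => by
      obtain ⟨c, h0, e⟩ := hcen s hs
      obtain ⟨k, -, rfl⟩ := (by decide : ∀ c : ZMod 5, c ≠ 0 → ∃ k < 4, c = 2 ^ k) c h0
      rw [← hr, ← m_pow] at e
      rw [m_inj e]
      exact pow_mem hu hi k
    have e2 : u '' Ψ i = (u * v i) '' Ψ0 := by rw [Ψ, Perm.coe_mul, Set.image_comp]
    have hn2 : n ∈ P8.U (u '' Ψ i) := by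
      rw [e2, nm.2 _ (mul_mem (mem_CW.1 hu).1 (v_mem i)) n hn, ← e2]
      have t1 : τ r ∈ WS (u '' Ψ i) := Subgroup.subset_closure ⟨r, hi, rfl⟩
      have t2 : τ (w r) ∈ WS (u '' Ψ i) := Subgroup.subset_closure ⟨_, w_mem_Ψ hu hi, rfl⟩
      rcases hν with h | ⟨r', h', h⟩
      · rw [h]; exact one_mem _
      · obtain rfl := m_inj (h'.trans hr.symm)
        rcases h with h | h | h <;> rw [h]
        exacts [t1, t2, mul_mem t1 t2]
    change F.j g ∈ P8.U (u '' Ψ i)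
    rw [e]
    exact mul_mem (mul_mem (H34.Split.U_sub hA fun s h => hs s h.2) hn2)
      (H34.Split.U_sub hU fun s h => hs s h.2)
  · have hs : ∀ s, s ∉ P8.cen Q := fun s hs => by
      obtain ⟨c, h0, e⟩ := hcen s hs
      obtain ⟨k, -, hk⟩ := (by decide : ∀ c : ZMod 5, c ≠ 0 → ∃ k < 4, 2 ^ k * c = 1) c h0
      exact hr ⟨(w ^ k) s, by rw [m_pow, e, smul_smul, hk, one_smul]⟩
    refine .inl (T.surj g ?_)
    rw [e, H34.Split.eq_one_of_mem_U (fun r h => hs r h.2) hA,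
      H34.Split.eq_one_of_mem_U (fun r h => hs r h.2) hU, one_mul, mul_one]
    exact H34.Split.mem_H_of hn (hν.resolve_right fun ⟨r, h, _⟩ => hr ⟨r, h⟩)

end Cfsg.Agent.H57.O84Cen
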