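import Cfsg.Agent.H71.P3Defs

/-!
The symplectic group has at most six orbits on pairs of totally isotropic lines.
-/

set_option autoImplicit false

namespace Cfsg.Agent.H57.P3Ob

open Module Submodule Cfsg.Agent.H27 Cfsg.Agent.H71.P3
open scoped Pointwise

variable {F V : Type} [Field F] [AddCommGroup V] [Module F V]

/-- The pair `L`, `M` is spanned by members of an independent family with Gram matrix `Γ`. -/
def Ty (S : Sp F V) {n : ℕ} (Γ : Fin n → Fin n → F) (a b c d : Fin n) (L M : Submodule F V) :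
    Prop :=
  ∃ x : Fin n → V, LinearIndependent F x ∧ (∀ i j, S.B (x i) (x j) = Γ i j) ∧
    L = span F {x a, x b} ∧ M = span F {x c, x d}

theorem Ty.tr [Finite V] {S : Sp F V} {n : ℕ} {Γ : Fin n → Fin n → F} {a b c d : Fin n}
    {L M L' M' : S.Ln} (h : Ty S Γ a b c d L.1 M.1) (h' : Ty S Γ a b c d L'.1 M'.1) :
    ∃ g : S.G, g • L = L' ∧ g • M = M' := by
  obtain ⟨x, hx, gx, e1, e2⟩ := h
  obtain ⟨y, hy, gy, f1, f2⟩ := h'
  obtain ⟨g, -, hg, e⟩ := witt_family S.nd S.alt ⊤ (fun _ _ => trivial) hx hy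
    fun i j => (gy i j).trans (gx i j).symm
  refine ⟨⟨g, hg⟩, Subtype.ext ?_, Subtype.ext ?_⟩
  · rw [Sp.Ln_smul, e1, f1, smul_span_pair, e, e]
  · rw [Sp.Ln_smul, e2, f2, smul_span_pair, e, e]

theorem li2 {e f : V} (e0 : e ≠ 0) (hf : f ∉ F ∙ e) : LinearIndependent F ![e, f] :=
  (LinearIndependent.pair_iff' e0).2 fun a h => hf (mem_span_singleton.2 ⟨a, h⟩)

theorem span2 [Finite V] {L : Submodule F V} (h : dm L = 2) {e f : V} (he : e ∈ L) (hf : f ∈ L)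
    (li : LinearIndependent F ![e, f]) : L = span F {e, f} := by
  refine (eq_of_le_of_finrank_eq (span_le.2 ?_) ?_).symm
  · rintro _ (rfl | rfl)
    exacts [he, hf]
  · have := finrank_span_eq_card li
    rw [Matrix.range_cons, Matrix.range_cons, Matrix.range_empty, Set.union_empty] at this
    exact this.trans h.symm

theorem ext2 [Finite V] {L : Submodule F V} (h : dm L = 2) {e : V} (e0 : e ≠ 0) :
    ∃ f ∈ L, f ∉ F ∙ e := by
  by_contra k
  have := finrank_mono (show L ≤ F ∙ e from fun f hf => by_contra fun n => k ⟨f, hf, n⟩)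
  rw [finrank_span_singleton e0] at this
  change finrank F L = 2 at h
  omega

theorem bas [Finite V] {L : Submodule F V} (h : dm L = 2) :
    ∃ e ∈ L, ∃ f ∈ L, LinearIndependent F ![e, f] := by
  obtain ⟨e, he, e0⟩ := exists_mem_ne_zero_of_ne_bot (p := L) (by
    rintro rfl
    simp [dm] at h)
  obtain ⟨f, hf, k⟩ := ext2 h e0
  exact ⟨e, he, f, hf, li2 e0 k⟩

theorem li3 {e f m : V} (li : LinearIndependent F ![e, f]) (hm : m ∉ span F {e, f}) :
    LinearIndependent F ![m, e, f] := li.finCons (by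
  rwa [Matrix.range_cons, Matrix.range_cons, Matrix.range_empty, Set.union_empty])

theorem li4 {L M : Submodule F V} (h : L ⊓ M = ⊥) {e f m n : V} (he : e ∈ L) (hf : f ∈ L)
    (hm : m ∈ M) (hn : n ∈ M) (l1 : LinearIndependent F ![e, f])
    (l2 : LinearIndependent F ![m, n]) : LinearIndependent F ![e, f, m, n] := by
  refine Fintype.linearIndependent_iff.2 fun g hg => ?_
  have k : g 0 • e + g 1 • f + (g 2 • m + g 3 • n) = 0 := by
    simpa [Fin.sum_univ_four, add_assoc] using hg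
  have k1 : g 0 • e + g 1 • f ∈ L ⊓ M := ⟨add_mem (L.smul_mem _ he) (L.smul_mem _ hf), by
    rw [eq_neg_of_add_eq_zero_left k]
    exact neg_mem (add_mem (M.smul_mem _ hm) (M.smul_mem _ hn))⟩
  rw [h, mem_bot] at k1
  rw [k1, zero_add] at k
  obtain ⟨a, b⟩ := LinearIndependent.pair_iff.1 l1 _ _ k1
  obtain ⟨c, d⟩ := LinearIndependent.pair_iff.1 l2 _ _ k
  intro i
  fin_cases i
  exacts [a, b, c, d]

/-- Gram matrix of a meeting pair. -/
def G3 (a : F) : Fin 3 → Fin 3 → F := ![![0, 0, -a], ![0, 0, 0], ![a, 0, 0]]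

/-- Gram matrix of a disjoint pair. -/
def G4 (a b : F) : Fin 4 → Fin 4 → F :=
  ![![0, 0, a, 0], ![0, 0, 0, b], ![-a, 0, 0, 0], ![0, -b, 0, 0]]

theorem ty3 [Finite V] {S : Sp F V} {L M : Submodule F V} (hL : S.IsLn L) (hM : S.IsLn M)
    {e f m : V} (eL : e ∈ L) (eM : e ∈ M) (e0 : e ≠ 0) (fL : f ∈ L) (fM : f ∉ M) (mM : m ∈ M)
    (mL : m ∉ L) {a : F} (h : S.B f m = a) : Ty S (G3 a) 1 2 1 0 L M := by
  have l1 := li2 e0 fun k => fM ((span_singleton_le_iff_mem _ _).2 eM k)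
  have l2 := li2 e0 fun k => mL ((span_singleton_le_iff_mem _ _).2 eL k)
  have e1 := span2 hL.1 eL fL l1
  refine ⟨![m, e, f], li3 l1 (e1 ▸ mL), fun i j => ?_, e1, span2 hM.1 eM mM l2⟩
  have := S.alt.neg_eq f m
  fin_cases i <;> fin_cases j <;>
    simp [G3, hL.2 _ eL _ fL, hL.2 _ fL _ eL, hM.2 _ eM _ mM, hM.2 _ mM _ eM, S.alt.self_eq_zero,
      ← h, this]

theorem ty4 [Finite V] {S : Sp F V} {L M : Submodule F V} (hL : S.IsLn L) (hM : S.IsLn M)
    (h : L ⊓ M = ⊥) {e f m n : V} (he : e ∈ L) (hf : f ∈ L) (hm : m ∈ M) (hn : n ∈ M)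
    (l1 : LinearIndependent F ![e, f]) (l2 : LinearIndependent F ![m, n]) {a b : F}
    (h1 : S.B e m = a) (h2 : S.B f n = b) (h3 : S.B e n = 0) (h4 : S.B f m = 0) :
    Ty S (G4 a b) 0 1 2 3 L M := by
  refine ⟨![e, f, m, n], li4 h he hf hm hn l1 l2, fun i j => ?_, span2 hL.1 he hf l1,
    span2 hM.1 hm hn l2⟩
  have k1 := S.alt.neg_eq e m
  have k2 := S.alt.neg_eq f n
  have k3 := S.alt.isRefl _ _ h3
  have k4 := S.alt.isRefl _ _ h4
  fin_cases i <;> fin_cases j <;>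
    simp [G4, hL.2 _ he _ hf, hL.2 _ hf _ he, hM.2 _ hm _ hn, hM.2 _ hn _ hm, S.alt.self_eq_zero,
      ← h1, ← h2, h3, h4, k1, k2, k3, k4]

/-- The six types. -/
def T (S : Sp F V) : Fin 6 → Submodule F V → Submodule F V → Prop :=
  ![Ty S (fun _ _ : Fin 2 => 0) 0 1 0 1, Ty S (G3 0) 1 2 1 0, Ty S (G3 1) 1 2 1 0,
    Ty S (G4 0 0) 0 1 2 3, Ty S (G4 1 0) 0 1 2 3, Ty S (G4 1 1) 0 1 2 3]

theorem cls [Finite V] {S : Sp F V} {L M : Submodule F V} (hL : S.IsLn L) (hM : S.IsLn M) :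
    ∃ j, T S j L M := by
  by_cases h : L = M
  · subst h
    obtain ⟨e, he, f, hf, li⟩ := bas hL.1
    refine ⟨0, ![e, f], li, fun i j => hL.2 _ ?_ _ ?_, span2 hL.1 he hf li, span2 hL.1 he hf li⟩
    · fin_cases i
      exacts [he, hf]
    · fin_cases j
      exacts [he, hf]
  by_cases k : L ⊓ M = ⊥
  · by_cases p : ∀ u ∈ L, ∀ v ∈ M, S.B u v = 0
    · obtain ⟨e, he, f, hf, l1⟩ := bas hL.1
      obtain ⟨m, hm, n, hn, l2⟩ := bas hM.1
      exact ⟨3, ty4 hL hM k he hf hm hn l1 l2 (p _ he _ hm) (p _ hf _ hn) (p _ he _ hn)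
        (p _ hf _ hm)⟩
    push Not at p
    obtain ⟨e, he, m', hm', p⟩ := p
    obtain ⟨m, hm, p⟩ : ∃ m ∈ M, S.B e m = 1 :=
      ⟨(S.B e m')⁻¹ • m', M.smul_mem _ hm', by simp [p]⟩
    have e0 : e ≠ 0 := by rintro rfl; simp at p
    have m0 : m ≠ 0 := by rintro rfl; simp at p
    obtain ⟨f, hf, f1, f2⟩ : ∃ f ∈ L, f ∉ F ∙ e ∧ S.B f m = 0 := by
      obtain ⟨f, hf, q⟩ := ext2 hL.1 e0
      refine ⟨f - S.B f m • e, sub_mem hf (L.smul_mem _ he), fun r => q ?_, by simp [p]⟩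
      simpa using add_mem r (smul_mem _ (S.B f m) (mem_span_singleton_self e))
    obtain ⟨n, hn, n1, n2⟩ : ∃ n ∈ M, n ∉ F ∙ m ∧ S.B e n = 0 := by
      obtain ⟨n, hn, q⟩ := ext2 hM.1 m0
      refine ⟨n - S.B e n • m, sub_mem hn (M.smul_mem _ hm), fun r => q ?_, by simp [p]⟩
      simpa using add_mem r (smul_mem _ (S.B e n) (mem_span_singleton_self m))
    by_cases r : S.B f n = 0
    · exact ⟨4, ty4 hL hM k he hf hm hn (li2 e0 f1) (li2 m0 n1) p r n2 f2⟩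
    · exact ⟨5, ty4 hL hM k he hf hm (M.smul_mem (S.B f n)⁻¹ hn) (li2 e0 f1)
        (li2 m0 fun q => n1 ((smul_mem_iff _ (inv_ne_zero r)).1 q)) p (by simp [r])
        (by simp [n2]) f2⟩
  obtain ⟨e, ⟨eL, eM⟩, e0⟩ := exists_mem_ne_zero_of_ne_bot k
  obtain ⟨f, fL, fM⟩ := SetLike.not_le_iff_exists.1 fun l : L ≤ M =>
    h (eq_of_le_of_finrank_eq l (hL.1.trans hM.1.symm))
  obtain ⟨m, mM, mL⟩ := SetLike.not_le_iff_exists.1 fun l : M ≤ L =>
    h (eq_of_le_of_finrank_eq l (hM.1.trans hL.1.symm)).symm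
  by_cases r : S.B f m = 0
  · exact ⟨1, ty3 hL hM eL eM e0 fL fM mM mL r⟩
  · exact ⟨2, ty3 hL hM eL eM e0 fL fM (M.smul_mem (S.B f m)⁻¹ mM)
      (fun q => mL ((smul_mem_iff _ (inv_ne_zero r)).1 q)) (by simp [r])⟩

theorem ob : ObStmt := by
  intro F V _ _ _ _ _ S
  choose c hc using fun L M : S.Ln => cls L.2 M.2
  refine ⟨c, fun L M L' M' _ _ e => ?_⟩
  have h := hc L M
  have h' := hc L' M'
  rw [← e] at h'
  generalize c L M = j at h h'
  fin_cases j <;> exact Ty.tr h h'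

end Cfsg.Agent.H57.P3Ob
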