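import Cfsg.Agent.H63.PSDefs
import Cfsg.Agent.H19.GaloisBlock
import Cfsg.Agent.H11.Kernel
import Cfsg.Agent.S0907

/-! The final inequality for pairs of Sylow subgroups. -/

set_option autoImplicit false

namespace Cfsg.Agent.H57.PsFin

open Cfsg Cfsg.Agent.H63.PS
open scoped ComplexConjugate

universe u

variable {G : Type u} [Group G] [Finite G]

omit [Finite G] in
theorem deg_pos {χ : G → ℂ} (hχ : IsIrrCharacter G χ) : ∃ n : ℕ, 0 < n ∧ χ 1 = n := by
  obtain ⟨n, hn⟩ := H11.exists_nat_degree (H11.isCharacter_of_irr hχ)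
  refine ⟨n, Nat.pos_of_ne_zero fun e => H11.irr_apply_one_ne_zero hχ ?_, hn⟩
  rw [hn, e, Nat.cast_zero]

theorem ww_one (A : Subgroup G) : ww A (fun _ => 1) = 1 := by
  have := Fintype.ofFinite A
  have h : (0 : ℝ) < Nat.card A := Nat.cast_pos.2 Nat.card_pos
  simp only [ww, finsum_eq_sum_of_fintype, Complex.one_re, Finset.sum_const, Finset.card_univ,
    nsmul_eq_mul, mul_one, ← Nat.card_eq_fintype_card]
  exact div_self h.ne'

theorem ww_lt [IsSimpleGroup G] {A : Subgroup G} {z : G} (hz : z ∈ A) (z1 : z ≠ 1) {χ : G → ℂ}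
    (hχ : IsIrrCharacter G χ) (h1 : χ ≠ fun _ => 1) : ww A χ < 1 := by
  have := Fintype.ofFinite A
  have hc := H11.isCharacter_of_irr hχ
  have h : (0 : ℝ) < Nat.card A := Nat.cast_pos.2 Nat.card_pos
  obtain ⟨n, n0, hn⟩ := deg_pos hχ
  have d0 : 0 < (χ 1).re := by rw [hn]; simpa using n0
  rw [ww, div_lt_one (mul_pos h d0), finsum_eq_sum_of_fintype]
  have : (Nat.card A : ℝ) * (χ 1).re = ∑ _c : A, (χ 1).re := by
    simp [Nat.card_eq_fintype_card]
  rw [this]
  refine Finset.sum_lt_sum (fun c _ => H11.re_apply_le hc _) ⟨⟨z, hz⟩, Finset.mem_univ _, ?_⟩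
  refine H11.re_apply_lt hc fun e => z1 ?_
  rw [← Subgroup.mem_bot, ← H11.charKer_eq_bot_of_isSimpleGroup hχ h1,
    H11.mem_charKer_irr_iff hχ]
  exact e

theorem fin (hl : LamStmt.{u}) (hp : PDStmt.{u}) (hi : IDStmt.{u}) : FinStmt.{u} := by
  classical
  intro p pp G _ _ hs A z L hk
  have := Fintype.ofFinite (IrrCharacter G)
  obtain ⟨M, hM⟩ := H19.exists_isPModular (p := p) pp.out
  have z1 : z ≠ 1 := fun e => by
    have := L.ord
    rw [e, orderOf_one] at this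
    exact pp.out.one_lt.ne this
  have h1 := hl p G M hM z z1 ⟨1, by rw [L.ord, pow_one]⟩ (L.psol z L.mem z1)
  have h2 := hi p G M hM A z L
  have h3 := hp p G M hM A z L
  have h4 := S0907.result p M hM _ H19.isPBlock_principalBlock (1 : G) z
    (by rw [orderOf_one, Nat.dvd_one]; exact pp.out.one_lt.ne') (by rw [L.ord])
  have hB : (principalBlock M G).Finite := Set.toFinite _
  rw [finsum_mem_eq_finite_toFinset_sum _ hB] at h1 h2 h4
  have t0 : H19.oneIrr G ∈ hB.toFinset :=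
    hB.mem_toFinset.2 (H19.oneIrr_mem_principalBlock hM.2.1)
  rw [← Finset.add_sum_erase _ _ t0] at h1 h2 h4
  set T := hB.toFinset.erase (H19.oneIrr G) with hT
  simp only [H19.oneIrr_coe, ww_one, norm_one, one_pow, mul_one, map_one] at h1 h2 h4
  have n2 : (2 : ℝ) ≤ Nat.card A := by
    have : Nontrivial A := ⟨⟨⟨z, L.mem⟩, 1, fun e => z1 (congrArg Subtype.val e)⟩⟩
    exact_mod_cast Finite.one_lt_card
  have nc : (Nat.card A : ℝ) ≤ io p z := by exact_mod_cast L.num.2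
  have k2 : (2 : ℝ) ≤ kk A z := by exact_mod_cast hk
  set n : ℝ := (Nat.card A : ℝ)
  set c : ℝ := (io p z : ℝ)
  set k : ℝ := (kk A z : ℝ)
  have hm : ∀ χ ∈ T, χ ∈ principalBlock M G := fun χ h =>
    hB.mem_toFinset.1 (Finset.mem_of_mem_erase h)
  have pos : ∀ χ ∈ T, 0 ≤ 1 - (n - 1) * ww A χ.1 := fun χ h => by
    have a := ww_lt L.mem z1 χ.2 fun e => Finset.ne_of_mem_erase h (Subtype.ext e)
    exact nonneg_of_mul_nonneg_right (h3 χ (hm χ h)).1 (by linarith)
  have pos' : ∀ χ ∈ T, 0 ≤ ‖χ.1 z‖ ^ 2 * (1 - (n - 1) * ww A χ.1) := fun χ h =>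
    mul_nonneg (sq_nonneg _) (pos χ h)
  have E0 : ∑ χ ∈ T, ‖χ.1 z‖ ^ 2 * (1 - (n - 1) * ww A χ.1) = 0 := by
    refine le_antisymm ?_ (Finset.sum_nonneg pos')
    have e : ∑ χ ∈ T, ‖χ.1 z‖ ^ 2 * (1 - (n - 1) * ww A χ.1) =
        ∑ χ ∈ T, ‖χ.1 z‖ ^ 2 - (n - 1) * ∑ χ ∈ T, ‖χ.1 z‖ ^ 2 * ww A χ.1 := by
      rw [Finset.mul_sum, ← Finset.sum_sub_distrib]
      exact Finset.sum_congr rfl fun χ _ => by ring
    rw [e]
    set s := ∑ χ ∈ T, ‖χ.1 z‖ ^ 2
    set t := ∑ χ ∈ T, ‖χ.1 z‖ ^ 2 * ww A χ.1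
    have a1 : 2 * c ≤ n * (1 + t) := le_trans (by nlinarith) h2
    have a2 : n * (s - (n - 1) * t) ≤ 0 := by
      have b1 : (n - 1) * (2 * c) ≤ (n - 1) * (n * (1 + t)) :=
        mul_le_mul_of_nonneg_left a1 (by linarith)
      have b2 : (n - 2) * (n - c) ≤ 0 := mul_nonpos_of_nonneg_of_nonpos (by linarith) (by linarith)
      have b3 : s = c - 1 := by linarith
      rw [b3]
      nlinarith
    by_contra hc
    have := mul_pos (show 0 < n by linarith) (not_le.1 hc)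
    linarith
  rw [Finset.sum_eq_zero_iff_of_nonneg pos'] at E0
  have h5 := congrArg Complex.re h4
  rw [Complex.add_re, Complex.re_sum, Complex.one_re, Complex.zero_re] at h5
  have : 0 ≤ ∑ χ ∈ T, (χ.1 1 * conj (χ.1 z)).re := Finset.sum_nonneg fun χ h => by
    obtain ⟨d, d0, hd⟩ := deg_pos χ.2
    rcases mul_eq_zero.1 (E0 χ h) with e | e
    · have : χ.1 z = 0 := by simpa using e
      simp [this]
    · have a := (h3 χ (hm χ h)).2
      rw [e, mul_zero, sub_zero, hd, Complex.natCast_re] at a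
      have d1 : (0 : ℝ) < d := Nat.cast_pos.2 d0
      have b := (le_div_iff₀ d1).1 ((sq_nonneg _).trans a)
      rw [hd]
      simp only [Complex.mul_re, Complex.natCast_re, Complex.conj_re, Complex.natCast_im, zero_mul,
        sub_zero] at b ⊢
      exact mul_nonneg d1.le b
  linarith

end Cfsg.Agent.H57.PsFin
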