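import Cfsg.Agent.H79.R3Defs

/-!
Orbits of a point stabiliser on a projective line.
-/

set_option autoImplicit false

namespace Cfsg.Agent.H57.R3Aff

open Module Cfsg.Agent.H79.R3
open scoped Pointwise

universe u

theorem pt {F V : Type u} [Field F] [AddCommGroup V] [Module F V] {y : Submodule F V}
    (h : dm y = 1) : ∃ w, w ≠ 0 ∧ y = F ∙ w := by
  obtain ⟨v, v0, hv⟩ := finrank_eq_one_iff'.1 h
  refine ⟨v, fun e => v0 (Subtype.ext e), le_antisymm (fun x hx => ?_) ?_⟩
  · obtain ⟨c, e⟩ := hv ⟨x, hx⟩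
    exact Submodule.mem_span_singleton.2 ⟨c, congrArg Subtype.val e⟩
  · exact (Submodule.span_singleton_le_iff_mem _ _).2 v.2

theorem orb_eq {G X : Type*} [Group G] [MulAction G X] (Γ : Subgroup G) (z : X) :
    (MulAction.orbit Γ z).ncard = (MulAction.stabilizer G z).relIndex Γ :=
  (MulAction.index_stabilizer Γ z).symm

theorem aff : AffStmt.{u} := by
  intro F V _ _ _ _ _ Γ L y z L2 y1 z1 yL zL hΓ
  rw [← MulAction.index_stabilizer]
  by_cases zy : z = y
  · have : MulAction.stabilizer Γ z = ⊤ := eq_top_iff.2 fun g _ => by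
      rw [zy]
      exact (hΓ g g.2).2
    rw [this, Subgroup.index_top]
    exact one_dvd _
  obtain ⟨w, w0, rfl⟩ := pt y1
  obtain ⟨v, v0, rfl⟩ := pt z1
  have li : LinearIndependent F ![w, v] := (LinearIndependent.pair_iff' w0).2 fun a e =>
    zy (Submodule.eq_of_le_of_finrank_eq ((Submodule.span_singleton_le_iff_mem _ _).2
      (Submodule.mem_span_singleton.2 ⟨a, e⟩)) (z1.trans y1.symm))
  have wL : w ∈ L := (Submodule.span_singleton_le_iff_mem _ _).1 yL
  have vL : v ∈ L := (Submodule.span_singleton_le_iff_mem _ _).1 zL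
  have eL : Submodule.span F {w, v} = L := by
    refine Submodule.eq_of_le_of_finrank_eq (Submodule.span_le.2 ?_) ?_
    · rintro _ (rfl | rfl)
      exacts [wL, vL]
    · have := finrank_span_eq_card li
      rw [Matrix.range_cons, Matrix.range_cons, Matrix.range_empty, Set.union_empty] at this
      exact this.trans L2.symm
  have ha : ∀ g : Γ, ∃ a : F, a • w = (g : V ≃ₗ[F] V) w := fun g => by
    have := (smul_mem_smul (g := (g : V ≃ₗ[F] V))).2 (Submodule.mem_span_singleton_self (R := F) w)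
    rw [(hΓ g g.2).2] at this
    exact Submodule.mem_span_singleton.1 this
  have hb : ∀ g : Γ, ∃ c b : F, c • w + b • v = (g : V ≃ₗ[F] V) v := fun g => by
    have := (smul_mem_smul (g := (g : V ≃ₗ[F] V))).2 vL
    rw [(hΓ g g.2).1, ← eL] at this
    exact Submodule.mem_span_pair.1 this
  choose α hα using ha
  choose γ β hβ using hb
  have un : ∀ a b a' b' : F, a • w + b • v = a' • w + b' • v → a = a' ∧ b = b' :=
    fun a b a' b' e => li.eq_of_pair e
  have αm : ∀ g h, α (g * h) = α g * α h := fun g h => smul_left_injective F w0 (by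
    show α (g * h) • w = (α g * α h) • w
    rw [hα, mul_comm, mul_smul, hα, ← map_smul, hα]
    rfl)
  have bm : ∀ g h, γ (g * h) = γ h * α g + β h * γ g ∧ β (g * h) = β g * β h := fun g h => by
    apply un
    rw [hβ]
    show (g : V ≃ₗ[F] V) ((h : V ≃ₗ[F] V) v) = _
    rw [← hβ h, map_add, map_smul, map_smul, ← hα, ← hβ g]
    module
  have α1 : α 1 = 1 := smul_left_injective F w0 (by simpa using hα 1)
  have β1 : β 1 = 1 := (un (γ 1) (β 1) 0 1 (by simpa using hβ 1)).2
  have α0 : ∀ g, α g ≠ 0 := fun g e => by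
    have := αm g g⁻¹
    simp [α1, e] at this
  have β0 : ∀ g, β g ≠ 0 := fun g e => by
    have := (bm g g⁻¹).2
    simp [β1, e] at this
  let χ : Γ →* Fˣ := MonoidHom.mk' (fun g => Units.mk0 (α g / β g) (div_ne_zero (α0 g) (β0 g)))
    fun g h => Units.ext (by simp [αm, (bm g h).2, mul_div_mul_comm])
  have hχ : ∀ g : χ.ker, α g = β g := fun g => by
    have : α g / β g = 1 := congrArg Units.val (MonoidHom.mem_ker.1 g.2)
    exact (div_eq_one_iff_eq (β0 _)).1 this
  let ψ : χ.ker →* Multiplicative F := MonoidHom.mk' (fun g => Multiplicative.ofAdd (γ g / β g))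
    fun g h => by
      rw [← ofAdd_add, Subgroup.coe_mul, (bm _ _).1, (bm _ _).2, hχ]
      congr 1
      have := β0 g
      have := β0 h
      field_simp
      ring
  have le : ψ.ker.map χ.ker.subtype ≤ MulAction.stabilizer Γ (F ∙ v) := by
    rintro _ ⟨g, hg, rfl⟩
    have e : γ g / β g = 0 := congrArg Multiplicative.toAdd (MonoidHom.mem_ker.1 hg)
    have e' : γ g = 0 := by simpa [β0] using e
    show ((g : Γ) : V ≃ₗ[F] V) • (F ∙ v) = F ∙ v
    rw [smul_span, ← hβ, e', zero_smul, zero_add,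
      Submodule.span_singleton_smul_eq (β0 _).isUnit]
  refine (Subgroup.index_dvd_of_le le).trans ?_
  rw [Subgroup.index_map_subtype, Subgroup.index_ker, Subgroup.index_ker]
  refine mul_dvd_mul ?_ ?_
  · exact Subgroup.card_subgroup_dvd_card ψ.range
  · simpa [Nat.card_units] using Subgroup.card_subgroup_dvd_card χ.range

theorem cc3 (cov : CovStmt.{u}) : Cc3Stmt.{u} := by
  intro F V _ _ _ _ _ Γ L s d h d1 dq e
  have : Finite (Submodule F V) := Finite.of_injective _ SetLike.coe_injective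
  have hC : ∀ P, P ∈ Cov ⊥ L ↔ P ≤ L ∧ dm P = 1 := fun P => by simp [Cov]
  have tot : cnt s ⊥ L + cnt (fun y => ¬ s y) ⊥ L = Nat.card F + 1 := by
    have := cov F V ⊥ L bot_le
    rw [h.dim] at this
    simp only [dm, finrank_bot, br, Nat.sub_zero, Finset.sum_range_succ, Finset.sum_range_zero,
      pow_zero, pow_one, zero_add] at this
    rw [add_comm (Nat.card F), ← this, cnt, cnt, ← Set.ncard_union_eq]
    · congr 1
      ext P
      simp only [Set.mem_union, Set.mem_ofPred_eq]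
      tauto
    · exact Set.disjoint_left.2 fun P a b => b.2 a.2
  have orb : ∀ (t : Submodule F V → Prop) (y : Submodule F V), (∀ x, s x ↔ (s y ↔ t x)) →
      y ∈ Cov ⊥ L → cnt t ⊥ L = (MulAction.stabilizer (V ≃ₗ[F] V) y).relIndex Γ := by
    intro t y ht hy
    rw [← orb_eq, cnt]
    obtain ⟨yL, y1⟩ := (hC y).1 hy
    congr 1
    ext P
    constructor
    · rintro ⟨hP, tP⟩
      obtain ⟨PL, P1⟩ := (hC P).1 hP
      obtain ⟨g, hg, rfl⟩ := h.tr y P y1 yL P1 PL (by have := ht P; tauto)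
      exact ⟨⟨g, hg⟩, rfl⟩
    · rintro ⟨g, rfl⟩
      refine ⟨(hC _).2 ⟨?_, (dm_smul _ _).trans y1⟩, ?_⟩
      · rw [← h.fix g g.2]
        exact smul_le_smul.2 yL
      · have a := ht ((g : V ≃ₗ[F] V) • y)
        have b := h.inv g g.2 y y1 yL
        show t ((g : V ≃ₗ[F] V) • y)
        tauto
  have q2 : 1 < Nat.card F := Finite.one_lt_card
  have dle := Nat.le_of_dvd (by omega) dq
  obtain ⟨y, hy, sy⟩ : {P | P ∈ Cov ⊥ L ∧ s P}.Nonempty :=
    Set.nonempty_of_ncard_ne_zero (show cnt s ⊥ L ≠ 0 by omega)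
  obtain ⟨z, hz, sz⟩ : {P | P ∈ Cov ⊥ L ∧ ¬ s P}.Nonempty :=
    Set.nonempty_of_ncard_ne_zero (show cnt (fun y => ¬ s y) ⊥ L ≠ 0 by omega)
  have o1 := orb s y (fun x => by tauto) hy
  have o2 := orb (fun y => ¬ s y) z (fun x => by tauto) hz
  have a := aff F V (MulAction.stabilizer (V ≃ₗ[F] V) y ⊓ Γ) L y z h.dim ((hC y).1 hy).2
    ((hC z).1 hz).2 ((hC y).1 hy).1 ((hC z).1 hz).1 fun g hg => ⟨h.fix g hg.2, hg.1⟩
  rw [orb_eq] at a
  have b := Subgroup.relIndex_dvd_of_le_left Γ (inf_le_left :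
    MulAction.stabilizer (V ≃ₗ[F] V) z ⊓ MulAction.stabilizer (V ≃ₗ[F] V) y ≤ _)
  rw [← Subgroup.relIndex_inf_mul_relIndex, ← o1, ← o2] at b
  generalize cnt s ⊥ L = m1 at *
  generalize cnt (fun y => ¬ s y) ⊥ L = m2 at *
  have c1 : m2.Coprime m1 := by
    have g1 := Nat.gcd_dvd_left m2 m1
    have g2 := Nat.gcd_dvd_right m2 m1
    have g3 : m2.gcd m1 ∣ d := (Nat.dvd_add_right g2).1 (e ▸ g1)
    have g4 : m2.gcd m1 ∣ Nat.card F + 1 := tot ▸ dvd_add g2 g1
    exact Nat.dvd_one.1 ((Nat.dvd_add_right (g3.trans dq)).1 g4)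
  have c2 := (c1.dvd_of_dvd_mul_right b).trans a
  have := Fintype.ofFinite F
  obtain ⟨p, -, n, hp, hq⟩ := FiniteField.card' F
  rw [← Nat.card_eq_fintype_card] at hq
  generalize Nat.card F = q at *
  have pd : p ∣ d := by
    obtain ⟨k, -, rfl⟩ := (Nat.dvd_prime_pow hp).1 (hq ▸ dq)
    exact dvd_pow_self p (by rintro rfl; simp at d1)
  have c3 : m2.Coprime q := by
    rw [hq]
    refine Nat.Coprime.pow_right _ ((Nat.Prime.coprime_iff_not_dvd hp).2 fun k => ?_).symm
    have k1 : p ∣ q + d + 1 := (show 2 * m2 = q + d + 1 by omega) ▸ k.mul_left 2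
    exact hp.one_lt.ne' (Nat.dvd_one.1 ((Nat.dvd_add_right (dvd_add (pd.trans dq) pd)).1 k1))
  obtain ⟨k, hk⟩ := c3.dvd_of_dvd_mul_left c2
  have k1 : k = 1 := by
    rcases k with _ | _ | k
    · omega
    · rfl
    · have : m2 * (k + 1 + 1) = m2 * k + 2 * m2 := by ring
      omega
  subst k1
  have d3 : d ∣ 3 := (Nat.dvd_add_right (dvd_refl d)).1 ((show d + 3 = q by omega) ▸ dq)
  have d3' : d = 3 := ((Nat.dvd_prime Nat.prime_three).1 d3).resolve_left (by omega)
  have p3 : p = 3 := (Nat.prime_dvd_prime_iff_eq hp Nat.prime_three).1 (d3' ▸ pd)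
  have : 2 ∣ 3 := Nat.prime_two.dvd_of_dvd_pow (n := n) (by rw [← p3, ← hq]; omega)
  omega

end Cfsg.Agent.H57.R3Aff
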