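import Cfsg.Agent.H79.R3Defs

/-!
An involution modulo scalars with an eigenvector fixes a plane on which it is not scalar.
-/

set_option autoImplicit false

namespace Cfsg.Agent.H57.R3Inv

open Module Cfsg.Agent.H79.R3
open scoped Pointwise

universe u

theorem inv : InvStmt.{u} := by
  intro F V _ _ _ _ _ g h3 hn hs hx
  obtain ⟨c, hc⟩ := hs
  have hc' : ∀ v, g (g v) = c • v := hc
  obtain ⟨d, rfl⟩ : ∃ d : F, c = d * d := by
    rcases hx with h2 | ⟨x, x1, hx⟩
    · have inj : Function.Injective fun a : F => a * a := fun a b e => by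
        rcases mul_self_eq_mul_self_iff.1 e with e | e
        · exact e
        · rw [e]
          linear_combination (-b) * h2
      obtain ⟨d, e⟩ := Finite.injective_iff_surjective.1 inj c
      exact ⟨d, e.symm⟩
    · obtain ⟨v, v0, hv⟩ := finrank_eq_one_iff'.1 x1
      have m : g v ∈ x := by
        have := (smul_mem_smul (g := g)).2 v.2
        rwa [hx] at this
      obtain ⟨d, e⟩ := hv ⟨_, m⟩
      have e' : d • (v : V) = g v := congrArg Subtype.val e
      have v0' : (v : V) ≠ 0 := fun h => v0 (Subtype.ext h)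
      refine ⟨d, smul_left_injective F v0' ?_⟩
      show c • (v : V) = (d * d) • (v : V)
      rw [← hc', ← e', map_smul, ← e', smul_smul]
  obtain ⟨v, hv⟩ : ∃ v, LinearIndependent F ![v, g v] := by
    by_contra h
    obtain ⟨a, e⟩ := LinearMap.exists_eq_smul_id_of_forall_notLinearIndependent
      (f := (g : V →ₗ[F] V)) fun v i => h ⟨v, i⟩
    exact hn ⟨a, fun v => by simpa using LinearMap.congr_fun e v⟩
  let U := Submodule.span F (Set.range ![v, g v])
  have U2 : finrank F U = 2 := by simpa using finrank_span_eq_card hv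
  obtain ⟨y, hy⟩ : ∃ y, y ∉ U := by
    by_contra h
    have : U = ⊤ := eq_top_iff.2 fun y _ => by_contra fun n => h ⟨y, n⟩
    rw [this, finrank_top] at U2
    omega
  obtain ⟨w, hw, a, ha⟩ : ∃ w, w ∉ U ∧ ∃ a : F, g w - a • w ∈ U := by
    by_cases m : g y - d • y ∈ U
    · exact ⟨y, hy, d, m⟩
    · refine ⟨_, m, -d, ?_⟩
      have : g (g y - d • y) - -d • (g y - d • y) = 0 := by
        rw [map_sub, map_smul, hc', smul_sub, smul_smul]
        module
      rw [this]
      exact U.zero_mem
  have li : LinearIndependent F ![w, v, g v] := linearIndependent_finCons.2 ⟨hv, hw⟩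
  let E := Submodule.span F (Set.range ![w, v, g v])
  have wE : w ∈ E := Submodule.subset_span ⟨0, rfl⟩
  have vE : v ∈ E := Submodule.subset_span ⟨1, rfl⟩
  have gE : g v ∈ E := Submodule.subset_span ⟨2, rfl⟩
  have UE : U ≤ E := Submodule.span_le.2 (by
    rintro _ ⟨i, rfl⟩
    fin_cases i
    exacts [vE, gE])
  refine ⟨E, d, by simpa using finrank_span_eq_card li, ?_, hc', ?_⟩
  · refine Submodule.eq_of_le_of_finrank_eq ?_ (dm_smul g E)
    rw [smul_def, Submodule.map_le_iff_le_comap]
    refine Submodule.span_le.2 ?_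
    rintro _ ⟨i, rfl⟩
    fin_cases i
    · show g w ∈ E
      simpa using E.add_mem (UE ha) (E.smul_mem a wE)
    · exact gE
    · show g (g v) ∈ E
      rw [hc']
      exact E.smul_mem _ vE
  · rintro ⟨a, ha⟩
    exact (LinearIndependent.pair_iff' (by simpa using hv.ne_zero 0)).1 hv a (ha v vE).symm

end Cfsg.Agent.H57.R3Inv
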