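import Cfsg.Agent.H79.R3Defs

/-!
The inner product of a transitive permutation character with a flag character counts orbits.
-/

set_option autoImplicit false

namespace Cfsg.Agent.H57.R3Orb

open Module MulAction Cfsg.Agent.H79.R3
open scoped Pointwise MatrixGroups

universe u w

theorem card_orbits_prod {G X : Type*} (Y : Type*) [Group G] [MulAction G X] [MulAction G Y]
    [IsPretransitive G X] (x : X) :
    Nat.card (orbitRel.Quotient G (X × Y)) = Nat.card (orbitRel.Quotient (stabilizer G x) Y) := by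
  symm
  refine Nat.card_eq_of_bijective (Quotient.map' (fun y => (x, y)) ?_) ⟨?_, ?_⟩
  · rintro y y' ⟨g, e⟩
    exact ⟨g, Prod.ext g.2 e⟩
  · rintro ⟨y⟩ ⟨y'⟩ e
    obtain ⟨g, e⟩ := Quotient.exact e
    exact Quotient.sound ⟨⟨g, congrArg Prod.fst e⟩, congrArg Prod.snd e⟩
  · rintro ⟨x', y⟩
    obtain ⟨g, e⟩ := exists_smul_eq G x' x
    exact ⟨Quotient.mk'' (g • y), Quotient.sound ⟨g, Prod.ext e rfl⟩⟩

theorem orb (flg : FlgStmt.{u}) : OrbStmt.{u, w} := by
  intro n F _ _ _ X _ _ _ x a b d hn h1 h2 h3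
  classical
  obtain ⟨A, B, D, hfl, hP, htr⟩ := flg n F a b d hn h1 h2 h3
  let Y := GL (Fin n) F ⧸ parabolicGL n F (cmp n a b d)
  let _ : MulAction (Matrix.SpecialLinearGroup (Fin n) F) Y :=
    MulAction.compHom Y Matrix.SpecialLinearGroup.toGL
  let S := stabilizer (Matrix.SpecialLinearGroup (Fin n) F) x
  let Q := orbitRel.Quotient S Y
  have e : Q ≃ Fin (Nat.card Q) := Finite.equivFin Q
  have key : ∀ g g' : GL (Fin n) F, (QuotientGroup.mk g : Y) = QuotientGroup.mk g' ↔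
      lin n F g • A = lin n F g' • A ∧ lin n F g • B = lin n F g' • B ∧
        lin n F g • D = lin n F g' • D := fun g g' => by
    rw [QuotientGroup.eq, hP, map_mul, map_inv]
    simp only [mul_smul, inv_smul_eq_iff]
    simp only [eq_comm]
  choose! r hr using htr
  refine ⟨Nat.card Q, ?_, fun A' B' D' => e (Quotient.mk''
    (QuotientGroup.mk (Matrix.SpecialLinearGroup.toGL (r A' B' D')) : Y)), fun j => ?_,
    fun A₁ B₁ D₁ A₂ B₂ D₂ f₁ f₂ => ?_⟩
  · rw [← card_orbits_prod, ← H11.classInner_permChar_permChar]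
    rfl
  · obtain ⟨⟨⟨g⟩⟩, rfl⟩ := e.surjective j
    have f : Fl a b d (lin n F g • A) (lin n F g • B) (lin n F g • D) := by
      simpa only [Fl, H79.R3.smul_le_smul, dm_smul] using hfl
    exact ⟨_, _, _, f, congrArg e (congrArg Quotient.mk'' ((key _ _).2 (hr _ _ _ f)))⟩
  · obtain ⟨a₁, b₁, d₁⟩ := hr _ _ _ f₁
    obtain ⟨a₂, b₂, d₂⟩ := hr _ _ _ f₂
    have k : ∀ h : Matrix.SpecialLinearGroup (Fin n) F,
        h • (QuotientGroup.mk (Matrix.SpecialLinearGroup.toGL (r A₁ B₁ D₁)) : Y) =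
          QuotientGroup.mk (Matrix.SpecialLinearGroup.toGL (r A₂ B₂ D₂)) ↔
        slin n F h • A₁ = A₂ ∧ slin n F h • B₁ = B₂ ∧ slin n F h • D₁ = D₂ := fun h => by
      refine (key (Matrix.SpecialLinearGroup.toGL h *
        Matrix.SpecialLinearGroup.toGL (r A₁ B₁ D₁)) _).trans ?_
      simp only [map_mul, mul_smul]
      show slin n F h • slin n F _ • A = slin n F _ • A ∧
        slin n F h • slin n F _ • B = slin n F _ • B ∧
        slin n F h • slin n F _ • D = slin n F _ • D ↔ _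
      rw [a₁, b₁, d₁, a₂, b₂, d₂]
    rw [e.apply_eq_iff_eq, eq_comm]
    constructor
    · intro q
      obtain ⟨h, q⟩ := Quotient.exact q
      exact ⟨_, ⟨h, h.2, rfl⟩, (k h).1 q⟩
    · rintro ⟨_, ⟨h, hh, rfl⟩, q⟩
      exact Quotient.sound ⟨⟨h, hh⟩, (k h).2 q⟩

end Cfsg.Agent.H57.R3Orb
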