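import Cfsg.Agent.H58.SWDefs

/-! Project SW (S3694): outer elements and invariant block systems, linear case. -/

set_option autoImplicit false
set_option linter.unusedSectionVars false
open Matrix Cfsg

namespace Cfsg.Agent.H57.SwDref

open Cfsg.Agent.H58.SW

section
variable {F : Type} [Field F] [Fintype F] [DecidableEq F] {n : ℕ}

/-- conjugation as an algebra map -/
def kap (a : Gl n F) : Mt n F →ₐ[F] Mt n F where
  toFun := cj a
  map_one' := by simp [cj]
  map_mul' x y := by simp [cj, mul_assoc]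
  map_zero' := by simp [cj]
  map_add' x y := by simp [cj, mul_add, add_mul]
  commutes' r := by simp [cj, Algebra.algebraMap_eq_smul_one]

theorem kap_inj (a : Gl n F) : Function.Injective (kap a) :=
  Function.LeftInverse.injective (g := cj a⁻¹) fun x => by
    change cj a⁻¹ (cj a x) = x
    simp [cj, mul_assoc]

theorem det_kap (a : Gl n F) (X : Mt n F) : (kap a X).det = X.det := det_units_conj a X

/-- the group element with a given matrix in the frame -/
def gl (a : Gl n F) (X X' : Mt n F) (h : X * X' = 1) : Gl n F :=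
  ⟨kap a X, kap a X', by rw [← map_mul, h, map_one], by rw [← map_mul, mul_eq_one_comm.1 h, map_one]⟩

/-- a diagonal matrix with two entries -/
def dd (i k : Fin n) (x y : F) : Mt n F := 1 + (x - 1) • single i i 1 + (y - 1) • single k k 1

theorem dd_eq {i k : Fin n} (h : i ≠ k) (x y : F) :
    dd i k x y = diagonal fun o => if o = i then x else if o = k then y else 1 := by
  ext o o'
  simp only [dd, Matrix.add_apply, Matrix.smul_apply, single, of_apply, one_apply, diagonal_apply,
    smul_eq_mul]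
  by_cases e : o = o'
  · subst e
    by_cases e1 : o = i
    · subst e1
      simp [h.symm]
    · by_cases e2 : o = k
      · subst e2
        simp [h, e1]
      · simp [e1, e2, Ne.symm e1, Ne.symm e2]
  · rw [if_neg e, if_neg e, if_neg fun h => e (h.1.symm.trans h.2),
      if_neg fun h => e (h.1.symm.trans h.2)]
    simp

/-- reflections -/
def rf (d : Fin n → F) (S : Finset (Fin n)) : Mt n F :=
  1 + (∑ i ∈ S, d i) • vecMulVec (fun i => if i ∈ S then 1 else 0) fun i => if i ∈ S then d i else 0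

theorem rf_dot (d : Fin n → F) (S : Finset (Fin n)) :
    (fun i => if i ∈ S then d i else 0) ⬝ᵥ (fun i => if i ∈ S then (1 : F) else 0) = ∑ i ∈ S, d i := by
  simp [dotProduct, ← ite_and]

theorem rf_sq {d : Fin n → F} {S : Finset (Fin n)} (h3 : (3 : F) = 0)
    (h : (∑ i ∈ S, d i) * ∑ i ∈ S, d i = 1) : rf d S * rf d S = 1 := by
  simp only [rf, mul_add, add_mul, mul_one, one_mul, smul_mul_assoc, mul_smul_comm,
    vecMulVec_mul_vecMulVec, rf_dot, vecMulVec_smul]
  generalize ∑ i ∈ S, d i = N at h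
  match_scalars
  · ring
  · linear_combination N * h + N * h3

theorem rf_det {d : Fin n → F} {S : Finset (Fin n)} (h3 : (3 : F) = 0)
    (h : (∑ i ∈ S, d i) * ∑ i ∈ S, d i = 1) : (rf d S).det = -1 := by
  rw [rf, ← vecMulVec_smul, vecMulVec_eq Unit, det_one_add_replicateCol_mul_replicateRow,
    smul_dotProduct, rf_dot, smul_eq_mul, h]
  linear_combination h3

theorem rf_adj {d : Fin n → F} (S : Finset (Fin n)) (h : ∀ i, d i * d i = 1) :
    diagonal d * (rf d S)ᵀ * diagonal d = rf d S := by
  ext i j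
  simp only [rf, mul_diagonal, diagonal_mul, transpose_apply, Matrix.add_apply, Matrix.smul_apply,
    vecMulVec_apply, smul_eq_mul, one_apply]
  generalize ∑ i ∈ S, d i = N
  by_cases e : i = j
  · subst e
    rw [if_pos rfl]
    split_ifs
    · linear_combination (1 + N * d i) * h i
    · linear_combination h i
  · rw [if_neg e, if_neg (Ne.symm e)]
    split_ifs
    · linear_combination N * d j * h i
    all_goals ring

end

theorem dref (hKA : KAStmt) (hKT : KTStmt) (hF : FrameStmt) : DRefStmt := by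
  intro F _ _ _ n c r H Q L δ E t D B hm hu hq ht ng hσ fx
  have ka := hKA F n c
  have kt := hKT F n c
  by_contra! n4
  obtain ⟨a, -, β, hβ, hE⟩ := hF F n c E B.fam B.sf
  have cF : Fintype.card F = 3 := by simpa [hu, hq] using c.hq
  have h3 : (3 : F) = 0 := by simpa [cF] using FiniteField.cast_card_eq_zero F
  have sq1 : ∀ x : F, x ≠ 0 → x * x = 1 := fun x hx => by
    simpa [cF, sq] using FiniteField.pow_card_sub_one_eq_one x hx
  have eβ : ∀ i, β i = kap a (single i i 1) := fun i => by
    obtain ⟨h1, h2⟩ := hE _ (hβ i)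
    rw [hm _ (hβ i), Finset.card_eq_one] at h2
    obtain ⟨k, hk⟩ := h2
    have h4 : ∀ j, β j = β i ↔ j = k := fun j => by simpa using Finset.ext_iff.1 hk j
    obtain rfl := (h4 i).1 rfl
    refine h1.trans (congrArg (cj a) ?_)
    simp only [dg, h4, ← diagonal_single]
    congr 1
    funext j
    simp [Pi.single_apply]
  obtain ⟨M, hM⟩ : ∃ M : Mt n F, M = (a⁻¹).1 * t.A.1 * (a⁻¹).1ᵀ := ⟨_, rfl⟩
  obtain ⟨M', hM'⟩ : ∃ M : Mt n F, M = a.1ᵀ * (t.A⁻¹).1 * a.1 := ⟨_, rfl⟩
  have MM : M' * M = 1 := by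
    rw [hM, hM', mul_assoc, mul_assoc, ← mul_assoc a.1, ← mul_assoc a.1, Units.mul_inv, one_mul,
      ← mul_assoc (t.A⁻¹).1, Units.inv_mul, one_mul, ← transpose_mul, Units.inv_mul, transpose_one]
  have ap : ∀ X, t.ap (kap a X) = kap a (M * Xᵀ * M') := fun X => by
    change t.ap (cj a X) = cj a _
    have : (cj a X).map t.σ = cj a X := by rw [hσ]; rfl
    simp only [Tau.ap, ng, if_true, this]
    simp [cj, hM, hM', mul_assoc]
  have dM : ∀ i j, i ≠ j → M i j = 0 := fun i j h => by
    have h1 := fx _ (hβ j)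
    rw [eβ, ap] at h1
    have h2 := congrArg (· * M) (kap_inj a h1)
    simp only [mul_assoc, MM, mul_one, transpose_single] at h2
    simpa [single_mul_apply_of_ne _ _ _ _ _ h] using congrFun (congrFun h2 i) j
  obtain ⟨d, rfl⟩ : ∃ d, M = diagonal d := ⟨M.diag, by
    ext i j
    by_cases h : i = j
    · simp [h]
    · simp [h, dM i j h]⟩
  have d0 : ∀ i, d i ≠ 0 := fun i h => by simpa [h] using congrFun (congrFun MM i) i
  have d1 : ∀ i, d i * d i = 1 := fun i => sq1 _ (d0 i)
  have eM : M' = diagonal d := by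
    have : diagonal d * diagonal d = 1 := by simp [diagonal_mul_diagonal, d1]
    rw [← mul_one M', ← this, ← mul_assoc, MM, one_mul]
  have apr : ∀ S, t.ap (kap a (rf d S)) = kap a (rf d S) := fun S => by rw [ap, eM, rf_adj S d1]
  obtain ⟨i0, i1, i2, S, e01, e12, e02, s0, s1, s2, hS⟩ : ∃ (i0 i1 i2 : Fin n) (S : Finset (Fin n)),
      i0 ≠ i1 ∧ i1 ≠ i2 ∧ i0 ≠ i2 ∧ i0 ∈ S ∧ i1 ∈ S ∧ i2 ∈ S ∧ ∑ i ∈ S, d i ≠ 0 := by
    refine ⟨⟨0, by omega⟩, ⟨1, by omega⟩, ⟨2, by omega⟩, ?_⟩
    by_cases h : ∑ i ∈ ({⟨0, by omega⟩, ⟨1, by omega⟩, ⟨2, by omega⟩} : Finset (Fin n)), d i = 0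
    · refine ⟨insert ⟨3, n4⟩ {⟨0, by omega⟩, ⟨1, by omega⟩, ⟨2, by omega⟩}, by simp, by simp, by simp,
        by simp, by simp, by simp, ?_⟩
      rw [Finset.sum_insert (by simp), h, add_zero]
      exact d0 _
    · exact ⟨_, by simp, by simp, by simp, by simp, by simp, by simp, h⟩
  have q1 := sq1 _ hS
  have q0 : (∑ i ∈ {i0}, d i) * ∑ i ∈ {i0}, d i = 1 := by simpa using d1 i0
  let g := gl a (rf d S * rf d {i0}) (rf d {i0} * rf d S) (by
    rw [mul_assoc, ← mul_assoc (rf d {i0}), rf_sq h3 q0, one_mul, rf_sq h3 q1])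
  have gS : g ∈ c.S := (ka.mem_S g).2 ⟨(ka.mem_St g).2 (by simp [hu]), by
    change (kap a _).det = 1
    rw [det_kap, det_mul, rf_det h3 q1, rf_det h3 q0]
    simp⟩
  have gδ : δ g = g := Units.ext (by
    rw [ht.2.2, if_pos ng]
    change t.ap (kap a _) = kap a _
    rw [map_mul, kt.mul' t ng, apr, apr, map_mul])
  have h1 := kt.hatM H _ B.inv g (D.fix g gS (by rw [gδ, mul_inv_cancel]; exact one_mem _)) _ (hβ i1)
  have h2 := (hE _ h1).1
  have h4 : cj g (β i1) =
      kap a (rf d S * rf d {i0} * single i1 i1 1 * (rf d {i0} * rf d S)) := by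
    rw [eβ, map_mul, map_mul _ _ (single i1 i1 1)]
    rfl
  have h5 := congrFun (congrFun (kap_inj a (h4.symm.trans h2)) i0) i2
  have k1 : rf d {i0} * single i1 i1 1 = single i1 i1 1 := by
    ext i j
    by_cases h : j = i1
    · subst h
      rw [mul_single_apply_same]
      simp [rf, vecMulVec_apply, e01.symm, one_apply, single, eq_comm (a := j)]
    · simp [mul_single_apply_of_ne _ _ _ _ _ h, Ne.symm h]
  have k2 : single i1 i1 1 * rf d {i0} = single i1 i1 1 := by
    ext i j
    by_cases h : i = i1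
    · subst h
      rw [single_mul_apply_same]
      simp [rf, vecMulVec_apply, e01.symm, one_apply, single]
    · simp [single_mul_apply_of_ne _ _ _ _ _ h, Ne.symm h]
  rw [mul_assoc (rf d S), k1, mul_assoc, ← mul_assoc (single i1 i1 1), k2, dg,
    diagonal_apply_ne _ e02, mul_apply, Finset.sum_eq_single i1
      (fun j _ h => by rw [single_mul_apply_of_ne _ _ _ _ _ h, mul_zero]) (by simp),
    single_mul_apply_same] at h5
  simp [rf, vecMulVec_apply, e01, e12, s0, s1, s2, hS, d0] at h5

theorem dml (hKA : KAStmt) (hKT : KTStmt) (hF : FrameStmt) (hC : CentStmt) (hD : DelKStmt) :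
    DmLStmt := by
  intro F _ _ _ n c r H Q L hr hu δ E m D B hm m2
  have ka := hKA F n c
  have kt := hKT F n c
  obtain ⟨t, ht⟩ := L.std δ D.dH
  obtain ⟨k1, -, k3, -, k5, -⟩ := hD F n c r H δ t L.prime D ht
  obtain ⟨a, -, β, hβ, hE⟩ := hF F n c E B.fam B.sf
  obtain ⟨e1, h1, e2, h2, e12⟩ := Finset.one_lt_card.1 B.two
  have ns : ¬ Scal e1 := fun ⟨k, e⟩ => by
    have := B.fam.orth e1 h1 e2 h2 e12
    rw [e, smul_mul_assoc, one_mul, smul_eq_zero] at this
    exact this.elim (fun h => B.fam.ne0 e1 h1 (by rw [e, h, zero_smul])) (B.fam.ne0 e2 h2)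
  obtain ⟨cen, -⟩ := hC F n c r H Q L _ B.inv ⟨e1, h1, ns⟩
  have mem : ∀ X X' h, X.det = 1 → (∀ i j, β i ≠ β j → X i j = 0) → gl a X X' h ∈ c.hat H :=
    fun X X' h hd hX => by
    refine cen _ ((ka.mem_S _).2 ⟨(ka.mem_St _).2 (by simp [hu]), (det_kap a X).trans hd⟩)
      fun e he => ?_
    rw [(hE e he).1]
    refine Commute.map (?_ : Commute X (dg β e)) (kap a)
    ext i j
    by_cases h : β i = β j
    · simp [dg, h, mul_comm]
    · simp [dg, hX i j h]
  have N0 : ∀ i j, kap a (single i j 1) ≠ 0 := fun i j h => by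
    simpa using congrFun (congrFun (kap_inj a (h.trans (map_zero _).symm)) i) j
  have tv : ∀ i j (x : F), kap a (transvection i j x) = 1 + x • kap a (single i j 1) :=
    fun i j x => by rw [← map_smul, smul_single, smul_eq_mul, mul_one, transvection, map_add, map_one]
  have fx : ∀ i j, i ≠ j → β i = β j → ∀ x : F,
      t.σ (if t.neg = true then -x else x) • t.ap (kap a (single i j 1)) =
        x • kap a (single i j 1) := fun i j h hb x => by
    have hi : transvection i j x * transvection i j (-x) = 1 := by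
      rw [transvection_mul_transvection_same _ _ h]; simp
    have := congrArg Units.val (k5 _ (mem _ _ hi (det_transvection_of_ne _ _ h x) fun k l hk => by
      have e1 : k ≠ l := fun e => hk (by rw [e])
      have e2 : ¬ (i = k ∧ j = l) := fun e => hk (by rw [← e.1, ← e.2, hb])
      simp [transvection, e1, e2]) ⟨2, by
        change (kap a _ - 1) ^ 2 = 0
        rw [tv, add_sub_cancel_left, sq, smul_mul_smul_comm, ← map_mul,
          single_mul_single_of_ne _ _ _ _ h.symm, map_zero, smul_zero]⟩)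
    rw [ht.2.2] at this
    refine add_left_cancel (a := 1) ?_
    rw [← kt.smul, ← tv]
    refine Eq.trans ?_ this
    conv_lhs => rw [← kt.one t, ← kt.add, ← tv]
    split_ifs <;> rfl
  have pr : ∀ e ∈ E, ∃ i j, i ≠ j ∧ β i = e ∧ β j = e := fun e he => by
    obtain ⟨i, hi, j, hj, h⟩ := Finset.one_lt_card.1 (((hE e he).2.trans (hm e he)).symm ▸ m2)
    exact ⟨i, j, h, (Finset.mem_filter.1 hi).2, (Finset.mem_filter.1 hj).2⟩
  obtain ⟨i, j, ij, bi, bj⟩ := pr e1 h1
  obtain ⟨k, l, kl, bk, bl⟩ := pr e2 h2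
  have ng : t.neg = true := by
    by_contra h
    have f1 := fx i j ij (bi.trans bj.symm)
    simp only [if_neg h] at f1
    have f2 := f1 1
    rw [map_one, one_smul, one_smul] at f2
    refine k3 (by simpa using h) (RingEquiv.ext fun x => ?_)
    have := f1 x
    rw [f2] at this
    exact smul_left_injective F (N0 i j) this
  simp only [if_pos ng] at fx
  have apN : ∀ i j, i ≠ j → β i = β j → t.ap (kap a (single i j 1)) = -kap a (single i j 1) :=
    fun i j h hb => by simpa using fx i j h hb (-1)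
  have hσ : ∀ x, t.σ x = x := fun x => by
    have := fx i j ij (bi.trans bj.symm) x
    rw [apN i j ij (bi.trans bj.symm), map_neg, neg_smul_neg] at this
    exact smul_left_injective F (N0 i j) this
  have apM : ∀ i j k, i ≠ j → j ≠ k → β i = β j → β j = β k →
      t.ap (kap a (single i k 1)) = kap a (single j k 1 * single i j 1) := fun i j k h h' b b' => by
    rw [show (single i k 1 : Mt n F) = single i j 1 * single j k 1 by simp, map_mul, kt.mul' t ng,
      apN _ _ h b, apN _ _ h' b', neg_mul_neg, map_mul]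
  have em : m = 2 := by
    by_contra h
    obtain ⟨x, y, z, hx, hy, hz, xy, xz, yz⟩ := Finset.two_lt_card_iff.1
      (((hE e1 h1).2.trans (hm e1 h1)).symm ▸ (by omega : 2 < m))
    have bx := (Finset.mem_filter.1 hx).2
    have b_y := (Finset.mem_filter.1 hy).2
    have bz := (Finset.mem_filter.1 hz).2
    have := apM x y z xy yz (bx.trans b_y.symm) (b_y.trans bz.symm)
    rw [single_mul_single_of_ne _ _ _ _ xz.symm, map_zero, apN x z xz (bx.trans bz.symm),
      neg_eq_zero] at this
    exact N0 _ _ this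
  have ne : ∀ x y, β x = e1 → β y = e2 → x ≠ y := fun x y hx hy e => e12 (by rw [← hx, ← hy, e])
  have ik := ne i k bi bk
  have il := ne i l bi bl
  have jk := ne j k bj bk
  have jl := ne j l bj bl
  have key : ∀ x : F, x ≠ 0 → x * x = 1 ∧ ∀ o, o ≠ i → o ≠ j → o ≠ k → o ≠ l → x = 1 :=
    fun x x0 => by
    have hi : dd i k x x⁻¹ * dd i k x⁻¹ x = 1 := by
      rw [dd_eq ik, dd_eq ik, diagonal_mul_diagonal, ← diagonal_one]
      congr 1
      funext o
      split_ifs <;> simp [x0]
    have := D.cen _ (mem _ _ hi (by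
      rw [dd_eq ik, det_diagonal, Finset.prod_eq_mul i k ik (fun o _ h => by simp [h.1, h.2])
        (by simp) (by simp)]
      simp [ik.symm, x0]) fun o o' h => by
        rw [dd_eq ik, diagonal_apply_ne _ fun e => h (by rw [e])])
    obtain ⟨z, -, e⟩ := (ka.mem_Z _).1 this
    rw [Units.val_mul, ht.2.2, if_pos ng] at e
    change t.ap (kap a _) * kap a _ = _ at e
    have ad : t.ap (kap a (dd i k x⁻¹ x)) = kap a (dd j l x⁻¹ x) := by
      simp only [dd, map_add, map_smul, map_one, kt.add, kt.smul, kt.one, hσ]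
      rw [apM i j i ij ij.symm (bi.trans bj.symm) (bj.trans bi.symm),
        apM k l k kl kl.symm (bk.trans bl.symm) (bl.trans bk.symm)]
      simp
    rw [ad, ← map_mul, ← map_one (kap a), ← map_smul] at e
    have e' := kap_inj a e
    rw [dd_eq jl, dd_eq ik, diagonal_mul_diagonal] at e'
    have ev := fun o => congrFun (congrFun e' o) o
    have v1 : x⁻¹ = z := by simpa [ij, il] using ev i
    have v2 : x = z := by simpa [jk.symm, kl, ik.symm] using ev k
    refine ⟨by rw [← mul_inv_cancel₀ x0, v1, ← v2], fun o o1 o2 o3 o4 => ?_⟩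
    rw [v2]
    simpa [o1, o2, o3, o4] using (ev o).symm
  have := c.chr
  have p2 : (-1 : F) ≠ 1 := Ring.neg_one_ne_one_of_char_ne_two (by
    rw [ringChar.eq F c.p]
    exact fun e => hr ((k1 ng).trans e.symm))
  refine ⟨?_, em, ?_⟩
  · have : ({i, j, k, l} : Finset (Fin n)) = Finset.univ := Finset.eq_univ_of_forall fun o => by
      by_contra h
      simp only [Finset.mem_insert, Finset.mem_singleton, not_or] at h
      exact p2 ((key (-1) (by simp)).2 o h.1 h.2.1 h.2.2.1 h.2.2.2)
    have h4 := congrArg Finset.card this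
    rw [Finset.card_univ, Fintype.card_fin, Finset.card_insert_of_notMem (by simp [ij, ik, il]),
      Finset.card_insert_of_notMem (by simp [jk, jl]), Finset.card_pair kl] at h4
    exact h4.symm
  · have hq : Fintype.card F = c.q := by simpa [hu] using c.hq
    rw [← hq, ← Finset.card_univ, Finset.card_eq_three]
    refine ⟨0, 1, -1, zero_ne_one, by simp, p2.symm, (Finset.eq_univ_of_forall fun x => ?_).symm⟩
    by_cases h : x = 0
    · simp [h]
    · rcases mul_self_eq_one_iff.1 (key x h).1 with e | e <;> simp [e]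

end Cfsg.Agent.H57.SwDref
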