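import Cfsg.Agent.H58.SWDefs

/-! Project SW (S3694): an invariant field is self-centralising. -/

set_option autoImplicit false
set_option linter.unusedSectionVars false
open Matrix Cfsg
open scoped commutatorElement

namespace Cfsg.Agent.H57.SwFld

open Cfsg.Agent.H58.SW

section Unit
variable {K : Type} [Field K] {ι : Type} [Fintype ι] [DecidableEq ι] {q : ℕ}

theorem vv_sq {v : ι → K} (hv : ∑ i, v i * v i ^ q = 0) :
    vecMulVec v (fun i => v i ^ q) * vecMulVec v (fun i => v i ^ q) = 0 := by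
  have : (fun i => v i ^ q) ⬝ᵥ v = 0 := by rw [dotProduct_comm]; exact hv
  rw [vecMulVec_mul_vecMulVec, this, zero_smul, vecMulVec_zero]

theorem tv_inv {v : ι → K} (hv : ∑ i, v i * v i ^ q = 0) (a : K) :
    (1 + (-a) • vecMulVec v fun i => v i ^ q) * (1 + a • vecMulVec v fun i => v i ^ q) = 1 := by
  simp only [mul_add, add_mul, mul_one, one_mul, smul_mul_assoc, mul_smul_comm, vv_sq hv, smul_zero]
  module

theorem tv_st (ad : ∀ a b : K, (a + b) ^ q = a ^ q + b ^ q)
    (ff : ∀ a : K, (a ^ q) ^ q = a) (v : ι → K) {a : K} (ha : a ^ q = -a) :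
    ((1 + a • vecMulVec v fun i => v i ^ q).map fun x => x ^ q)ᵀ =
      1 + (-a) • vecMulVec v fun i => v i ^ q := by
  ext i j
  by_cases h : i = j
  · subst h
    simp [vecMulVec_apply, ad, mul_pow, ff, ha, mul_comm]
  · simp [vecMulVec_apply, mul_pow, ff, ha, h, Ne.symm h, mul_comm]

end Unit

theorem fld (hKA : KAStmt) (hKT : KTStmt) (hKV : KVStmt) (hC : CentStmt) (hL : NglStmt)
    (h2 : Ngu2Stmt) (h3 : Ngu3Stmt) (fL : FisoLStmt) (fU : FisoUStmt) : FldStmt := by
  intro F _ _ _ n c r H Q L hr A hZ hA hI hab hf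
  have ka := hKA F n c
  have kt := hKT F n c
  have kv := hKV F n c
  have fi : FIso c A := by
    cases hu : c.u
    exacts [fL F n c hu A hab hf, fU F n c hu A hA hab hf]
  obtain ⟨K, _, _, _, s, j, Φ, ch, hj, cK, hs, inj, hc, hk, hU⟩ := fi
  have hn := c.hn
  have : Nonempty (Fin n) := ⟨⟨0, by omega⟩⟩
  have mA : ∀ a ∈ A, (a : Mt n F) ∈ spanG A := fun a ha => Submodule.subset_span ⟨a, ha, rfl⟩
  have m1 : (1 : Mt n F) ∈ spanG A := mA 1 (one_mem _)
  obtain ⟨a₀, a0A, a0Z⟩ := SetLike.exists_of_lt hZ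
  have ns : ¬ Scal (a₀ : Mt n F) := fun ⟨k, e⟩ =>
    a0Z ⟨hA a0A, Subgroup.mem_center_iff.2 fun g => Units.ext (by simp [e])⟩
  have he : 2 ≤ Module.finrank F (spanG A) := by
    by_contra! h
    obtain ⟨v, hv⟩ := finrank_le_one_iff.1 (Nat.le_of_lt_succ h)
    obtain ⟨k1, e1⟩ := hv ⟨1, m1⟩
    obtain ⟨k2, e2⟩ := hv ⟨a₀, mA _ a0A⟩
    have e1 : k1 • v.1 = 1 := congrArg Subtype.val e1
    have e2 : k2 • v.1 = a₀ := congrArg Subtype.val e2
    have k0 : k1 ≠ 0 := fun e => by simp [e] at e1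
    exact ns ⟨k2 / k1, by rw [← e1, ← e2, smul_smul, div_mul_cancel₀ _ k0]⟩
  suffices s1 : s = 1 by
    subst s1
    refine ⟨fun x hx => ?_, by omega⟩
    obtain ⟨y, rfl⟩ := (hc x).1 hx
    refine (hj _).2 ⟨y 0 0, ?_⟩
    rw [← hk]
    congr 1
    ext i k
    simp [Subsingleton.elim i 0, Subsingleton.elim k 0]
  generalize Module.finrank F (spanG A) = e at he cK hs hU
  by_contra s1
  have s2 : 2 ≤ s := by
    rcases s with _ | _ | s <;> omega
  obtain ⟨-, Y, YH, YI, hY⟩ := hC F n c r H Q L _ (kt.span H A hI) ⟨_, mA _ a0A, ns⟩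
  let φ : GL (Fin s) K →* Gl n F := Units.map (Φ : Matrix (Fin s) (Fin s) K →* Mt n F)
  have cφ : ∀ x, (φ x : Mt n F) = Φ x := fun _ => rfl
  let Ok : GL (Fin s) K → Prop := fun t => IsNilpotent (t.1 - 1) ∧ (c.u = true →
    (t.1.map fun a => a ^ c.q ^ e)ᵀ * t.1 = 1)
  have uni : ∀ t, Ok t → Unip (φ t) := fun t h => by
    have := h.1.map Φ
    rwa [map_sub, map_one] at this
  have inY : ∀ t, Ok t → φ t ∈ Y := fun t h => by
    refine (hY _).2 ⟨(ka.mem_S _).2 ⟨(ka.mem_St _).2 fun hu => ?_, kv.udet _ (uni t h)⟩,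
      fun x hx => ?_⟩
    · rw [cφ, ← (hU hu).2, ← map_mul, h.2 hu, map_one]
    · obtain ⟨k, rfl⟩ := (hj x).1 hx
      rw [cφ, ← hk]
      exact ((Commute.one_right _).smul_right k).map Φ
  have nrm : ∀ t, Ok t → ∀ x ∈ Q.comap φ, t * x * t⁻¹ ∈ Q.comap φ := fun t h x hx => by
    rw [Subgroup.mem_comap, map_mul, map_mul, map_inv]
    exact kt.hatG H Q L.inv _ (YH (inY t h)) _ hx
  have rg : ∀ x ∈ Q.comap φ, ∃ (k : ℕ) (a : K),
      ((x ^ r ^ k : GL (Fin s) K) : Matrix (Fin s) (Fin s) K) = a • 1 := fun x hx => by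
    obtain ⟨k, h⟩ := L.rgrp _ hx
    obtain ⟨a, -, e⟩ := (ka.mem_Z _).1 h
    obtain ⟨b, hb⟩ := (hj _).1 ((spanG A).smul_mem a m1)
    exact ⟨k, b, inj (by rw [hk, hb, ← e, ← map_pow, cφ])⟩
  suffices h : (∀ x ∈ Q.comap φ, ∃ a : K, x.1 = a • 1) ∧ ∃ t, Ok t ∧ t ≠ 1 by
    obtain ⟨sc, t, ht, t1⟩ := h
    have le : Y ⊔ c.Z ≤ Subgroup.centralizer (A : Set (Gl n F)) :=
      sup_le (fun y hy a ha => Units.ext (((hY y).1 hy).2 _ (mA a ha)).symm.eq)
        fun z hz a _ => (ka.zcomm z hz a).symm.eq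
    have ex : ∀ x ∈ Subgroup.centralizer (A : Set (Gl n F)), ∃ y, Φ y = x.1 := fun x hx =>
      (hc _).1 fun a ha => (congrArg Units.val (hx a ha)).symm
    have := L.chr Y YH YI _ (inY t ht) fun x hx => by
      obtain ⟨y, hy⟩ := ex x (le hx.2)
      obtain ⟨y', hy'⟩ := ex x⁻¹ (inv_mem (le hx.2))
      let g : GL (Fin s) K := ⟨y, y', inj (by rw [map_mul, hy, hy', Units.mul_inv, map_one]),
        inj (by rw [map_mul, hy, hy', Units.inv_mul, map_one])⟩
      have eg : φ g = x := Units.ext hy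
      obtain ⟨a, e⟩ := sc g (by rw [Subgroup.mem_comap, eg]; exact hx.1)
      have : Commute t g := Units.ext (by simp [e])
      rw [← eg, commutatorElement_eq_one_iff_commute.2 (this.map φ)]
      exact one_mem _
    have := congrArg Units.val (kv.nouni r H Q L hr _ this (uni t ht))
    exact t1 (Units.ext (inj (this.trans (map_one Φ).symm)))
  have q2 := ka.two_le
  have hq := c.hq
  let i0 : Fin s := ⟨0, by omega⟩
  let i1 : Fin s := ⟨1, by omega⟩
  have i01 : i0 ≠ i1 := fun e => absurd (congrArg Fin.val e) (by simp [i0, i1])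
  cases hu : c.u
  · have ok : ∀ (t : GL (Fin s) K) (i k : Fin s) (a : K), i ≠ k → t.1 = transvection i k a → Ok t :=
      fun t i k a h e => ⟨⟨2, by
        rw [e, transvection, add_sub_cancel_left, sq, single_mul_single_of_ne _ _ _ _ h.symm]⟩,
        fun h => by simp [hu] at h⟩
    refine ⟨hL K (Fin s) c.p r ch L.prime hr (by simpa using s2) (fun _ => ?_) _ rg
      fun t i k a h e => nrm t (ok t i k a h e), ?_⟩
    · rw [cK]
      exact (Nat.pow_le_pow_left (Fintype.one_lt_card (α := F)) 2).trans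
        (Nat.pow_le_pow_right Fintype.card_pos he)
    · refine ⟨⟨transvection i0 i1 1, transvection i0 i1 (-1), by
        rw [transvection_mul_transvection_same _ _ i01]; simp, by
        rw [transvection_mul_transvection_same _ _ i01]; simp⟩, ok _ i0 i1 1 i01 rfl, fun e => ?_⟩
      have : transvection i0 i1 (1 : K) i0 i1 = (1 : Matrix (Fin s) (Fin s) K) i0 i1 :=
        congrArg (fun g : GL (Fin s) K => g.1 i0 i1) e
      simp [transvection, i01] at this
  · rw [if_pos hu] at hq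
    obtain ⟨od, -⟩ := hU hu
    have e3 : 3 ≤ e := by
      obtain ⟨m, rfl⟩ := od
      omega
    have q8 : 8 ≤ c.q ^ e := (Nat.pow_le_pow_left q2 3).trans (Nat.pow_le_pow_right (by omega) e3)
    have cK' : Fintype.card K = (c.q ^ e) ^ 2 := by rw [cK, hq, ← pow_mul, ← pow_mul, mul_comm]
    have kb := hKA K 4 ⟨true, c.q ^ e, c.p, c.hp, ch, cK', by omega, by omega, by omega⟩
    have ad : ∀ a b : K, (a + b) ^ c.q ^ e = a ^ c.q ^ e + b ^ c.q ^ e := kb.fr_add rfl
    have ff : ∀ a : K, (a ^ c.q ^ e) ^ c.q ^ e = a := kb.fr_fr rfl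
    have q0 : c.q ^ e ≠ 0 := by omega
    have ng : ∀ a : K, (-a) ^ c.q ^ e = -a ^ c.q ^ e := fun a => by
      have := ad a (-a)
      rw [add_neg_cancel, zero_pow q0] at this
      linear_combination -this
    have ok : ∀ (t : GL (Fin s) K) (v : Fin s → K) (a : K), ∑ i, v i * v i ^ c.q ^ e = 0 →
        a ^ c.q ^ e = -a → t.1 = 1 + a • vecMulVec v (fun i => v i ^ c.q ^ e) → Ok t :=
      fun t v a hv ha h => ⟨⟨2, by
        rw [h, add_sub_cancel_left, sq, smul_mul_smul_comm, vv_sq hv, smul_zero]⟩,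
        fun _ => by rw [h, tv_st ad ff v ha, tv_inv hv]⟩
    have un : ∀ x ∈ Q.comap φ, (x.1.map fun a => a ^ c.q ^ e)ᵀ * x.1 = 1 := fun x hx => inj (by
      rw [map_mul, (hU hu).2, map_one]
      exact (ka.mem_St _).1 (L.qh hx).1 hu)
    refine ⟨?_, ?_⟩
    · by_cases h : s = 2
      · exact h2 K (Fin s) c.p r _ ch L.prime hr cK' (by simpa using h) (fun _ => by omega)
          (fun _ => by omega) _ un rg fun t v a hv ha h => nrm t (ok t v a hv ha h)
      · exact h3 K (Fin s) c.p r _ ch L.prime hr cK' (by simp; omega) (fun _ => by omega)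
          (fun _ => by omega) _ un rg fun t v a hv ha h => nrm t (ok t v a hv ha h)
    · obtain ⟨x, hx⟩ : ∃ x : K, x ^ c.q ^ e ≠ x := kb.fr_ne rfl
      obtain ⟨b, hb⟩ : ∃ b : K, b ^ (c.q ^ e + 1) = -1 :=
        kb.nsurj rfl (-1) (by simpa using ng 1) (by simp)
      have ha : (x ^ c.q ^ e + -x) ^ c.q ^ e = -(x ^ c.q ^ e + -x) := by rw [ad, ng, ff]; ring
      have a0 : x ^ c.q ^ e + -x ≠ 0 := fun h => hx (by linear_combination h)
      generalize x ^ c.q ^ e + -x = a at ha a0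
      let v : Fin s → K := fun i => if i = i0 then 1 else if i = i1 then b else 0
      have hv : ∑ i, v i * v i ^ c.q ^ e = 0 := by
        rw [Finset.sum_eq_add i0 i1 i01 (fun i _ h => by simp [v, h.1, h.2]) (by simp) (by simp)]
        simp only [v, if_pos, if_neg i01.symm, one_pow, ← pow_succ', hb]
        simp
      refine ⟨⟨_, _, by simpa using tv_inv hv (-a), tv_inv hv a⟩, ok _ v a hv ha rfl, fun h => ?_⟩
      have : (1 + a • vecMulVec v fun i => v i ^ c.q ^ e) i0 i0 =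
          (1 : Matrix (Fin s) (Fin s) K) i0 i0 := congrArg (fun g : GL (Fin s) K => g.1 i0 i0) h
      simp [vecMulVec_apply, v, a0] at this

end Cfsg.Agent.H57.SwFld
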