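import Cfsg.Agent.H53.TCKit

/-! Project TC: ENC-N. -/

set_option autoImplicit false

namespace Cfsg.Agent.H57.TcN

open Cfsg.Agent.H53.MW Cfsg.Agent.H53.TC

section Comb

variable {W K : Type*} [AddCommGroup W] [Field K] {b : W → W → Kˣ} {r : ℕ}

theorem nsmul_right (h : Alt b) (n : ℕ) (x y : W) : b x (n • y) = b x y ^ n := by
  rw [h.swap, h.nsmul_left, h.swap x, inv_pow, inv_inv]

theorem sub_right (h : Alt b) (x y z : W) : b x (y - z) = b x y * (b x z)⁻¹ := by
  rw [sub_eq_add_neg, h.r, h.neg_right]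

theorem ord (h : Alt b) (hr : r.Prime) (rW : ∀ w : W, r • w = 0) {d c : W} (hc : b d c ≠ 1) :
    orderOf (b d c) = r :=
  haveI := Fact.mk hr
  orderOf_eq_prime (by rw [← nsmul_right h, rW, h.zero_right]) hc

theorem dec (h : Alt b) (hr : r.Prime) (rW : ∀ w : W, r • w = 0) {d c : W} (hc : b d c ≠ 1)
    (w : W) : ∃ (j : ℕ) (u : W), b d u = 1 ∧ w = j • c + u := by
  have : NeZero r := ⟨hr.ne_zero⟩
  have h1 : IsPrimitiveRoot (b d c) r := ord h hr rW hc ▸ IsPrimitiveRoot.orderOf _
  obtain ⟨j, -, e⟩ := h1.eq_pow_of_mem_rootsOfUnity (ξ := b d w)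
    (by rw [mem_rootsOfUnity, ← nsmul_right h, rW, h.zero_right])
  exact ⟨j, w - j • c, by rw [sub_right h, nsmul_right h, e, mul_inv_cancel], by abel⟩

theorem pow_ne (h : Alt b) (hr : r.Prime) (rW : ∀ w : W, r • w = 0) {d c : W} (hc : b d c ≠ 1)
    {i j : ℕ} (hi : i < r) (hj : j < r) (e : b d c ^ i = b d c ^ j) : i = j := by
  rw [← ord h hr rW hc] at hi hj
  exact pow_injOn_Iio_orderOf hi hj e

/-- the support of the encoding vector -/
def InB (b : W → W → Kˣ) (D : AddSubgroup W) (d c w : W) : Prop :=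
  b d w = 1 ∨ b d w = b d c ∨ w - 2 • c ∈ D

theorem comb [Finite W] (h : Alt b) (hr : r.Prime) (r2 : r ≠ 2) (rW : ∀ w : W, r • w = 0)
    (big : 5 ≤ r ∨ 9 < Nat.card W) {D : AddSubgroup W} (hD : h.perp D = D) {d c : W} (hd : d ∈ D)
    (hc : b d c ≠ 1) (ρ : W ≃+ W) (hB : ∀ w, InB b D d c (ρ w) ↔ InB b D d c w)
    (ρD : ∀ w ∈ D, ρ w ∈ D) : ρ c - c ∈ D ∧ ∀ u, b d u = 1 → b d (ρ u) = 1 := by
  have dD : ∀ w ∈ D, b d w = 1 := fun w hw => (hD.ge hw) d hd
  have val : ∀ w, InB b D d c w → b d w = b d c ^ 0 ∨ b d w = b d c ^ 1 ∨ b d w = b d c ^ 2 := by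
    rintro w (e | e | e)
    · exact Or.inl (by rw [e, pow_zero])
    · exact Or.inr (Or.inl (by rw [e, pow_one]))
    · have := dD _ e
      rw [sub_right h, nsmul_right h, mul_inv_eq_one] at this
      exact Or.inr (Or.inr this)
  have r3 : 3 ≤ r := by have := hr.two_le; omega
  have ne := @pow_ne W K _ _ b r h hr rW d c hc
  have top : ∀ w, InB b D d c w → b d w = b d c ^ 2 → w - 2 • c ∈ D := by
    rintro w (e | e | e) e'
    · exact absurd (ne (i := 0) (j := 2) (by omega) (by omega) (by rw [← e', e, pow_zero])) (by omega)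
    · exact absurd (ne (i := 1) (j := 2) (by omega) (by omega) (by rw [← e', e, pow_one])) (by omega)
    · exact e
  have half : ∀ w, 2 • w ∈ D → w ∈ D := fun w hw => by
    obtain ⟨k, hk⟩ := hr.odd_of_ne_two r2
    have := rW w
    rw [hk, add_smul, mul_comm, mul_smul, one_smul, add_eq_zero_iff_eq_neg] at this
    rw [← neg_mem_iff, ← this]
    exact D.nsmul_mem hw k
  have b2 : InB b D d c (ρ (2 • c)) := (hB _).2 (Or.inr (Or.inr (by simp)))
  have fin : b d (ρ (2 • c)) = b d c ^ 2 → ρ c - c ∈ D := fun e => half _ (by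
    have := top _ b2 e
    rwa [map_nsmul, ← smul_sub] at this)
  by_cases r5 : 5 ≤ r
  · have hZ : ∀ u, b d u = 1 → b d (ρ u) = 1 := by
      intro u hu
      have key : ∀ k : ℕ, b d (ρ u) ^ k = b d c ^ 0 ∨ b d (ρ u) ^ k = b d c ^ 1 ∨
          b d (ρ u) ^ k = b d c ^ 2 := fun k => by
        rw [← nsmul_right h, ← map_nsmul]
        exact val _ ((hB _).2 (Or.inl (by rw [nsmul_right h, hu, one_pow])))
      rcases key 1 with e | e | e <;> rw [pow_one] at e
      · rw [e, pow_zero]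
      · have := key 3
        rw [e, ← pow_mul] at this
        rcases this with e | e | e <;> exact absurd (ne (by omega) (by omega) e) (by omega)
      · have := key 2
        rw [e, ← pow_mul] at this
        rcases this with e | e | e <;> exact absurd (ne (by omega) (by omega) e) (by omega)
    refine ⟨fin ?_, hZ⟩
    rcases val _ ((hB c).2 (Or.inr (Or.inl rfl))) with e | e | e
    · obtain ⟨j, u, hu, e'⟩ := dec h hr rW hc (ρ.symm c)
      refine (hc ?_).elim
      rw [← ρ.apply_symm_apply c, e', map_add, map_nsmul, h.r, nsmul_right h, e, hZ u hu]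
      simp
    · rw [map_nsmul, nsmul_right h, e, pow_one]
    · have := val _ b2
      rw [map_nsmul, nsmul_right h, e, ← pow_mul] at this
      rcases this with e | e | e <;> exact absurd (ne (by omega) (by omega) e) (by omega)
  obtain rfl : r = 3 := by
    have : r ≠ 4 := by rintro rfl; exact absurd hr (by decide)
    omega
  have z3 : b d c ^ 3 = 1 := by rw [← nsmul_right h, rW, h.zero_right]
  have out : ∀ u, b d u = 1 → u ∉ D → b d (ρ (2 • c + u)) = b d c ^ 2 := by
    intro u hu hu'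
    have h1 : ¬ InB b D d c (ρ (2 • c + u)) := fun e => hu' (by
      simpa using top _ ((hB _).1 e) (by rw [h.r, nsmul_right h, hu, mul_one]))
    obtain ⟨j, v, hv, e⟩ := dec h hr rW hc (ρ (2 • c + u))
    have e' : b d (ρ (2 • c + u)) = b d c ^ (j % 3) := by
      rw [e, h.r, nsmul_right h, hv, mul_one, ← ord h hr rW hc, pow_mod_orderOf]
    have : j % 3 < 3 := Nat.mod_lt _ (by norm_num)
    interval_cases j % 3
    · exact (h1 (Or.inl (by rw [e', pow_zero]))).elim
    · exact (h1 (Or.inr (Or.inl (by rw [e', pow_one])))).elim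
    · exact e'
  obtain ⟨z, hz, hz'⟩ : ∃ z, b d z = 1 ∧ z ∉ D := by
    by_contra hcon
    push Not at hcon
    have h1 := h.card_mul (AddSubgroup.zmultiples d)
    have h2 : Nat.card (h.perp (AddSubgroup.zmultiples d)) ≤ Nat.card D :=
      AddSubgroup.card_le_of_le fun w hw => hcon w (hw d (AddSubgroup.mem_zmultiples d))
    have h3 : Nat.card (AddSubgroup.zmultiples d) ≤ 3 := by
      rw [Nat.card_zmultiples]
      exact Nat.le_of_dvd (by norm_num) (addOrderOf_dvd_of_nsmul_eq_zero (rW d))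
    have h4 := h.card_mul D
    rw [hD] at h4
    have h5 := Nat.mul_le_mul h3 h2
    have h6 := big.resolve_left r5
    nlinarith
  have e2 : b d (ρ (2 • c)) = b d c ^ 2 := by
    have e : 2 • c = -(2 • c + z) - (2 • c + -z) := by
      have := rW (2 • c)
      rw [← sub_eq_zero, ← this]; abel
    rw [e, map_sub, map_neg, sub_right h, h.neg_right, out z hz hz',
      out (-z) (by rw [h.neg_right, hz, inv_one]) (by rwa [neg_mem_iff]), ← mul_inv, inv_eq_iff_mul_eq_one,
      ← pow_add, ← pow_add, show 2 + 2 + 2 = 3 * 2 from rfl, pow_mul, z3, one_pow]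
  refine ⟨fin e2, fun u hu => ?_⟩
  by_cases hu' : u ∈ D
  · exact dD _ (ρD u hu')
  have := out u hu hu'
  rwa [map_add, h.r, e2, mul_eq_left] at this

end Comb

universe u

theorem encN : EncNStmt.{u} := by
  intro L V K W _ _ _ _ _ _ _ _ _ _ _ _ σ G T π b r N r2 big d c hc
  classical
  have h := N.alt
  obtain ⟨D, hd, -, hD⟩ := h.exists_lagr_pair (h.self d)
  obtain ⟨x, hx, he⟩ := N.exists_vec r2 hD.ge
  have dD : ∀ w ∈ D, b d w = 1 := fun w hw => (hD.ge hw) d hd
  have cong : ∀ {u v : W}, u - v ∈ D → b d u = b d v := fun e => by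
    have := dD _ e
    rwa [h.sub_right, div_eq_one] at this
  choose l hl hl' using N.surj
  obtain ⟨τ, hτ, hτ', τ0⟩ : ∃ τ : W ⧸ D → L, (∀ q, τ q ∈ T) ∧ (∀ q, (π (τ q) : W ⧸ D) = q) ∧
      τ 0 = 1 := by
    refine ⟨fun q => if q = 0 then 1 else l q.out, fun q => ?_, fun q => ?_, if_pos rfl⟩
    · beta_reduce
      split_ifs
      exacts [T.one_mem, hl _]
    · beta_reduce
      split_ifs with e
      · rw [N.one, e]; rfl
      · rw [hl', QuotientAddGroup.out_eq']
  have qeq : ∀ {u v : W}, (u : W ⧸ D) = v ↔ u - v ∈ D := QuotientAddGroup.eq_iff_sub_mem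
  have τD : ∀ u : W, π (τ u) - u ∈ D := fun u => qeq.1 (hτ' u)
  let Z := {q : W ⧸ D // b d (π (τ q)) = 1}
  have := Fintype.ofFinite Z
  let t : Option (Z ⊕ Z) → L := fun i => i.elim (l c * l c) (Sum.elim (fun q => τ q.1)
    fun q => l c * τ q.1)
  let κ : Option (Z ⊕ Z) → K := fun i => i.elim 1 (Sum.elim
    (fun q => if q.1 = 0 then (b d c : K) else 1) fun _ => 1)
  have ht : ∀ i, t i ∈ T := by
    rintro (_ | q | q)
    exacts [T.mul_mem (hl c) (hl c), hτ _, T.mul_mem (hl c) (hτ _)]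
  have p0 : π (t none) = 2 • c := by
    show π (l c * l c) = _
    rw [N.mul _ (hl c) _ (hl c), hl', two_smul]
  have p1 : ∀ q : Z, π (t (some (.inl q))) = π (τ q.1) := fun _ => rfl
  have p2 : ∀ q : Z, π (t (some (.inr q))) = c + π (τ q.1) := fun q => by
    show π (l c * τ q.1) = _
    rw [N.mul _ (hl c) _ (hτ _), hl']
  have v0 : b d (π (t none)) = b d c ^ 2 := by rw [p0, h.nsmul_right]
  have v1 : ∀ q : Z, b d (π (t (some (.inl q)))) = b d c ^ 0 := fun q => by rw [p1, q.2, pow_zero]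
  have v2 : ∀ q : Z, b d (π (t (some (.inr q)))) = b d c ^ 1 := fun q => by
    rw [p2, h.r, q.2, mul_one, pow_one]
  have r3 : 3 ≤ r := by have := N.prime.two_le; omega
  have ne := @pow_ne W K _ _ b r h N.prime N.rW d c hc
  have inj : ∀ i j, π (t i) - π (t j) ∈ D → i = j := by
    rintro (_ | q | q) (_ | q' | q') e
    any_goals
      have := cong e
      simp only [v0, v1, v2] at this
      first
        | exact absurd (ne (by omega) (by omega) this) (by omega)
        | skip
    · rfl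
    · rw [p1, p1, ← qeq, hτ', hτ'] at e
      rw [Subtype.ext e]
    · rw [p2, p2, add_sub_add_left_eq_sub, ← qeq, hτ', hτ'] at e
      rw [Subtype.ext e]
  have hκ : ∀ i, κ i ≠ 0 := by
    rintro (_ | q | q)
    · exact one_ne_zero
    · show (if _ then _ else _) ≠ _
      split_ifs
      exacts [(b d c).ne_zero, one_ne_zero]
    · exact one_ne_zero
  have mkZ : ∀ u : W, b d u = 1 → b d (π (τ u)) = 1 := fun u hu => by rw [cong (τD u), hu]
  have inB : ∀ w, InB b D d c w ↔ ∃ i, w - π (t i) ∈ D := by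
    intro w
    constructor
    · rintro (e | e | e)
      · exact ⟨some (.inl ⟨w, mkZ w e⟩), by rw [p1]; simpa using neg_mem (τD w)⟩
      · refine ⟨some (.inr ⟨(w - c : W), mkZ _ (by rw [h.sub_right, e, div_self'])⟩), ?_⟩
        rw [p2, ← sub_sub]; simpa using neg_mem (τD (w - c))
      · exact ⟨none, p0 ▸ e⟩
    · rintro ⟨_ | q | q, e⟩
      · exact Or.inr (Or.inr (p0 ▸ e))
      · exact Or.inl (by rw [cong e, v1, pow_zero])
      · exact Or.inr (Or.inl (by rw [cong e, v2, pow_one]))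
  refine ⟨x, ∑ i, κ i • t i • x, fun f hf hy => ?_⟩
  have sB : ∀ f : L, f • x = x → f • ∑ i, κ i • t i • x = ∑ i, κ i • t i • x →
      ∀ w, InB b D d c w → InB b D d c (f • w) := by
    intro f hf hy w hw
    obtain ⟨i, hi⟩ := (inB w).1 hw
    obtain ⟨j, hj, -⟩ := N.supp hD hx he t ht inj κ hκ hf hy i
    refine (inB _).2 ⟨j, ?_⟩
    have := add_mem (N.smul_mem hD hx he hf hi) hj
    rwa [smul_sub, sub_add_sub_cancel] at this
  have fD : ∀ w ∈ D, f • w ∈ D := fun w hw => N.smul_mem hD hx he hf hw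
  have fD' : ∀ w, f • w ∈ D → w ∈ D := fun w hw => by
    simpa using N.smul_mem hD hx he (inv_smul_eq_iff.2 hf.symm) hw
  obtain ⟨c1, c2⟩ := comb h N.prime r2 N.rW big hD hd hc (DistribMulAction.toAddEquiv W f)
    (fun w => ⟨fun e => by
      simpa using sB f⁻¹ (inv_smul_eq_iff.2 hf.symm) (inv_smul_eq_iff.2 hy.symm) _ e,
      sB f hf hy w⟩) fD
  replace c1 : f • c - c ∈ D := c1
  replace c2 : ∀ u, b d u = 1 → b d (f • u) = 1 := c2
  have mt : ∀ i j, f • π (t i) - π (t j) ∈ D → σ f (κ i) • f • t i • x = κ j • t j • x := by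
    intro i j e
    obtain ⟨j', e1, e2⟩ := N.supp hD hx he t ht inj κ hκ hf hy i
    have := sub_mem e e1
    rw [sub_sub_sub_cancel_left] at this
    rwa [inj _ _ this] at e2
  let z0 : Z := ⟨0, by rw [τ0, N.one, h.zero_right]⟩
  have σζ : σ f (b d c : K) = b d c := by
    have := mt (some (.inl z0)) (some (.inl z0)) (by
      rw [p1, show z0.1 = 0 from rfl, τ0, N.one]; simp)
    simp only [κ, t, z0, Option.elim, Sum.elim_inl, if_true, τ0, one_smul, hf] at this
    exact unique_scal hx this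
  obtain ⟨s, hs, hsc, hsv⟩ : ∃ s ∈ T, π s = f • c - c ∧ ∀ v : V, f • l c • v = l c • s • f • v := by
    refine ⟨(l c)⁻¹ * (f * l c * f⁻¹), T.mul_mem (T.inv_mem (hl c)) (N.conj_mem f (hl c)), ?_,
      fun v => by simp [mul_smul]⟩
    rw [N.mul _ (T.inv_mem (hl c)) _ (N.conj_mem f (hl c)), N.inv (hl c), N.conj f _ (hl c), hl',
      neg_add_eq_sub]
  have sx : s • x = x := by
    have := mt (some (.inr z0)) (some (.inr z0)) (by
      rw [p2, show z0.1 = 0 from rfl, τ0, N.one, add_zero]; exact c1)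
    simpa only [κ, t, z0, Option.elim, Sum.elim_inr, τ0, mul_one, map_one, one_smul, hsv, hf,
      smul_left_cancel_iff] using this
  have bs : ∀ t' ∈ T, s • t' • x = t' • x → b (π s) (π t') = 1 := fun t' ht' e => by
    rw [N.hb s hs t' ht', sx] at e
    exact Units.ext (unique_scal ((smul_ne_zero_iff_ne t').2 hx) (e.trans (one_smul K _).symm))
  have s1 : b (π s) c = 1 := by
    have := mt none none (by rw [p0, smul_comm, ← smul_sub]; exact D.nsmul_mem c1 2)
    simp only [κ, t, Option.elim, map_one, one_smul, mul_smul, hsv, hf, sx,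
      smul_left_cancel_iff] at this
    simpa only [hl'] using bs _ (hl c) this
  have sD : ∀ w ∈ D, b (π s) w = 1 := fun w hw => (hD.ge hw) _ (hsc ▸ c1)
  have s2 : ∀ u, b d u = 1 → b (π s) (f • u) = 1 := by
    intro u hu
    have e0 : f • π (τ u) - π (τ (f • u : W)) ∈ D := by
      have := sub_mem (fD _ (τD u)) (τD (f • u))
      rwa [smul_sub, sub_sub_sub_cancel_right] at this
    have a1 := mt (some (.inl ⟨u, mkZ u hu⟩)) (some (.inl ⟨(f • u : W), mkZ _ (c2 u hu)⟩)) e0
    have a2 := mt (some (.inr ⟨u, mkZ u hu⟩)) (some (.inr ⟨(f • u : W), mkZ _ (c2 u hu)⟩)) (by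
      rw [p2, p2, smul_add, add_sub_add_comm]; exact add_mem c1 e0)
    have a3 : f • τ u • x = τ (f • u : W) • x := by
      simp only [κ, t, Option.elim, Sum.elim_inl, QuotientAddGroup.eq_zero_iff] at a1
      by_cases hu0 : u ∈ D
      · rw [if_pos hu0, if_pos (fD u hu0), σζ] at a1
        exact smul_right_injective V (b d c).ne_zero a1
      · rwa [if_neg hu0, if_neg fun e => hu0 (fD' u e), map_one, one_smul, one_smul] at a1
    simp only [κ, t, Option.elim, Sum.elim_inr, map_one, one_smul, mul_smul, hsv, a3,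
      smul_left_cancel_iff] at a2
    have a4 := sD _ (τD (f • u))
    rwa [h.sub_right, bs _ (hτ _) a2, one_div, inv_eq_one] at a4
  have all : ∀ w, ∃ (j : ℕ) (u : W), b d u = 1 ∧ w = f • (j • c + u) := fun w => by
    obtain ⟨j, u, hu, e⟩ := dec h N.prime N.rW hc (f⁻¹ • w)
    exact ⟨j, u, hu, by rw [← e, smul_inv_smul]⟩
  have fc : f • c = c := by
    rw [← sub_eq_zero, ← hsc]
    refine h.nd _ fun w => ?_
    obtain ⟨j, u, hu, rfl⟩ := all w
    rw [smul_add, smul_comm, h.r, h.nsmul_right, s2 u hu, eq_add_of_sub_eq hsc.symm, h.r, h.self,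
      s1, one_mul, one_pow, one_mul]
  refine ⟨h.ext fun w => Units.ext ?_, fc⟩
  obtain ⟨j, u, hu, rfl⟩ := all w
  rw [N.bs, smul_add, smul_comm, fc, h.r, h.r, hu, c2 u hu, mul_one, h.nsmul_right,
    Units.val_pow_eq_pow_val, map_pow, σζ]

end Cfsg.Agent.H57.TcN
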