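import Cfsg.Agent.H42.VpDefs

set_option autoImplicit false

namespace Cfsg.Agent.H57.VpI2

open Subgroup Cfsg.Agent.H42.Vp

universe u

theorem cover {H : Type u} [Group H] [Finite H] (C : Subgroup H)
    (h : ∀ k : H, ∃ g : H, g * k * g⁻¹ ∈ C) : C = ⊤ := by
  let f : (H ⧸ C) × C → H := fun x => x.1.out * x.2 * x.1.out⁻¹
  have hf : Function.Surjective f := by
    intro k
    obtain ⟨g, hg⟩ := h k
    obtain ⟨c0, hc0⟩ := QuotientGroup.mk_out_eq_mul C g⁻¹
    refine ⟨(QuotientGroup.mk g⁻¹, c0⁻¹ * ⟨_, hg⟩ * c0), ?_⟩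
    simp only [f, hc0, Subgroup.coe_mul, Subgroup.coe_inv]
    group
  have hc : Nat.card ((H ⧸ C) × C) ≤ Nat.card H := by
    rw [Nat.card_prod, ← Subgroup.card_eq_card_quotient_mul_card_subgroup]
  have hi := (hf.bijective_of_nat_card_le hc).1
  rw [eq_top_iff]
  intro g _
  have h1 : f (QuotientGroup.mk 1, 1) = f (QuotientGroup.mk g, 1) := by simp [f]
  have h2 := congrArg Prod.fst (hi h1)
  simpa using QuotientGroup.eq.1 h2

theorem i2 : I2Stmt.{u} := by
  intro G _ _ p hp K _ x hK hx hinv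
  classical
  obtain ⟨m, hm⟩ := hx
  have : Fact p.Prime := ⟨hp⟩
  have key : ∀ k : K, ∃ g : K, g * k * g⁻¹ ∈ (centralizer ({x} : Set G)).subgroupOf K := by
    intro k
    let S := MulAction.orbit (ConjAct K) k
    have hS : ∀ y : K, y ∈ S ↔ ∃ g : K, g * k * g⁻¹ = y := by
      intro y
      constructor
      · rintro ⟨g, hg⟩
        exact ⟨ConjAct.ofConjAct g, hg⟩
      · rintro ⟨g, hg⟩
        exact ⟨ConjAct.toConjAct g, hg⟩
    have := Fintype.ofFinite S
    let f : Function.End S := fun y =>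
      ⟨⟨x * (y.1 : G) * x⁻¹, ‹K.Normal›.conj_mem _ y.1.2 x⟩, by
        obtain ⟨g, hg⟩ := (hS y.1).1 y.2
        obtain ⟨h, hh, e⟩ := hinv y.1 y.1.2
        refine (hS _).2 ⟨⟨h, hh⟩ * g, Subtype.ext ?_⟩
        have hg' := congrArg Subtype.val hg
        simp only [Subgroup.coe_mul, Subgroup.coe_inv] at hg' ⊢
        rw [e, ← hg']; group⟩
    have hpow : ∀ (n : ℕ) (y : S), (((f ^ n) y).1 : G) = x ^ n * (y.1 : G) * (x ^ n)⁻¹ := by
      intro n
      induction n with
      | zero => intro y; simp [Function.End.one_def]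
      | succ n ih =>
        intro y
        rw [pow_succ']
        change x * (((f ^ n) y).1 : G) * x⁻¹ = _
        rw [ih]; group
    have hf : f ^ p ^ m = 1 := by
      funext y
      apply Subtype.ext
      apply Subtype.ext
      rw [hpow, hm]
      simp [Function.End.one_def]
    have hmod := Equiv.Perm.card_fixedPoints_modEq hf
    have hd : Fintype.card S ∣ Nat.card K := by
      rw [← Nat.card_eq_fintype_card]
      have e : Nat.card S * Nat.card (MulAction.stabilizer (ConjAct K) k) = Nat.card (ConjAct K) := by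
        rw [← Nat.card_prod]
        exact Nat.card_congr (MulAction.orbitProdStabilizerEquivGroup (ConjAct K) k)
      exact ⟨_, e.symm⟩
    have hne : Fintype.card f.fixedPoints ≠ 0 := by
      intro h0
      rw [h0] at hmod
      have h1 : p ∣ Fintype.card S := (Nat.modEq_zero_iff_dvd).1 hmod
      exact (hp.coprime_iff_not_dvd.1 hK.symm) (h1.trans hd)
    obtain ⟨⟨y, hy⟩⟩ := Fintype.card_pos_iff.1 (Nat.pos_of_ne_zero hne)
    obtain ⟨g, hg⟩ := (hS y.1).1 y.2
    refine ⟨g, ?_⟩
    rw [hg, mem_subgroupOf, mem_centralizer_singleton_iff]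
    have h2 : x * (y.1 : G) * x⁻¹ = y.1 := congrArg (fun z : S => (z.1 : G)) hy
    calc (y.1 : G) * x = x * (y.1 : G) * x⁻¹ * x := by rw [h2]
      _ = x * y.1 := by group
  have ht := cover _ key
  rw [mem_centralizer_iff]
  intro k hk
  have h3 : (⟨k, hk⟩ : K) ∈ (centralizer ({x} : Set G)).subgroupOf K := ht ▸ mem_top _
  rw [mem_subgroupOf, mem_centralizer_singleton_iff] at h3
  exact h3

end Cfsg.Agent.H57.VpI2
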